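import Mathlib.GroupTheory.Sylow

/-!
A power-commutator presentation of a group of order `3 ^ 10`; elements are coded by their exponent
vectors, read as numbers in base three.
-/

set_option autoImplicit false

namespace Cfsg.Agent.ThS

/-- Five base-three digits of `n` as a word in the letters `k, …, k + 4`. -/
def Wd (k n : ℕ) : List ℕ := (List.range 5).flatMap fun i => List.replicate (n / 3 ^ (4 - i) % 3) (k + i)

/-- The normal word with code `c`. -/
def W (c : ℕ) : List ℕ := Wd 0 (c / 243) ++ Wd 5 (c % 243)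

/-- The code of the cube of the `i`-th generator. -/
def cube (i : ℕ) : ℕ := [0, 0, 0, 3, 2, 0, 0, 0, 0, 0].getD i 0

/-- The code of the conjugate of the `j`-th generator under the `i`-th one (`i < j`). -/
def cjg (j i : ℕ) : ℕ := (([[], [7933], [2188, 2281], [987, 894, 789], [248, 298, 261, 262],
  [126, 84, 83, 81, 84], [36, 27, 27, 33, 28, 27], [9, 12, 9, 10, 9, 9, 9],
  [4, 3, 3, 3, 3, 3, 3, 3], [1, 1, 1, 1, 1, 1, 1, 1, 1]] : List (List ℕ)).getD j []).getD i 0

variable {G : Type*} [Group G]

/-- The element with code `c`. -/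
def nf (y : ℕ → G) (c : ℕ) : G := ((W c).map y).prod

/-- The relations. -/
structure Rel (y : ℕ → G) : Prop where
  cube : ∀ i < 10, y i ^ 3 = nf y (cube i)
  conj : ∀ j < 10, ∀ i < j, y j * y i = y i * nf y (cjg j i)
  ne : y 9 ≠ 1

/-- `y 0, …, y 9` satisfy the relations and generate. -/
structure PC (y : ℕ → G) : Prop extends Rel y where
  gen : ∀ H : Subgroup G, (∀ i < 10, y i ∈ H) → H = ⊤

theorem nf_map {H : Type*} [Group H] (f : G →* H) (y : ℕ → G) (c : ℕ) :
    nf (fun i => f (y i)) c = f (nf y c) := by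
  rw [nf, nf, map_list_prod, List.map_map]; rfl

theorem Rel.of_inj {H : Type*} [Group H] {f : G →* H} (hf : Function.Injective f) {y : ℕ → G}
    (h : Rel fun i => f (y i)) : Rel y :=
  ⟨fun i hi => hf (by rw [map_pow, ← nf_map]; exact h.cube i hi),
    fun j hj i hi => hf (by rw [map_mul, map_mul, ← nf_map]; exact h.conj j hj i hi),
    fun e => h.ne (by rw [e, map_one])⟩

theorem PC.map {H : Type*} [Group H] (e : G ≃* H) {y : ℕ → G} (h : PC y) : PC fun i => e (y i) :=
  ⟨⟨fun i hi => by rw [← map_pow, h.cube i hi]; exact (nf_map e.toMonoidHom y _).symm,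
    fun j hj i hi => by
      rw [← map_mul, h.conj j hj i hi, map_mul]
      exact congrArg _ (nf_map e.toMonoidHom y _).symm,
    fun e' => h.ne (e.injective (e'.trans (map_one e).symm))⟩,
    fun K hK => eq_top_iff.2 fun x _ => by
      have := h.gen (K.comap e.toMonoidHom) hK
      have hx : e.symm x ∈ K.comap e.toMonoidHom := this ▸ Subgroup.mem_top _
      simpa using hx⟩

end Cfsg.Agent.ThS
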