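import Cfsg.Agent.Lib.ThS.Tab0

/-!
Soundness of the arithmetic of codes; the order of the group; the coordinate subgroups.
-/

set_option autoImplicit false

namespace Cfsg.Agent.ThS

open Subgroup

variable {G : Type*} [Group G] {y : ℕ → G}

theorem Wd_zero (k : ℕ) : Wd k 0 = [] := by simp [Wd]

theorem nf_zero : nf y 0 = 1 := by simp [nf, W, Wd_zero]

theorem nf_lo {v : ℕ} (hv : v < 243) : nf y (1 * v) = ((Wd 5 v).map y).prod := by
  rw [one_mul, nf, W, Nat.div_eq_of_lt hv, Nat.mod_eq_of_lt hv, Wd_zero, List.nil_append]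

theorem nf_hi (q : ℕ) : nf y (243 * q) = ((Wd 0 q).map y).prod := by
  rw [nf, W, Nat.mul_div_cancel_left _ (by decide), Nat.mul_mod_right, Wd_zero, List.append_nil]

theorem nf_split (c : ℕ) : nf y c = nf y (243 * (c / 243)) * nf y (c % 243) := by
  rw [nf_hi, ← one_mul (c % 243), nf_lo (Nat.mod_lt _ (by decide)), nf, W, List.map_append,
    List.prod_append]

theorem nf_add {q v : ℕ} (hv : v < 243) : nf y (243 * q + v) = nf y (243 * q) * nf y v := by
  rw [nf_split (243 * q + v), Nat.mul_add_div (by decide), Nat.div_eq_of_lt hv, Nat.add_zero,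
    Nat.mul_add_mod, Nat.mod_eq_of_lt hv]

theorem step_lo {n : ℕ} (h : n < 243) (h0 : n ≠ 0) :
    nf y (1 * n) = nf y (1 * (n - lu n)) * y (5 + li n) := by
  rw [nf_lo h, nf_lo (by omega), (lu_spec n h h0).2.2.2.2.2.2]; simp

theorem step_hi {n : ℕ} (h : n < 243) (h0 : n ≠ 0) :
    nf y (243 * n) = nf y (243 * (n - lu n)) * y (0 + li n) := by
  rw [nf_hi, nf_hi, (lu_spec n h h0).2.2.2.2.2.1]; simp

theorem ckM_sound (h : Rel y) {s k M : ℕ} {τ μ : ℕ → ℕ → ℕ} (hk : k ≤ 5) (hs : 0 < s)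
    (hM : M = 243 * s)
    (step : ∀ n < 243, n ≠ 0 → nf y (s * n) = nf y (s * (n - lu n)) * y (k + li n))
    (hμ : ∀ a < M, ∀ b < M, (τ (a / s) (b / s) < M ∧
      nf y (s * (a / s)) * nf y (s * (b / s)) = nf y (τ (a / s) (b / s))) →
      nf y a * nf y b = nf y (μ a b))
    (hc : allLt 243 (fun w => allLt 243 fun v => ckM s k M τ μ v w) = true) :
    ∀ w < 243, ∀ v < 243, τ v w < M ∧ nf y (s * v) * nf y (s * w) = nf y (τ v w) := by
  simp only [allLt_iff] at hc
  intro w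
  induction w using Nat.strong_induction_on with
  | _ w ihw =>
  intro hw v
  induction v using Nat.strong_induction_on with
  | _ v ihv =>
  intro hv
  have dv : ∀ a < M, a / s < 243 := fun a ha => by
    rw [Nat.div_lt_iff_lt_mul hs]; omega
  have hμ' : ∀ a < M, ∀ b < M, b / s < w → nf y a * nf y b = nf y (μ a b) := fun a ha b hb hb' =>
    hμ a ha b hb (ihw _ hb' (dv b hb) _ (dv a ha))
  have hc := hc w hw v hv
  simp only [ckM, bif'_eq, Nat.blt_eq, Nat.beq_eq, Bool.and_eq_true, Nat.add_eq, Nat.sub_eq,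
    Nat.mul_eq, Nat.add_zero] at hc
  split_ifs at hc with h1 h2 h3 h4 h5
  · rw [Nat.beq_eq] at hc
    exact ⟨h1, by rw [hc, h2, Nat.mul_zero, nf_zero, mul_one]⟩
  all_goals
    refine ⟨h1, ?_⟩
    obtain ⟨l1, l2, l3, l4, l5, -⟩ := lu_spec w hw h2
    have sw := step w hw h2
  · rw [Nat.beq_eq] at hc
    rw [← h3] at sw h4 hc
    have := step _ h4.1 (by omega)
    rw [h4.2, Nat.add_sub_cancel, li_of_lu _ h4.1 w hw (h4.2.trans h3)] at this
    rw [hc, this, sw, Nat.sub_self, Nat.mul_zero, nf_zero, one_mul]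
  · simp only [Bool.and_eq_true, Nat.blt_eq, Nat.beq_eq] at hc
    obtain ⟨⟨⟨⟨c1, c2⟩, c3⟩, c4⟩, c5⟩ := hc
    have e1 := step v hv (by omega)
    have e2 := step (v - lu w) (by omega) (by omega)
    rw [h5, li_of_lu v hv w hw h5] at e1
    rw [c2, li_of_lu _ (by omega) w hw c2] at e2
    rw [c5, ← hμ' _ (by rw [hM, Nat.mul_comm]; exact Nat.mul_lt_mul_of_pos_right (by omega) hs) _ c4
      (by omega), l5, ← h.cube _ (by omega), e1, e2, sw, ← h3, Nat.sub_self, Nat.mul_zero, nf_zero]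
    simp only [pow_succ, pow_zero, one_mul, mul_assoc]
  · simp only [Bool.and_eq_true, Nat.blt_eq, Nat.beq_eq] at hc
    obtain ⟨⟨⟨⟨c1, c2⟩, c3⟩, c4⟩, c5⟩ := hc
    obtain ⟨m1, m2, m3, -⟩ := lu_spec v hv (by omega)
    have e1 := step v hv (by omega)
    have ih := ihv (v - lu v) (by omega) (by omega)
    rw [← h3] at c2 c3 c4 c5
    have sw' : nf y (s * w) = y (k + li w) := by
      rw [sw, ← h3, Nat.sub_self, Nat.mul_zero, nf_zero, one_mul]
    rw [c5, ← hμ' _ ih.1 _ c4 c3, ← ih.2, e1, sw', mul_assoc, h.conj _ (by omega) _ (by omega),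
      mul_assoc]
  · rw [Nat.beq_eq] at hc
    have ih := ihw (w - lu w) (by omega) (by omega) v hv
    have hu : s * lu w < M := by
      rw [hM, Nat.mul_comm]; exact Nat.mul_lt_mul_of_pos_right (by omega) hs
    have su := step (lu w) (by omega) (by omega)
    rw [l4, l5, Nat.sub_self, Nat.mul_zero, nf_zero, one_mul] at su
    rw [hc, ← hμ' _ ih.1 _ hu (by rw [Nat.mul_div_cancel_left _ hs]; omega), ← ih.2, su, sw,
      mul_assoc]

theorem Rel.sD (h : Rel y) {v w : ℕ} (hv : v < 243) (hw : w < 243) :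
    lD v w < 243 ∧ nf y v * nf y w = nf y (lD v w) := by
  simpa using ckM_sound h (s := 1) le_rfl one_pos rfl (fun n => step_lo)
    (fun a _ b _ H => by simpa using H.2) ckD_all w hw v hv

theorem Rel.sA (h : Rel y) : ∀ q < 243, ∀ v < 243,
    lA q v < 243 ∧ nf y v * nf y (243 * q) = nf y (243 * q) * nf y (lA q v) := by
  have hc := ckA_all
  simp only [allLt_iff] at hc
  intro q
  induction q using Nat.strong_induction_on with
  | _ q ihq =>
  intro hq v
  induction v using Nat.strong_induction_on with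
  | _ v ihv =>
  intro hv
  have hc := hc q hq v hv
  simp only [ckA, bif'_eq, Nat.blt_eq, Nat.beq_eq, Nat.sub_eq] at hc
  split_ifs at hc with h1 h2 h3 h4 h5 <;> rw [Nat.beq_eq] at hc <;> refine ⟨h1, ?_⟩
  · rw [hc, h2, nf_zero, one_mul, mul_one]
  · rw [hc, h4, ← h3, Nat.mul_zero, nf_zero, one_mul, mul_one]
  · have e1 := step_lo (y := y) hv h2
    have e2 := step_hi (y := y) hq h4
    rw [← h3, Nat.sub_self, Nat.mul_zero, nf_zero, one_mul, one_mul] at e1
    rw [← h5, Nat.sub_self, Nat.mul_zero, nf_zero, one_mul, Nat.zero_add] at e2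
    have := (lu_spec v hv h2).1
    have := (lu_spec q hq h4).1
    rw [hc, ← h3, e1, e2, h.conj _ (by omega) _ (by omega)]
  · obtain ⟨l1, l2, l3, l4, l5, -⟩ := lu_spec q hq h4
    have e2 := step_hi (y := y) hq h4
    have e3 := step_hi (y := y) (n := lu q) (by omega) (by omega)
    rw [l4, l5, Nat.sub_self, Nat.mul_zero, nf_zero, one_mul] at e3
    have i1 := ihq (q - lu q) (by omega) (by omega) v hv
    have i2 := ihq (lu q) (by omega) (by omega) _ i1.1
    rw [hc, ← h3, e2, ← e3, ← mul_assoc, i1.2, mul_assoc, i2.2, mul_assoc]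
  · obtain ⟨l1, l2, l3, l4, l5, -⟩ := lu_spec v hv h2
    have e2 := step_lo (y := y) hv h2
    have e3 := step_lo (y := y) (n := lu v) (by omega) (by omega)
    rw [l4, l5, Nat.sub_self, Nat.mul_zero, nf_zero, one_mul, one_mul] at e3
    rw [one_mul, one_mul] at e2
    have i1 := ihv (v - lu v) (by omega) (by omega)
    have i2 := ihv (lu v) (by omega) (by omega)
    rw [hc, ← (h.sD i1.1 i2.1).2, e2, ← e3, mul_assoc, i2.2, ← mul_assoc, i1.2, mul_assoc]

theorem Rel.comm_lo (h : Rel y) {v w : ℕ} (hv : v < 243) (hw : w < 243) :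
    nf y v * nf y w = nf y w * nf y v := by
  have l : ∀ v < 243, ∀ i ∈ W v, 5 ≤ i ∧ i < 10 := by decide +kernel
  have k : ∀ j < 10, ∀ i < j, 5 ≤ i → y j * y i = y i * y j := fun j hj i hi h5 => by
    rw [h.conj j hj i hi]
    have : ∀ j < 10, ∀ i < j, 5 ≤ i → W (cjg j i) = [j] := by decide
    simp [nf, this j hj i hi h5]
  refine Commute.list_prod_left _ _ fun x hx => Commute.list_prod_right _ _ fun z hz => ?_
  obtain ⟨i, hi, rfl⟩ := List.mem_map.1 hx
  obtain ⟨j, hj, rfl⟩ := List.mem_map.1 hz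
  have := l v hv i hi
  have := l w hw j hj
  rcases lt_trichotomy i j with e | rfl | e
  exacts [(k j (by omega) i e (by omega)).symm, rfl, k i (by omega) j e (by omega)]

theorem Rel.mul_aux (h : Rel y) (a b : ℕ) (hb : b < 59049) (H : lT (a / 243) (b / 243) < 59049 ∧
    nf y (243 * (a / 243)) * nf y (243 * (b / 243)) = nf y (lT (a / 243) (b / 243))) :
    mul a b < 59049 ∧ mul a b / 243 = lT (a / 243) (b / 243) / 243 ∧
      nf y a * nf y b = nf y (mul a b) := by
  have m : ∀ n, n % 243 < 243 := fun n => Nat.mod_lt _ (by decide)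
  have a1 := h.sA (b / 243) (by omega) _ (m a)
  have a2 := h.sD a1.1 (m b)
  have a3 := h.sD a2.1 (m (lT (a / 243) (b / 243)))
  have e : lT (a / 243) (b / 243) - lT (a / 243) (b / 243) % 243 =
      243 * (lT (a / 243) (b / 243) / 243) := by omega
  rw [mul_eq, e]
  refine ⟨by omega, by omega, ?_⟩
  rw [nf_add a3.1, ← a3.2, h.comm_lo a2.1 (m _), ← mul_assoc, ← nf_split, ← H.2, ← a2.2, nf_split a,
    nf_split b, mul_assoc, mul_assoc, ← mul_assoc (nf y (a % 243)), a1.2, mul_assoc]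

theorem Rel.sT (h : Rel y) {q r : ℕ} (hq : q < 243) (hr : r < 243) :
    lT q r < 59049 ∧ nf y (243 * q) * nf y (243 * r) = nf y (lT q r) :=
  ckM_sound h (s := 243) (by decide) (by decide) rfl (fun _ => step_hi)
    (fun a _ b hb H => (h.mul_aux a b hb H).2.2) ckT_all r hr q hq

/-- `c` is the code of `x`. -/
def Rp (y : ℕ → G) (c : ℕ) (x : G) : Prop := c < 59049 ∧ nf y c = x

theorem rp_nf {c : ℕ} (h : c < 59049) : Rp y c (nf y c) := ⟨h, rfl⟩

theorem Rp.one : Rp y 0 1 := ⟨by decide, nf_zero⟩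

theorem Rp.gen {i : ℕ} (hi : i < 10) : Rp y (3 ^ (9 - i)) (y i) := by
  have : ∀ i < 10, 3 ^ (9 - i) < 59049 ∧ W (3 ^ (9 - i)) = [i] := by decide
  exact ⟨(this i hi).1, by simp [nf, (this i hi).2]⟩

theorem Rp.eq {c : ℕ} {x z : G} (h : Rp y c x) (h' : Rp y c z) : x = z := h.2.symm.trans h'.2

theorem Rel.mul_div (h : Rel y) {a b : ℕ} (ha : a < 59049) (hb : b < 59049) :
    mul a b / 243 = lT (a / 243) (b / 243) / 243 :=
  (h.mul_aux a b hb (h.sT (by omega) (by omega))).2.1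

theorem Rp.mul (h : Rel y) {a b : ℕ} {x z : G} (ha : Rp y a x) (hb : Rp y b z) :
    Rp y (mul a b) (x * z) := by
  have := h.mul_aux a b hb.1 (h.sT (by have := ha.1; omega) (by have := hb.1; omega))
  exact ⟨this.1, by rw [← this.2.2, ha.2, hb.2]⟩

theorem Rel.inv_lo (h : Rel y) {v : ℕ} (hv : v < 243) : nf y (lD v v) = (nf y v)⁻¹ := by
  have := allLt_iff.1 ckI_all v hv
  simp only [Bool.and_eq_true, Nat.beq_eq] at this
  rw [eq_inv_iff_mul_eq_one, (h.sD (h.sD hv hv).1 hv).2, this.2, nf_zero]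

theorem Rp.inv (h : Rel y) {a : ℕ} {x : G} (ha : Rp y a x) : Rp y (inv a) x⁻¹ := by
  have hq : a / 243 < 243 := by have := ha.1; omega
  have hv : a % 243 < 243 := Nat.mod_lt _ (by decide)
  have := allLt_iff.1 ckI_all _ hq
  simp only [Bool.and_eq_true, Nat.beq_eq, Nat.blt_eq] at this
  have e := ((rp_nf (c := 243 * (a / 243)) (by omega)).mul h (rp_nf this.1.1)).2
  rw [this.1.2, nf_zero, eq_comm, mul_eq_one_iff_eq_inv'] at e
  have := (rp_nf (y := y) (c := lD (a % 243) (a % 243)) (by have := (h.sD hv hv).1; omega)).mul h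
    (rp_nf this.1.1)
  rwa [e, h.inv_lo hv, ← mul_inv_rev, ← nf_split, ha.2, ← inv_eq] at this

theorem Rel.ne_lo (h : Rel y) : ∀ v < 243, v ≠ 0 → nf y v ≠ 1 := by
  intro v
  induction v using Nat.strong_induction_on with
  | _ v ih =>
  intro hv h0 e
  have := allLt_iff.1 ckV_all v hv
  simp only [Bool.or_eq_true, Nat.blt_eq, anyLt_iff, Bool.and_eq_true] at this
  rcases this with h3 | ⟨i, hi, h1, h2⟩
  · have e9 : nf y 1 = y 9 := (Rp.gen (y := y) (i := 9) (by decide)).2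
    have e2 : nf y 2 = y 9 * y 9 := by
      have : W 2 = [9, 9] := by decide
      simp [nf, this]
    have e3 := h.cube 9 (by decide)
    rw [show ThS.cube 9 = 0 from rfl, nf_zero, pow_succ, sq] at e3
    rcases (show v = 1 ∨ v = 2 by omega) with rfl | rfl
    · exact h.ne (e9.symm.trans e)
    · rw [← e2, e, one_mul] at e3
      exact h.ne e3
  · have hi' : 3 ^ i < 243 := by
      calc 3 ^ i < 3 ^ 5 := Nat.pow_lt_pow_right (by decide) hi
        _ = 243 := rfl
    have a := h.sA _ hi' v hv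
    refine ih _ h2 (by omega) (by omega) ?_
    rw [e, one_mul, left_eq_mul] at a
    rw [← (h.sD (h.sD hv hv).1 a.1).2, h.inv_lo hv, e, a.2, inv_one, one_mul]

theorem Rel.inj_lo (h : Rel y) {v w : ℕ} (hv : v < 243) (hw : w < 243) (e : nf y v = nf y w) :
    v = w := by
  have := allLt_iff.1 (allLt_iff.1 ckV2_all v hv) w hw
  rw [bif'_eq, if_pos, Nat.beq_eq] at this
  · exact this
  · have a := h.sD (h.sD hv hv).1 hw
    rw [h.inv_lo hv, e, inv_mul_cancel] at a
    by_contra hn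
    exact h.ne_lo _ a.1 (by simpa using hn) a.2.symm

theorem Rp.inj (h : Rel y) {a b : ℕ} {x : G} (ha : Rp y a x) (hb : Rp y b x) : a = b := by
  have e := ha.2.trans hb.2.symm
  have m : ∀ n, n % 243 < 243 := fun n => Nat.mod_lt _ (by decide)
  have hq : a / 243 < 243 := by have := ha.1; omega
  have hr : b / 243 < 243 := by have := hb.1; omega
  have key : ∀ c < 59049, ∀ u < 243, nf y u * nf y c = nf y c * nf y (lA (c / 243) u) :=
    fun c hc u hu => by
      have a := h.sA (c / 243) (by omega) u hu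
      rw [nf_split c, ← mul_assoc, a.2, mul_assoc, h.comm_lo a.1 (m c), mul_assoc]
  have e1 : a / 243 = b / 243 := by
    have := allLt_iff.1 (allLt_iff.1 ckQ_all _ hq) _ hr
    rw [bif'_eq, if_pos, Nat.beq_eq] at this
    · exact this
    · refine allLt_iff.2 fun i hi => Nat.beq_eq ▸ ?_
      have hi' : 3 ^ i < 243 := by
        calc 3 ^ i < 3 ^ 5 := Nat.pow_lt_pow_right (by decide) hi
          _ = 243 := rfl
      refine h.inj_lo (h.sA _ hq _ hi').1 (h.sA _ hr _ hi').1 (mul_left_cancel (a := nf y a) ?_)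
      exact (key a ha.1 _ hi').symm.trans (by rw [e]; exact key b hb.1 _ hi')
  rw [nf_split a, nf_split b, e1] at e
  have := h.inj_lo (m a) (m b) (mul_left_cancel e)
  omega

theorem Rp.eq_iff (h : Rel y) {a b : ℕ} {x z : G} (ha : Rp y a x) (hb : Rp y b z) :
    x = z ↔ a = b := ⟨fun e => ha.inj h (e ▸ hb), fun e => ha.eq (e ▸ hb)⟩

theorem Rp.pow (h : Rel y) {a : ℕ} {x : G} (ha : Rp y a x) (n : ℕ) : ∃ c, Rp y c (x ^ n) := by
  induction n with
  | zero => exact ⟨0, pow_zero x ▸ Rp.one⟩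
  | succ n ih => obtain ⟨c, hc⟩ := ih; exact ⟨_, pow_succ x n ▸ hc.mul h ha⟩

theorem PC.exists_rp (h : PC y) (x : G) : ∃ c, Rp y c x := by
  let H : Subgroup G := ⟨⟨⟨{x | ∃ c, Rp y c x}, fun ⟨_, ha⟩ ⟨_, hb⟩ => ⟨_, ha.mul h.toRel hb⟩⟩,
    ⟨0, Rp.one⟩⟩, fun ⟨_, ha⟩ => ⟨_, ha.inv h.toRel⟩⟩
  have : x ∈ H := h.gen H (fun i hi => ⟨_, Rp.gen hi⟩) ▸ mem_top x
  exact this

theorem PC.forall (h : PC y) {p : G → Prop} (H : ∀ c < 59049, p (nf y c)) (x : G) : p x := by
  obtain ⟨c, hc, rfl⟩ := h.exists_rp x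
  exact H c hc

theorem PC.card (h : PC y) : Nat.card G = 3 ^ 10 := by
  have : Function.Bijective fun c : Fin 59049 => nf y c :=
    ⟨fun a b e => Fin.ext ((rp_nf a.2).inj h.toRel ⟨b.2, e.symm⟩), fun x => by
      obtain ⟨c, hc, e⟩ := h.exists_rp x
      exact ⟨⟨c, hc⟩, e⟩⟩
  rw [← Nat.card_congr (Equiv.ofBijective _ this), Nat.card_eq_fintype_card, Fintype.card_fin]
  rfl

theorem PC.finite (h : PC y) : Finite G := Nat.finite_of_card_ne_zero (by rw [h.card]; decide)

theorem PC.pg (h : PC y) : IsPGroup 3 G := IsPGroup.of_card h.card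

theorem PC.pg_top (h : PC y) : IsPGroup 3 (⊤ : Subgroup G) := h.pg.to_subgroup _

/-- The subgroup generated by elements satisfying the relations. -/
theorem Rel.pc (h : Rel y) : ∃ z : ℕ → closure (y '' {i | i < 10}), PC z := by
  classical
  let z : ℕ → closure (y '' {i | i < 10}) := fun i =>
    if hi : i < 10 then ⟨y i, subset_closure ⟨i, hi, rfl⟩⟩ else 1
  have hz : ∀ i < 10, (z i : G) = y i := fun i hi => by simp [z, hi]
  have hW : ∀ c, ∀ i ∈ W c, i < 10 := fun c i hi => by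
    simp only [W, Wd, List.mem_append, List.mem_flatMap, List.mem_range, List.mem_replicate] at hi
    omega
  have hn : ∀ c, nf (fun i => (closure (y '' {i | i < 10})).subtype (z i)) c = nf y c := fun c => by
    exact congrArg List.prod (List.map_congr_left fun i hi => hz i (hW c i hi))
  refine ⟨z, ⟨Rel.of_inj (Subgroup.subtype_injective _) ⟨fun i hi => ?_, fun j hj i hi => ?_, ?_⟩,
    fun H hH => eq_top_iff.2 fun x _ => ?_⟩⟩
  · rw [hn, ← h.cube i hi]; exact congrArg (· ^ 3) (hz i hi)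
  · rw [hn]
    change (z j : G) * z i = z i * _
    rw [hz j hj, hz i (by omega), h.conj j hj i hi]
  · exact fun e => h.ne ((hz 9 (by decide)).symm.trans e)
  · have : closure (y '' {i | i < 10}) ≤ H.map (Subgroup.subtype _) := (closure_le _).2 (by
      rintro _ ⟨i, hi, rfl⟩
      exact ⟨z i, hH i hi, hz i hi⟩)
    obtain ⟨w, hw, e⟩ := this x.2
    exact (Subtype.ext e : w = x) ▸ hw

/-- The subgroup generated by the last `l` generators. -/
def B (y : ℕ → G) (l : ℕ) : Subgroup G := closure (y '' {i | 10 ≤ i + l ∧ i < 10})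

def E1 (y : ℕ → G) : Subgroup G := B y 9
def E2 (y : ℕ → G) : Subgroup G := closure {y 0} ⊔ B y 8
def E3 (y : ℕ → G) : Subgroup G := closure {nf y 6804, nf y 2952, nf y 90, y 8, y 9}
def N3 (y : ℕ → G) : Subgroup G := E3 y ⊔ B y 5

theorem gen_mem_B {i l : ℕ} (h : 10 ≤ i + l) (hi : i < 10) : y i ∈ B y l :=
  subset_closure ⟨i, ⟨h, hi⟩, rfl⟩

theorem B_le_iff {l : ℕ} {H : Subgroup G} : B y l ≤ H ↔ ∀ i < 10, 10 ≤ i + l → y i ∈ H := by
  rw [B, closure_le]
  exact ⟨fun h i hi h' => h ⟨i, ⟨h', hi⟩, rfl⟩, by rintro h _ ⟨i, hi, rfl⟩; exact h i hi.2 hi.1⟩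

theorem B_mono {l m : ℕ} (h : l ≤ m) : B y l ≤ B y m :=
  B_le_iff.2 fun _ hi h' => gen_mem_B (by omega) hi

theorem nf_mem {H : Subgroup G} {c : ℕ} (h : ∀ i ∈ W c, y i ∈ H) : nf y c ∈ H :=
  H.list_prod_mem fun x hx => by obtain ⟨i, hi, rfl⟩ := List.mem_map.1 hx; exact h i hi

theorem mem_W {c i : ℕ} (hc : c < 59049) (h : i ∈ W c) : i < 10 ∧ c / 3 ^ (9 - i) % 3 ≠ 0 := by
  simp only [W, Wd, List.mem_append, List.mem_flatMap, List.mem_range, List.mem_replicate] at h
  rcases h with ⟨j, hj, h, rfl⟩ | ⟨j, hj, h, rfl⟩ <;> interval_cases j <;> omega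

/-- A set of codes closed under products describes a subgroup. -/
theorem PC.closure_ind (h : PC y) {s : Set G} {p : ℕ → Prop} (h0 : p 0)
    (hs : ∀ x ∈ s, ∃ c, Rp y c x ∧ p c)
    (hm : ∀ a < 59049, ∀ b < 59049, p a → p b → p (mul a b)) {c : ℕ} {x : G} (hc : Rp y c x)
    (hx : x ∈ closure s) : p c := by
  have := h.finite
  have hx' : x ∈ Submonoid.closure s := closure_toSubmonoid_of_finite (s := s) ▸ hx
  suffices H : ∃ c, Rp y c x ∧ p c by
    obtain ⟨d, hd, hp⟩ := H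
    exact hd.inj h.toRel hc ▸ hp
  clear hc hx
  induction hx' using Submonoid.closure_induction with
  | mem x hx => exact hs x hx
  | one => exact ⟨0, Rp.one, h0⟩
  | mul x z _ _ hx hz =>
    obtain ⟨a, ha, pa⟩ := hx
    obtain ⟨b, hb, pb⟩ := hz
    exact ⟨_, ha.mul h.toRel hb, hm a ha.1 b hb.1 pa pb⟩

theorem Rp.mem_B_of_lt {c l : ℕ} {x : G} (hc : Rp y c x) (h : c < 3 ^ l) : x ∈ B y l :=
  hc.2 ▸ nf_mem fun i hi => by
    obtain ⟨h1, h2⟩ := mem_W hc.1 hi
    refine gen_mem_B ?_ h1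
    by_contra hn
    rw [Nat.div_eq_of_lt (h.trans_le (Nat.pow_le_pow_right (by decide) (by omega)))] at h2
    exact h2 rfl

theorem PC.mem_B (h : PC y) {c l : ℕ} {x : G} (hc : Rp y c x) : x ∈ B y l ↔ c < 3 ^ l := by
  refine ⟨fun hx => h.closure_ind (p := fun c => c < 3 ^ l) (by positivity) ?_ ?_ hc hx,
    hc.mem_B_of_lt⟩
  · rintro _ ⟨i, hi, rfl⟩
    exact ⟨_, Rp.gen hi.2, Nat.pow_lt_pow_right (by decide) (by have := hi.1; have := hi.2; omega)⟩
  · intro a ha b hb pa pb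
    have hm := (rp_nf (y := y) ha).mul h.toRel (rp_nf hb)
    have hd := h.mul_div ha hb
    have hB := ckB_all
    simp only [allLt_iff, Bool.and_eq_true, Nat.blt_eq] at hB
    rcases Nat.lt_or_ge l 5 with h5 | h5
    · have : 3 ^ l < 243 := by
        calc 3 ^ l < 3 ^ 5 := Nat.pow_lt_pow_right (by decide) h5
          _ = 243 := rfl
      have s := h.sD (v := a) (w := b) (by omega) (by omega)
      rw [hm.inj h.toRel ⟨by omega, s.2.symm⟩]
      exact (hB l h5 a pa b pb).1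
    · obtain ⟨m, rfl⟩ := Nat.exists_eq_add_of_le h5
      rcases Nat.lt_or_ge m 5 with h5 | h5
      · rw [pow_add] at pa pb ⊢
        have := (hB m h5 (a / 243) (by omega) (b / 243) (by omega)).2
        omega
      · exact hm.1.trans_le (Nat.pow_le_pow_right (n := 3) (by decide) (show 10 ≤ 5 + m by omega))

theorem PC.B_ten (h : PC y) : B y 10 = ⊤ := h.gen _ fun _ hi => gen_mem_B (by omega) hi

theorem PC.B_zero (_ : PC y) : B y 0 = ⊥ := eq_bot_iff.2 (B_le_iff.2 fun _ _ _ => by omega)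

theorem PC.mem_E2 (h : PC y) {c : ℕ} {x : G} (hc : Rp y c x) : x ∈ E2 y ↔ c / 6561 % 3 = 0 := by
  constructor
  · rw [E2, B, ← closure_union]
    refine h.closure_ind (p := fun c => c / 6561 % 3 = 0) rfl ?_ (fun a ha b hb pa pb => ?_) hc
    · rintro _ (rfl | ⟨i, ⟨h1, h2⟩, rfl⟩)
      · exact ⟨_, Rp.gen (by decide), by decide⟩
      · refine ⟨_, Rp.gen h2, ?_⟩
        have : 2 ≤ i := by omega
        interval_cases i <;> decide
    · have hd := h.mul_div ha hb
      have := allLt_iff.1 (allLt_iff.1 ckE_all (a / 243) (by omega)) (b / 243) (by omega)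
      simp only [bif'_eq, Nat.beq_eq] at this
      rw [if_pos (by omega), if_pos (by omega), Nat.beq_eq] at this
      omega
  · refine fun h0 => hc.2 ▸ nf_mem fun i hi => ?_
    obtain ⟨h1, h2⟩ := mem_W hc.1 hi
    rcases (show i = 0 ∨ i = 1 ∨ 2 ≤ i by omega) with rfl | rfl | h3
    · exact mem_sup_left (subset_closure rfl)
    · exact absurd h0 h2
    · exact mem_sup_right (gen_mem_B (by omega) h1)

theorem PC.card_B (h : PC y) {l : ℕ} (hl : l ≤ 10) : Nat.card (B y l) = 3 ^ l := by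
  have hl' : 3 ^ l ≤ 59049 := Nat.pow_le_pow_right (n := 3) (by decide) hl
  have : Function.Bijective fun c : Fin (3 ^ l) =>
      (⟨nf y c, (rp_nf (c.2.trans_le hl')).mem_B_of_lt c.2⟩ : B y l) :=
    ⟨fun a b e => Fin.ext ((rp_nf (a.2.trans_le hl')).inj h.toRel
      ⟨b.2.trans_le hl', (congrArg Subtype.val e).symm⟩), fun x => by
      obtain ⟨c, hc⟩ := h.exists_rp x
      exact ⟨⟨c, (h.mem_B hc).1 x.2⟩, Subtype.ext hc.2⟩⟩
  rw [← Nat.card_congr (Equiv.ofBijective _ this), Nat.card_eq_fintype_card, Fintype.card_fin]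

end Cfsg.Agent.ThS
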