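import Cfsg.Agent.Lib.ThS.Run0
import Cfsg.Agent.Lib.ThS.Run1
import Cfsg.Agent.Lib.ThS.Run2
import Cfsg.Agent.Lib.ThS.Run3
import Cfsg.Agent.Lib.ThS.Run4

/-!
All nodes pass the check.
-/

set_option autoImplicit false
set_option maxRecDepth 4000
set_option Elab.async false

namespace Cfsg.Agent.ThS

theorem all_ok (j : ℕ) (hj : j < 1467) : ∃ d, ok nd 1467 (nd j) d = true := by
  rcases Nat.lt_or_ge j 4 with h | h0
  · exact run_sound run0 j (Nat.zero_le j) h
  rcases Nat.lt_or_ge j 32 with h | h1
  · exact run_sound run1 j h0 h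
  rcases Nat.lt_or_ge j 74 with h | h2
  · exact run_sound run2 j h1 h
  rcases Nat.lt_or_ge j 97 with h | h3
  · exact run_sound run3 j h2 h
  rcases Nat.lt_or_ge j 160 with h | h4
  · exact run_sound run4 j h3 h
  rcases Nat.lt_or_ge j 192 with h | h5
  · exact run_sound run5 j h4 h
  rcases Nat.lt_or_ge j 249 with h | h6
  · exact run_sound run6 j h5 h
  rcases Nat.lt_or_ge j 408 with h | h7
  · exact run_sound run7 j h6 h
  rcases Nat.lt_or_ge j 585 with h | h8
  · exact run_sound run8 j h7 h
  rcases Nat.lt_or_ge j 715 with h | h9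
  · exact run_sound run9 j h8 h
  rcases Nat.lt_or_ge j 867 with h | h10
  · exact run_sound run10 j h9 h
  rcases Nat.lt_or_ge j 1088 with h | h11
  · exact run_sound run11 j h10 h
  rcases Nat.lt_or_ge j 1235 with h | h12
  · exact run_sound run12 j h11 h
  exact run_sound run13 j h12 hj

end Cfsg.Agent.ThS
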