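import Cfsg.Agent.Lib.ThS.Defs
import Cfsg.Agent.Lib.Fus2.Iso

/-!
Transport of the simplicity statement along an isomorphism.
-/

set_option autoImplicit false

namespace Cfsg.Agent.ThS

open Cfsg Cfsg.Agent.Fus Cfsg.Agent.Fus2

theorem asm {G : Type*} [Group G] [Fact (Nat.Prime 3)]
    (h : ∀ F : FusionSystem (⊤ : Subgroup G), F.IsSaturated 3 → F.core = ⊥ → F.IsSimple 3)
    {Ω : Type*} [Group Ω] {S : Subgroup Ω} [Finite S] (hS : IsPGroup 3 S) (F : FusionSystem S)
    (hF : F.IsSaturated 3) (e : S ≃* G) (hcore : F.core = ⊥) : F.IsSimple 3 := by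
  classical
  have hg : GIso S (⊤ : Subgroup G) (fun x => if hx : x ∈ S then e ⟨x, hx⟩ else 1)
      fun t => (e.symm t : Ω) :=
    ⟨fun x hx y hy => by
      simp only [dif_pos hx, dif_pos hy, dif_pos (S.mul_mem hx hy), ← map_mul]; rfl,
      fun _ _ => trivial, fun t _ => (e.symm t).2, fun x hx => by simp [hx], fun t _ => by simp⟩
  obtain ⟨F', hi⟩ := hg.exists_isoM F
  have := hg.finite
  exact hi.symm.isSimple (hg.isPGroup hS) (h F' (hi.saturated hS hF)
    (by rw [hi.core_eq, hcore, hg.img_eq_bot bot_le]))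

end Cfsg.Agent.ThS
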