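import Cfsg.Agent.Lib.ThS.Tab0

/-!
The checker for the list of conjugacy classes of self-centralizing subgroups.
-/

set_option autoImplicit false

namespace Cfsg.Agent.ThS

/-- Lists of entries: an element, its square, a place value, and a tag. -/
inductive EL
  | nil
  | cons (u v p t : ℕ) (r : EL)

/-- The leading place value. -/
noncomputable def lp (x : ℕ) : ℕ :=
  bif' (Nat.ble 243 x)
    (bif' (Nat.ble 2187 x) (bif' (Nat.ble 6561 x) (bif' (Nat.ble 19683 x) 19683 6561) 2187)
      (bif' (Nat.ble 729 x) 729 243))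
    (bif' (Nat.ble 9 x) (bif' (Nat.ble 27 x) (bif' (Nat.ble 81 x) 81 27) 9)
      (bif' (Nat.ble 3 x) 3 1))

/-- Reduction of `x` by the entries of a list; the remainder and the value of a linear form. -/
noncomputable def sift (L : EL) (l : ℕ) : ℕ → ℕ → ℕ :=
  @EL.rec (fun _ => ℕ → ℕ → ℕ) (fun x a => Nat.add (Nat.mul 3 x) (Nat.mod a 3))
    (fun u v p t _ ih x a => @Bool.rec (fun _ => ℕ) (ih x a)
      (@Bool.rec (fun _ => ℕ)
        (@Nat.rec (fun _ => ℕ) 0 (fun z _ => ih z (Nat.add a (Nat.mod (Nat.div l t) 3)))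
          (Nat.succ (mul v x)))
        (@Nat.rec (fun _ => ℕ) 0 (fun z _ => ih z (Nat.add a (Nat.mul 2 (Nat.mod (Nat.div l t) 3))))
          (Nat.succ (mul u x)))
        (Nat.ble (Nat.mul 2 p) x))
      (Nat.ble p x)) L

/-- Sorted insertion. -/
noncomputable def ins (u v p t : ℕ) (L : EL) : EL :=
  @EL.rec (fun _ => EL) (.cons u v p t .nil)
    (fun u' v' p' t' r ih => @Bool.rec (fun _ => EL) (.cons u' v' p' t' ih)
      (.cons u v p t (.cons u' v' p' t' r)) (Nat.ble p' p)) L

/-- Insertion of an element with its square. -/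
noncomputable def insE (u t : ℕ) (L : EL) : EL :=
  @Nat.rec (fun _ => EL) .nil (fun v _ => @Nat.rec (fun _ => EL) .nil (fun p _ => ins u v p t L)
    (Nat.succ (lp u))) (Nat.succ (mul u u))

noncomputable def len (L : EL) : ℕ := @EL.rec (fun _ => ℕ) 0 (fun _ _ _ _ _ ih => Nat.succ ih) L

/-- The entries have decreasing leading places. -/
noncomputable def ech (L : EL) : ℕ → Bool :=
  @EL.rec (fun _ => ℕ → Bool) (fun _ => true) (fun u _ p _ _ ih b =>
    Nat.blt u b && Nat.ble p u && Nat.beq (Nat.mod 59049 p) 0 && ih p) L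

/-- The remainder, normalized. -/
noncomputable def red (L : EL) (x : ℕ) : ℕ :=
  @Nat.rec (fun _ => ℕ) 0 (fun r _ => bif' (Nat.ble (Nat.mul 2 (lp r)) r) (mul r r) r)
    (Nat.succ (Nat.div (sift L 0 x 0) 3))

noncomputable def cm (a b : ℕ) : ℕ :=
  @Nat.rec (fun _ => ℕ) 0 (fun x _ => @Nat.rec (fun _ => ℕ) 0 (fun z _ =>
    @Nat.rec (fun _ => ℕ) 0 (fun w _ => mul x w) (Nat.succ (inv z))) (Nat.succ (mul b a)))
    (Nat.succ (mul a b))

noncomputable def cb (a : ℕ) : ℕ :=
  @Nat.rec (fun _ => ℕ) 0 (fun x _ => mul x a) (Nat.succ (mul a a))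

/-- `a * b * c`. -/
noncomputable def mul3 (a b c : ℕ) : ℕ :=
  @Nat.rec (fun _ => ℕ) 0 (fun x _ => @Nat.rec (fun _ => ℕ) 0 (fun z _ => z) (Nat.succ (mul x c)))
    (Nat.succ (mul a b))

/-- `x⁻¹ * (g * x * g⁻¹)`. -/
noncomputable def dl (g gi x : ℕ) : ℕ :=
  @Nat.rec (fun _ => ℕ) 0 (fun a _ => @Nat.rec (fun _ => ℕ) 0 (fun b _ => mul a b)
    (Nat.succ (mul3 g x gi))) (Nat.succ (inv x))

/-- The generators packed in a node. -/
noncomputable def sl (N j : ℕ) : ℕ := Nat.land (Nat.shiftRight N (Nat.add 4 (Nat.mul 16 j))) 65535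

noncomputable def rk (N : ℕ) : ℕ := Nat.land N 15

noncomputable def allS (N : ℕ) (f : ℕ → Bool) : Bool := allLt 5 fun j =>
  @Nat.rec (fun _ => Bool) true (fun c _ => @Bool.rec (fun _ => Bool) (f c) true (Nat.beq c 0))
    (Nat.succ (sl N j))

/-- The list for the Frattini subgroup. -/
noncomputable def bld (hs : List ℕ) : List ℕ → EL → EL :=
  @List.rec ℕ (fun _ => List ℕ → EL → EL) (fun _ L => L) (fun h _ ih cur L =>
    @Nat.rec (fun _ => EL) .nil (fun a _ => @Nat.rec (fun _ => EL) .nil (fun b _ =>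
      @Nat.rec (fun _ => EL) .nil (fun w _ =>
        @Nat.rec (fun _ => EL) .nil (fun r _ => ih (r :: cur) (insE r 0 L)) (Nat.succ (red L w)))
        (Nat.succ (bif' (Nat.beq a b) (cb a) (cm a b))))
      (Nat.succ (nth cur (Nat.mod h 16)))) (Nat.succ (nth cur (Nat.div h 16)))) hs

noncomputable def frL (N : ℕ) (hs : List ℕ) : EL :=
  bld hs [sl N 0, sl N 1, sl N 2, sl N 3, sl N 4] .nil

/-- The list for the whole group. -/
noncomputable def allL (N : ℕ) (L : EL) : EL :=
  @Nat.rec (fun _ => EL) L (fun j ih => @Nat.rec (fun _ => EL) .nil (fun c _ =>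
    bif' (Nat.beq c 0) ih (insE c (Nat.pow 3 j) ih)) (Nat.succ (sl N j))) 5

/-- Extension of a list by further elements. -/
noncomputable def ext (qs : List ℕ) : EL → EL :=
  @List.rec ℕ (fun _ => EL → EL) (fun L => L) (fun q _ ih L =>
    @Nat.rec (fun _ => EL) .nil (fun r _ => ih (insE r 0 L)) (Nat.succ (red L q))) qs

noncomputable def isIn (L : EL) (x : ℕ) : Bool :=
  @Nat.rec (fun _ => Bool) true (fun x _ => Nat.beq (sift L 0 x 0) 0) (Nat.succ x)

noncomputable def notIn (L : EL) (x : ℕ) : Bool :=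
  @Nat.rec (fun _ => Bool) true (fun x _ =>
    @Nat.rec (fun _ => Bool) true (fun r _ => ech (ins r 0 (lp r) 0 L) 59049)
      (Nat.succ (Nat.div (sift L 0 x 0) 3))) (Nat.succ x)

/-- Generators of the kernel of a linear form. -/
noncomputable def ml (L : EL) (l t0 u0 v0 : ℕ) : EL :=
  @EL.rec (fun _ => EL) .nil (fun u _ p t _ ih => bif' (Nat.beq t t0) ih
    (@Nat.rec (fun _ => EL) .nil (fun z _ => .cons z 0 p 0 ih)
      (Nat.succ (bif' (Nat.beq (Nat.mod (Nat.div l t) 3) 0) u
        (bif' (Nat.beq (Nat.mod (Nat.div l t) 3) 1) (mul u v0) (mul u u0)))))) L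

noncomputable def allE (L : EL) (f : ℕ → Bool) : Bool :=
  @EL.rec (fun _ => Bool) true (fun u _ _ _ _ ih => @Bool.rec (fun _ => Bool) false ih (f u)) L

/-- The check of one maximal subgroup. -/
noncomputable def ckW (nd : ℕ → ℕ) (n : ℕ) (L : EL) (k l t0 u0 v0 w : ℕ) : Bool :=
  @Nat.rec (fun _ => Bool) true (fun c _ => Nat.blt c 59049 &&
    bif' (Nat.beq (Nat.mod w 2) 0)
      (ech (ml L l t0 u0 v0) 59049 && Nat.beq (Nat.succ (len (ml L l t0 u0 v0))) k &&
        allE (ml L l t0 u0 v0) (fun m => Nat.beq (mul c m) (mul m c)) &&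
        (notIn L c || Nat.beq (sift L l c 0) 1 || Nat.beq (sift L l c 0) 2))
      (@Nat.rec (fun _ => Bool) true (fun j _ => @Nat.rec (fun _ => Bool) true (fun R _ =>
        @Nat.rec (fun _ => Bool) true (fun ci _ =>
          Nat.blt j n && Nat.beq (Nat.succ (rk R)) k && allS R fun x => Nat.blt x 59049 &&
            @Nat.rec (fun _ => Bool) true (fun z _ => Nat.beq (sift L l z 0) 0)
              (Nat.succ (mul3 c x ci)))
          (Nat.succ (inv c))) (Nat.succ (nd j))) (Nat.succ (Nat.shiftRight w 17))))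
    (Nat.succ (Nat.land (Nat.shiftRight w 1) 65535))

noncomputable def ckAll (nd : ℕ → ℕ) (n N : ℕ) (L : EL) (W : ℕ) : Bool :=
  allLt 5 fun j => @Nat.rec (fun _ => Bool) true (fun u0 _ => bif' (Nat.beq u0 0) true
    (@Nat.rec (fun _ => Bool) true (fun t0 _ => @Nat.rec (fun _ => Bool) true (fun v0 _ =>
      allLt t0 fun i => @Nat.rec (fun _ => Bool) true (fun l _ =>
        @Nat.rec (fun _ => Bool) true (fun w _ => ckW nd n L (rk N) l t0 u0 v0 w)
        (Nat.succ (Nat.land (Nat.shiftRight W (Nat.mul 32 (Nat.add (Nat.div t0 2) i))) 4294967295)))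
        (Nat.succ (Nat.add t0 i)))
      (Nat.succ (mul u0 u0))) (Nat.succ (Nat.pow 3 j)))) (Nat.succ (sl N j))

/-- Membership in the upper central series. -/
noncomputable def zk (N k : ℕ) : ℕ → Bool :=
  @Nat.rec (fun _ => ℕ → Bool) (fun x => Nat.beq x 0) (fun _ ih x => allS N fun c =>
    @Nat.rec (fun _ => Bool) true (fun z _ => ih z) (Nat.succ (cm x c))) k

/-- The invariant properties. -/
noncomputable def qq (N q x : ℕ) : Bool :=
  bif' (Nat.beq q 0) (Nat.beq (cb x) 0) (bif' (Nat.beq q 1) (!Nat.beq (cb x) 0) (zk N (q - 1) x))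

/-- Elements that do not influence the property. -/
noncomputable def sk (N q x : ℕ) : Bool :=
  bif' (Nat.ble q 1) (Nat.beq (cb x) 0 && zk N 1 x) (zk N (q - 1) x)

noncomputable def mkL (ls : List ℕ) : EL :=
  @List.rec ℕ (fun _ => EL) .nil (fun a _ ih => insE (Nat.div a 2) (Nat.mod a 2) ih) ls

noncomputable def enum (L : EL) (f : ℕ → Bool) : ℕ → Bool :=
  @EL.rec (fun _ => ℕ → Bool) f (fun u v _ t _ ih a => bif' (Nat.beq t 1) (ih a)
    (ih a && @Nat.rec (fun _ => Bool) true (fun z _ => ih z) (Nat.succ (mul a u)) &&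
      @Nat.rec (fun _ => Bool) true (fun z _ => ih z) (Nat.succ (mul a v)))) L

noncomputable def allN (l : List ℕ) (f : ℕ → Bool) : Bool :=
  @List.rec ℕ (fun _ => Bool) true (fun a _ ih => f a && ih) l

/-- The data of a node. -/
structure ND where
  hs : List ℕ
  w : ℕ
  kd : ℕ
  g : ℕ
  a : ℕ
  b : ℕ
  qs : List ℕ
  ls : List ℕ

/-- The reason why a node is not essential. -/
noncomputable def kill (N : ℕ) (F L : EL) (d : ND) : Bool :=
  bif' (Nat.beq d.kd 0) ((Nat.beq (rk N) 10 ||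
    Nat.beq N 1094424808242911769 || Nat.beq N 364841668609101369 ||
    Nat.beq N 295161422166083348805 || Nat.beq N 2656452749373487556935 ||
    Nat.beq N 364808270943407672))
  (@Nat.rec (fun _ => Bool) true (fun gi _ => Nat.blt d.g 59049 && notIn L d.g &&
    bif' (Nat.beq d.kd 1) (allS N fun x => isIn F (dl d.g gi x))
    (bif' (Nat.beq d.kd 2)
      (allN d.qs (fun q => Nat.blt q 59049 && isIn L q && qq N d.a q) &&
        allS N (fun x => isIn (ext d.qs F) (dl d.g gi x)) &&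
        allN d.ls (fun q => Nat.blt (Nat.div q 2) 59049 && isIn L (Nat.div q 2) &&
          bif' (Nat.beq (Nat.mod q 2) 1)
            (sk N d.a (Nat.div q 2) && isIn F (dl d.g gi (Nat.div q 2))) true) &&
        ech (mkL d.ls) 59049 && Nat.beq (len (mkL d.ls)) (rk N) &&
        enum (mkL d.ls) (fun x => bif' (qq N d.a x) (isIn F (dl d.g gi x)) true) 0)
      (Nat.blt d.a 59049 && Nat.blt d.b 59049 && isIn L d.b &&
        allS N (fun x => isIn (ext [d.b] F) (dl d.g gi x)) && isIn F (dl d.g gi d.b) &&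
        allS N (fun x => isIn L (mul3 d.a x (inv d.a))) && notIn L d.a &&
        notIn L (mul d.g d.a) && notIn L (mul3 d.g d.g d.a))))
    (Nat.succ (inv d.g)))

noncomputable def ok (nd : ℕ → ℕ) (n N : ℕ) (d : ND) : Bool :=
  allS N (fun x => Nat.blt x 59049) && ech (allL N (frL N d.hs)) 59049 &&
    Nat.beq (len (allL N (frL N d.hs))) (rk N) &&
    ckAll nd n N (allL N (frL N d.hs)) d.w && kill N (frL N d.hs) (allL N (frL N d.hs)) d

noncomputable def run (nd : ℕ → ℕ) (n b : ℕ) (l : List ND) : ℕ → Bool :=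
  @List.rec ND (fun _ => ℕ → Bool) (fun a => Nat.beq a b) (fun d _ ih a =>
    @Nat.rec (fun _ => Bool) true (fun N _ => @Bool.rec (fun _ => Bool) false
      (@Nat.rec (fun _ => Bool) true (fun a' _ => ih a') (Nat.succ (Nat.succ a))) (ok nd n N d))
      (Nat.succ (nd a))) l

theorem run_sound {nd : ℕ → ℕ} {n b : ℕ} {l : List ND} : ∀ {a : ℕ}, run nd n b l a = true →
    ∀ j, a ≤ j → j < b → ∃ d, ok nd n (nd j) d = true := by
  induction l with
  | nil =>
    intro a h j h1 h2
    have : a = b := Nat.eq_of_beq_eq_true h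
    omega
  | cons d l ih =>
    intro a h j h1 h2
    change @Bool.rec (fun _ => Bool) false (run nd n b l (a + 1)) (ok nd n (nd a) d) = true at h
    cases e : ok nd n (nd a) d
    · rw [e] at h; cases h
    · rw [e] at h
      rcases h1.eq_or_lt with rfl | h1
      exacts [⟨d, e⟩, ih h j h1 h2]

end Cfsg.Agent.ThS
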