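import Cfsg.Agent.Lib.U5.QF
import Cfsg.Agent.Lib.Fus.Normal

/-!
Two criteria that exclude essential subgroups: invariant chains modulo the Frattini subgroup, and
transvections when the automizer has order at least nine.
-/

set_option autoImplicit false
set_option linter.style.haveILetI false

namespace Cfsg.Agent.ThS

open Cfsg.Agent.Fus Cfsg.Agent.Fus2 Cfsg.Agent.Ess Subgroup
open Cfsg.Agent.U5 (SEd sed_of_ess)

theorem zm3 : ∀ r n m : ZMod 3, n ≠ 0 → m ≠ 0 → ∃ k : Fin 3, r + n * (m * (k : ℕ)) = 0 := by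
  decide

section Abs

variable {H Q : Type*} [Group H] [Finite H] [CommGroup Q] {π : H →* Q}

/-- `β` induces a transvection with centre `c`, or the identity. -/
def TvF (π : H →* Q) (β : MulAut H) (c : H) : Prop :=
  (∀ x, ∃ k : ℤ, π (β x) = π x * π c ^ k) ∧ π (β c) = π c

omit [Finite H] in
theorem pi_congr (hk : π.ker = frattini H) (β : MulAut H) {x z : H} (h : π x = π z) :
    π (β x) = π (β z) := by
  have h1 : x⁻¹ * z ∈ frattini H := by rw [← hk, MonoidHom.mem_ker, map_mul, map_inv, h]; simp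
  have h2 := inv_char ⊤ (frattini H) β (mem_top _) _ h1
  rw [← hk, MonoidHom.mem_ker, map_mul, map_mul, map_inv, map_inv, inv_mul_eq_one] at h2
  exact h2

omit [Finite H] in
theorem TvF.conj (hk : π.ker = frattini H) {β : MulAut H} {c : H} (h : TvF π β c) (γ : MulAut H) :
    TvF π (γ * β * γ⁻¹) (γ c) := by
  refine ⟨fun x => ?_, by simpa using pi_congr hk γ h.2⟩
  obtain ⟨k, e⟩ := h.1 (γ⁻¹ x)
  rw [← map_zpow, ← map_mul] at e
  exact ⟨k, by simpa using pi_congr hk γ e⟩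

theorem TvF.pg (hG : IsPGroup 3 H) (hk : π.ker = frattini H) {β β' : MulAut H} {c c' : H}
    (h : TvF π β c) (h' : TvF π β' c') (e : π (β c') = π c') : IsPGroup 3 (closure {β, β'}) := by
  haveI : Fact (Nat.Prime 3) := ⟨by norm_num⟩
  let A := (zpowers (π c) ⊔ zpowers (π c')).comap π
  let B := (zpowers (π c')).comap π
  have fix : ∀ (b : MulAut H) (s : Subgroup Q), s ≤ (((MonoidHom.eqLocus (π.comp b.toMonoidHom) π)).map π) →
      TrivOn b (s.comap π) (frattini H) := fun b s hs x hx => by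
    obtain ⟨z, hz, ez⟩ := hs hx
    rw [← hk, MonoidHom.mem_ker, map_mul, map_inv, inv_mul_eq_one, ← pi_congr hk b ez, ← ez]
    exact hz.symm
  have hD : ∀ s : Subgroup Q, frattini H ≤ s.comap π := fun s x hx => by
    rw [← hk, MonoidHom.mem_ker] at hx
    rw [mem_comap, hx]; exact one_mem _
  have t1 : ∀ {b : MulAut H} {d : H}, TvF π b d → ∀ s : Subgroup Q, π d ∈ s →
      TrivOn b ⊤ (s.comap π) := fun hb s hs x _ => by
    obtain ⟨k, e⟩ := hb.1 x
    rw [mem_comap, map_mul, map_inv, e, inv_mul_cancel_left]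
    exact s.zpow_mem hs k
  have a1 : TrivOn β A (frattini H) :=
    fix β _ (sup_le (zpowers_le.2 ⟨c, h.2, rfl⟩) (zpowers_le.2 ⟨c', e, rfl⟩))
  have a2 : TrivOn β' B (frattini H) := fix β' _ (zpowers_le.2 ⟨c', h'.2, rfl⟩)
  have hBA : B ≤ A := comap_mono le_sup_right
  have a3 : TrivOn β B (frattini H) := trivOn_mono a1 hBA le_rfl
  have c1 : Ctl 3 (closure {β, β'}) ⊤ A := ctl_pair le_top
    (t1 h _ (mem_sup_left (mem_zpowers _))) (t1 h' _ (mem_sup_right (mem_zpowers _)))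
  have c2 : Ctl 3 (closure {β, β'}) A B := ctl_pair hBA (trivOn_mono a1 le_rfl (hD _))
    (trivOn_mono (t1 h' _ (mem_zpowers _)) le_top le_rfl)
  have c3 : Ctl 3 (closure {β, β'}) B (frattini H) := ctl_pair (hD _) a3 a2
  have iB : Inv (closure {β, β'}) B := inv_closure_iff.2 (by
    rintro _ (rfl | rfl) x hx
    exacts [a3.apply_mem (hD _) hx, a2.apply_mem (hD _) hx])
  exact (Ctl.frattini hG ((c1.trans_normal hG iB c2).trans_char hG c3)).isPGroup

theorem tv_abs (hG : IsPGroup 3 H) (hk : π.ker = frattini H) (h3 : ∀ x, π x ^ 3 = 1)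
    {A T I Mx : Subgroup (MulAut H)} (h : SEd 3 A T I Mx) {α τ : MulAut H} {c : H} (hα : α ∈ T)
    (hτ : τ ∈ T) (hαI : α ∉ I) (hI : ∀ k < 3, α ^ k * τ ∉ I) (ht : TvF π α c) : False := by
  haveI : Fact (Nat.Prime 3) := ⟨by norm_num⟩
  haveI : Finite (MulAut H) := Finite.of_injective (fun α : MulAut H => (α : H → H))
    DFunLike.coe_injective
  obtain ⟨γ, hγ, hγM⟩ := h.exists_notMem
  have np : ∀ g ∈ A, g ∉ Mx → ¬ IsPGroup 3 (closure {α, g * α * g⁻¹}) := fun g hg hgM hp =>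
    h.conj_notMem hg hgM hα hαI (h.le_of_isPGroup ((closure_le _).2 (by
      rintro _ (rfl | rfl)
      exacts [h.syl.le hα, A.mul_mem (A.mul_mem hg (h.syl.le hα)) (A.inv_mem hg)])) hp
      (subset_closure (Or.inl rfl)) hα hαI (subset_closure (Or.inr rfl)))
  have z3 : ∀ (x : H) (k : ℤ), 3 ∣ k → π x ^ k = 1 := by
    rintro x _ ⟨k, rfl⟩
    rw [zpow_mul, show π x ^ (3 : ℤ) = 1 from (zpow_natCast _ 3).trans (h3 x), one_zpow]
  have t' := ht.conj hk γ
  obtain ⟨m, hm⟩ := ht.1 ((τ * γ) c)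
  obtain ⟨n, hn⟩ := t'.1 c
  obtain ⟨r, hr⟩ := t'.1 ((τ * γ) c)
  have hm3 : ¬ 3 ∣ m := fun d => np (τ * γ) (A.mul_mem (h.syl.le hτ) hγ)
    (fun e => hγM ((Mx.mul_mem_cancel_left (h.le hτ)).1 e))
    (ht.pg hG hk (ht.conj hk _) (by rw [hm, z3 _ _ d, mul_one]))
  have hn3 : ¬ 3 ∣ n := fun d => np γ hγ hγM
    (Set.pair_comm _ α ▸ t'.pg hG hk ht (by rw [hn, z3 _ _ d, mul_one]))
  obtain ⟨k, hk3, hd⟩ : ∃ k : ℕ, k < 3 ∧ 3 ∣ r + n * (m * k) := by
    obtain ⟨k, e⟩ := zm3 r n m (by rwa [Ne, ZMod.intCast_zmod_eq_zero_iff_dvd])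
      (by rwa [Ne, ZMod.intCast_zmod_eq_zero_iff_dvd])
    exact ⟨k, k.2, (ZMod.intCast_zmod_eq_zero_iff_dvd _ 3).1 (by push_cast; exact e)⟩
  have yk : ∀ k : ℕ, π ((α ^ k * τ * γ) c) = π ((τ * γ) c * c ^ (m * k)) := by
    intro k
    induction k with
    | zero => simp
    | succ k ih =>
      have := pi_congr hk α ih
      rw [map_mul, map_mul, hm, map_zpow, map_zpow, ht.2] at this
      rw [pow_succ', mul_assoc, mul_assoc, MulAut.mul_apply, ← mul_assoc, this, map_mul, map_zpow,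
        mul_assoc, ← zpow_add]
      congr 2
      push_cast; ring
  have hσ : α ^ k * τ ∈ T := T.mul_mem (T.pow_mem hα k) hτ
  refine np (γ⁻¹ * (α ^ k * τ) * γ⁻¹⁻¹)
    (A.mul_mem (A.mul_mem (A.inv_mem hγ) (h.syl.le hσ)) (A.inv_mem (A.inv_mem hγ)))
    (h.conj_notMem (A.inv_mem hγ) (fun e => hγM (by simpa using Mx.inv_mem e)) hσ (hI k hk3))
    (ht.pg hG hk (ht.conj hk _) ?_)
  have e1 : π ((γ * α * γ⁻¹) ((α ^ k * τ * γ) c)) = π ((α ^ k * τ * γ) c) := by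
    rw [pi_congr hk _ (yk k), yk k, map_mul, map_mul, hr, map_zpow, map_zpow, hn, map_mul, map_zpow,
      mul_zpow, ← zpow_mul, mul_mul_mul_comm, ← zpow_add, z3 _ _ hd, mul_one]
  simpa using pi_congr hk γ⁻¹ e1

end Abs

variable {Ω : Type*} [Group Ω] {S : Subgroup Ω} {F : FusionSystem S} {E R : Subgroup Ω}

theorem le_normalizer_of_phi_le {p : ℕ} (h₁ : phi p E ≤ R) (h₂ : R ≤ E) :
    E ≤ normalizer (R : Set Ω) := le_normalizer_iff.2 fun g hg x hx => by
  have := R.mul_mem (h₁ (comm_mem_phi hg (h₂ hx))) hx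
  simpa [commutatorElement_def] using this

/-- The elements of `E` centralized by `g` modulo `R`. -/
def dS (E R : Subgroup Ω) (g : Ω) (h : E ≤ normalizer (R : Set Ω)) : Subgroup Ω where
  carrier := {x | x ∈ E ∧ x⁻¹ * (g * x * g⁻¹) ∈ R}
  one_mem' := ⟨one_mem _, by simp⟩
  mul_mem' {a b} ha hb := ⟨mul_mem ha.1 hb.1, by
    have := R.mul_mem ((h (E.inv_mem hb.1) _).1 ha.2) hb.2
    simpa [mul_assoc] using this⟩
  inv_mem' {a} ha := ⟨inv_mem ha.1, by
    have := (h ha.1 _).1 (R.inv_mem ha.2)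
    simpa [mul_assoc] using this⟩

variable [Finite S] (hS : IsPGroup 3 S) (hF : F.IsSaturated 3) (hE : F.IsEssential 3 E)
include hS hF hE

theorem mem_of_chain (hR : ∀ α : MulAut E, ∀ x ∈ R, afn α x ∈ R)
    {g : Ω} (hg : g ∈ S) (hN : g ∈ normalizer (E : Set Ω))
    (h₁ : ∀ x ∈ E, x⁻¹ * (g * x * g⁻¹) ∈ R) (h₀ : phi 3 E ≤ R)
    (h₂ : ∀ x ∈ R, x⁻¹ * (g * x * g⁻¹) ∈ phi 3 E) : g ∈ E := by
  haveI : Fact (Nat.Prime 3) := ⟨by norm_num⟩
  haveI := Fus.finite_of_le hE.1.1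
  have hG := isPGroup_of_le hS hE.1.1
  have hR' : Inv (F.autGroup E) (R.subgroupOf E) :=
    inv_subgroupOf_iff.2 fun α _ x _ hx => hR α x hx
  have e : (phi 3 E).subgroupOf E = frattini E := by
    rw [phi_subgroupOf le_rfl, subgroupOf_self, phi_top hG]
  refine mem_of_ctl hS hF hE hg hN (Ctl.frattini hG (Ctl.trans_char hG (B := R.subgroupOf E)
    (ctl_ncl_single le_top (inv_top _) hR' (trivOn_conjAut_top_iff.2 h₁))
    (ctl_ncl_single (e ▸ subgroupOf_mono _ h₀) hR' (inv_char _ _) ?_)))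
  rw [← e]
  exact trivOn_conjAut_iff.2 fun x _ hx => h₂ x hx

theorem tv {a t c : Ω} (ha : a ∈ S) (ht : t ∈ S) (hNa : a ∈ normalizer (E : Set Ω))
    (hNt : t ∈ normalizer (E : Set Ω)) (hc : c ∈ E)
    (h₁ : ∀ x ∈ E, x⁻¹ * (a * x * a⁻¹) ∈ zpowers c ⊔ phi 3 E)
    (h₂ : c⁻¹ * (a * c * a⁻¹) ∈ phi 3 E) (haE : a ∉ E) (hI : ∀ k < 3, a ^ k * t ∉ E) : False := by
  haveI : Fact (Nat.Prime 3) := ⟨by norm_num⟩
  haveI := Fus.finite_of_le hE.1.1
  have hG := isPGroup_of_le hS hE.1.1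
  have e : (phi 3 E).subgroupOf E = frattini E := by
    rw [phi_subgroupOf le_rfl, subgroupOf_self, phi_top hG]
  obtain ⟨Mx, h⟩ := sed_of_ess hS hF hE
  letI : CommGroup (E ⧸ frattini E) := { (inferInstance : Group (E ⧸ frattini E)) with
    mul_comm := fun x z => by
      obtain ⟨x, rfl⟩ := QuotientGroup.mk_surjective x
      obtain ⟨z, rfl⟩ := QuotientGroup.mk_surjective z
      rw [← QuotientGroup.mk_mul, ← QuotientGroup.mk_mul, QuotientGroup.eq, ← phi_top hG]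
      simpa [commutatorElement_def, mul_assoc] using
        comm_mem_phi (p := 3) (mem_top z⁻¹) (mem_top x⁻¹) }
  have hp : ∀ x z : E, (x : Ω)⁻¹ * z ∈ phi 3 E →
      QuotientGroup.mk' (frattini E) z = QuotientGroup.mk' (frattini E) x := fun x z hx =>
    (QuotientGroup.eq.2 (e ▸ hx)).symm
  refine tv_abs (π := QuotientGroup.mk' (frattini E)) hG (QuotientGroup.ker_mk' _) (fun x => ?_) h
    (conjAut_mem_autInducedBy ha hNa) (conjAut_mem_autInducedBy ht hNt) (c := ⟨c, hc⟩)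
    (fun e => haE ((mem_iff_conjAut_mem_Inn hE.1 ha hNa).1 e)) (fun k hk e => hI k hk ?_)
    ⟨fun x => ?_, hp _ _ h₂⟩
  · rw [← map_pow]
    exact (QuotientGroup.eq_one_iff _).2 (phi_top hG ▸ pow_mem_phi (mem_top x))
  · rw [← Ess.conjAut_pow, ← conjAut_mul] at e
    exact (mem_iff_conjAut_mem_Inn hE.1 (S.mul_mem (S.pow_mem ha k) ht) _).1 e
  · have hn : zpowers c ≤ normalizer (phi 3 E : Set Ω) :=
      (zpowers_le.2 hc).trans (le_normalizer_of_phi_le le_rfl phi_le)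
    have := h₁ x x.2
    rw [← SetLike.mem_coe, coe_mul_of_left_le_normalizer_right _ _ hn] at this
    obtain ⟨_, ⟨k, rfl⟩, d, hd, e⟩ := this
    refine ⟨k, ?_⟩
    rw [← map_zpow, ← map_mul]
    refine hp _ _ ?_
    change ((x : Ω) * c ^ k)⁻¹ * (a * x * a⁻¹) ∈ _
    rw [mul_inv_rev, mul_assoc, ← e]
    simpa using hd

end Cfsg.Agent.ThS
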