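import Cfsg.Agent.Lib.ThS.Ck
import Cfsg.Agent.Lib.ThS.Tab
import Cfsg.Agent.Lib.ThS.Kill

/-!
Soundness of the list operations of the checker.
-/

set_option autoImplicit false
set_option linter.style.haveILetI false

namespace Cfsg.Agent.ThS

open Cfsg.Agent.Fus Cfsg.Agent.Ess Subgroup
open scoped commutatorElement

variable {G : Type*} [Group G] {y : ℕ → G} {P K : Subgroup G} {lam : G → ZMod 3} {l : ℕ} {L : EL}

/-- `lam` is additive on `P`. -/
def Hm (P : Subgroup G) (lam : G → ZMod 3) : Prop := ∀ a ∈ P, ∀ b ∈ P, lam (a * b) = lam a + lam b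

theorem hm_zero : Hm P 0 := fun _ _ _ _ => (add_zero 0).symm

theorem Hm.one (h : Hm P lam) : lam 1 = 0 := by simpa using h 1 P.one_mem 1 P.one_mem

theorem Hm.inv (h : Hm P lam) {a : G} (ha : a ∈ P) : lam a⁻¹ = -lam a := by
  have := h a ha _ (P.inv_mem ha)
  rw [mul_inv_cancel, h.one] at this
  exact (neg_eq_of_add_eq_zero_right this.symm).symm

/-- The kernel. -/
def Hm.ker (h : Hm P lam) : Subgroup G where
  carrier := {x | x ∈ P ∧ lam x = 0}
  one_mem' := ⟨P.one_mem, h.one⟩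
  mul_mem' ha hb := ⟨P.mul_mem ha.1 hb.1, by rw [h _ ha.1 _ hb.1, ha.2, hb.2, add_zero]⟩
  inv_mem' ha := ⟨P.inv_mem ha.1, by rw [h.inv ha.1, ha.2, neg_zero]⟩

theorem Hm.phi (h : Hm P lam) : phi 3 P ≤ h.ker := phi_le_iff.2
  ⟨fun x hx => ⟨P.pow_mem hx 3, by
    have : ∀ a : ZMod 3, a + a + a = 0 := by decide
    rw [pow_succ, sq, h _ (P.mul_mem hx hx) _ hx, h _ hx _ hx, this]⟩,
  fun x hx z hz => ⟨comm_mem_of_mem hx hz, by
    rw [commutatorElement_def, h _ (P.mul_mem (P.mul_mem hx hz) (P.inv_mem hx)) _ (P.inv_mem hz),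
      h _ (P.mul_mem hx hz) _ (P.inv_mem hx), h _ hx _ hz, h.inv hx, h.inv hz]
    ring⟩⟩

/-- The entries are elements of `P` with their squares and the values of `lam`. -/
def Val (y : ℕ → G) (P : Subgroup G) (lam : G → ZMod 3) (l : ℕ) : EL → Prop
  | .nil => True
  | .cons u v _ t r => (∃ x ∈ P, Rp y u x ∧ Rp y v (x * x) ∧ lam x = (l / t % 3 : ℕ)) ∧
      Val y P lam l r

/-- The entries are elements of `K`. -/
def Mem (y : ℕ → G) (K : Subgroup G) : EL → Prop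
  | .nil => True
  | .cons u _ _ _ r => (u < 59049 ∧ nf y u ∈ K) ∧ Mem y K r

theorem Val.mem (h : Val y P lam l L) : Mem y P L := by
  induction L with
  | nil => trivial
  | cons u v p t r ih =>
    obtain ⟨⟨x, hx, hu, -⟩, h⟩ := h
    exact ⟨⟨hu.1, hu.2 ▸ hx⟩, ih h⟩

/-- Entries with tag zero in `K`. -/
def ValZ (y : ℕ → G) (K : Subgroup G) (L : EL) : Prop :=
  ∀ (P : Subgroup G) (lam : G → ZMod 3) (l : ℕ), K ≤ P → (∀ x ∈ K, lam x = 0) → Val y P lam l L

theorem ValZ.val (h : ValZ y K L) : Val y K 0 0 L := h K 0 0 le_rfl fun _ _ => rfl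

theorem ValZ.mono (h : ValZ y K L) (hK : K ≤ P) : ValZ y P L :=
  fun Q lam l h₁ h₂ => h Q lam l (hK.trans h₁) fun x hx => h₂ x (hK hx)

theorem brec_eq {α : Type} (c : Bool) (a b : α) :
    @Bool.rec (fun _ => α) b a c = if c = true then a else b := by cases c <;> rfl

theorem sift_cons (u v p t : ℕ) (r : EL) (l x a : ℕ) : sift (.cons u v p t r) l x a =
    if p ≤ x then if 2 * p ≤ x then sift r l (mul u x) (a + 2 * (l / t % 3))
      else sift r l (mul v x) (a + l / t % 3) else sift r l x a := by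
  change bif' (Nat.ble p x) (bif' (Nat.ble (2 * p) x) (sift r l (mul u x) (a + 2 * (l / t % 3)))
    (sift r l (mul v x) (a + l / t % 3))) (sift r l x a) = _
  simp only [bif'_eq, Nat.ble_eq]

theorem sift_sound (h : Rel y) (hl : Hm P lam) (hL : Val y P lam l L) : ∀ {c : ℕ} {z : G} (a : ℕ),
    Rp y c z → ∃ w ∈ P, ∃ r, Rp y (sift L l c a / 3) r ∧ z = w * r ∧
      ((sift L l c a % 3 : ℕ) : ZMod 3) = a + lam w := by
  induction L with
  | nil =>
    intro c z a hc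
    have e : sift .nil l c a = 3 * c + a % 3 := rfl
    refine ⟨1, P.one_mem, z, ?_, (one_mul z).symm, ?_⟩
    · rwa [e, show (3 * c + a % 3) / 3 = c by omega]
    · rw [e, show (3 * c + a % 3) % 3 = a % 3 by omega, hl.one, add_zero, ZMod.natCast_mod]
  | cons u v p t r ih =>
    intro c z a hc
    obtain ⟨⟨x, hx, hu, hv, e⟩, hL⟩ := hL
    rw [sift_cons]
    split_ifs
    · obtain ⟨w, hw, s, h1, h2, h3⟩ := ih hL (a + 2 * (l / t % 3)) (hu.mul h hc)
      refine ⟨x⁻¹ * w, P.mul_mem (P.inv_mem hx) hw, s, h1, by rw [mul_assoc, ← h2]; simp, ?_⟩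
      have : ∀ a b c : ZMod 3, a + 2 * b + c = a + (-b + c) := by decide
      rw [h3, hl _ (P.inv_mem hx) _ hw, hl.inv hx, e, Nat.cast_add, Nat.cast_mul, ← this]
      rfl
    · obtain ⟨w, hw, s, h1, h2, h3⟩ := ih hL (a + l / t % 3) (hv.mul h hc)
      have hxx := P.mul_mem hx hx
      refine ⟨(x * x)⁻¹ * w, P.mul_mem (P.inv_mem hxx) hw, s, h1,
        by rw [mul_assoc, ← h2, inv_mul_cancel_left], ?_⟩
      have : ∀ a b c : ZMod 3, a + b + c = a + (-(b + b) + c) := by decide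
      rw [h3, hl _ (P.inv_mem hxx) _ hw, hl.inv hxx, hl _ hx _ hx, e, Nat.cast_add, ← this]
    · exact ih hL a hc

theorem sift_lt (h : Rel y) (hl : Hm P lam) (hL : Val y P lam l L) {c : ℕ} {z : G} (hc : Rp y c z)
    (e : sift L l c 0 < 3) : z ∈ P ∧ lam z = (sift L l c 0 : ℕ) := by
  obtain ⟨w, hw, r, h1, h2, h3⟩ := sift_sound h hl hL 0 hc
  rw [Nat.div_eq_of_lt e] at h1
  rw [h1.eq Rp.one, mul_one] at h2
  rw [Nat.mod_eq_of_lt e, Nat.cast_zero, zero_add] at h3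
  exact ⟨h2 ▸ hw, h2 ▸ h3.symm⟩

theorem isIn_sound (h : Rel y) (hL : Val y K 0 0 L) {c : ℕ} {z : G} (hc : Rp y c z)
    (e : isIn L c = true) : z ∈ K :=
  (sift_lt h hm_zero hL hc (by rw [Nat.eq_of_beq_eq_true e]; decide)).1

theorem ins_cons (u v p t u' v' p' t' : ℕ) (r : EL) : ins u v p t (.cons u' v' p' t' r) =
    if p' ≤ p then .cons u v p t (.cons u' v' p' t' r) else .cons u' v' p' t' (ins u v p t r) := by
  change bif' (Nat.ble p' p) (EL.cons u v p t (.cons u' v' p' t' r))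
    (.cons u' v' p' t' (ins u v p t r)) = _
  simp only [bif'_eq, Nat.ble_eq]

theorem len_ins (u v p t : ℕ) (L : EL) : len (ins u v p t L) = len L + 1 := by
  induction L with
  | nil => rfl
  | cons u' v' p' t' r ih =>
    rw [ins_cons]
    split_ifs
    · rfl
    · exact congrArg (· + 1) ih

theorem Val.ins (hL : Val y P lam l L) {u v p t : ℕ}
    (h : ∃ x ∈ P, Rp y u x ∧ Rp y v (x * x) ∧ lam x = (l / t % 3 : ℕ)) :
    Val y P lam l (ins u v p t L) := by
  induction L with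
  | nil => exact ⟨h, trivial⟩
  | cons u' v' p' t' r ih =>
    rw [ins_cons]
    split_ifs
    exacts [⟨h, hL⟩, ⟨hL.1, ih hL.2⟩]

theorem Mem.ins (hL : Mem y K L) {u v p t : ℕ} (h : u < 59049 ∧ nf y u ∈ K) :
    Mem y K (ins u v p t L) := by
  induction L with
  | nil => exact ⟨h, trivial⟩
  | cons u' v' p' t' r ih =>
    rw [ins_cons]
    split_ifs
    exacts [⟨h, hL⟩, ⟨hL.1, ih hL.2⟩]

theorem insE_eq (u t : ℕ) (L : EL) : insE u t L = ins u (mul u u) (lp u) t L := rfl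

theorem Val.insE (h : Rel y) (hL : Val y P lam l L) {u t : ℕ} {x : G} (hx : x ∈ P) (hu : Rp y u x)
    (e : lam x = (l / t % 3 : ℕ)) : Val y P lam l (insE u t L) :=
  hL.ins ⟨x, hx, hu, hu.mul h hu, e⟩

theorem ValZ.insE (h : Rel y) (hL : ValZ y K L) {u : ℕ} {x : G} (hx : x ∈ K) (hu : Rp y u x) :
    ValZ y K (insE u 0 L) := fun P lam l h₁ h₂ =>
  (hL P lam l h₁ h₂).insE h (h₁ hx) hu (by simp [h₂ x hx])

theorem red_sound (h : Rel y) (hL : Val y K 0 0 L) {c : ℕ} {z : G} (hc : Rp y c z) (hz : z ∈ K) :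
    ∃ x ∈ K, Rp y (red L c) x := by
  obtain ⟨w, hw, r, h1, h2, -⟩ := sift_sound h hm_zero hL 0 hc
  have hr : r ∈ K := (K.mul_mem_cancel_left hw).1 (h2 ▸ hz)
  have e : red L c = bif' (Nat.ble (2 * lp (sift L 0 c 0 / 3)) (sift L 0 c 0 / 3))
    (mul (sift L 0 c 0 / 3) (sift L 0 c 0 / 3)) (sift L 0 c 0 / 3) := rfl
  rw [e, bif'_eq]
  split_ifs
  exacts [⟨_, K.mul_mem hr hr, h1.mul h h1⟩, ⟨r, hr, h1⟩]

theorem Rp.cm (h : Rel y) {a b : ℕ} {x z : G} (ha : Rp y a x) (hb : Rp y b z) :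
    Rp y (cm a b) ⁅x, z⁆ := by
  have := (ha.mul h hb).mul h ((hb.mul h ha).inv h)
  rwa [mul_inv_rev, ← mul_assoc] at this

theorem Rp.cb (h : Rel y) {a : ℕ} {x : G} (ha : Rp y a x) : Rp y (cb a) (x ^ 3) := by
  rw [pow_succ, sq]; exact (ha.mul h ha).mul h ha

theorem Rp.mul3 (h : Rel y) {a b c : ℕ} {x z w : G} (ha : Rp y a x) (hb : Rp y b z)
    (hc : Rp y c w) : Rp y (mul3 a b c) (x * z * w) := (ha.mul h hb).mul h hc

theorem Rp.dl (h : Rel y) {g c : ℕ} {x z : G} (hg : Rp y g z) (hc : Rp y c x) :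
    Rp y (dl g (ThS.inv g) c) (x⁻¹ * (z * x * z⁻¹)) := (hc.inv h).mul h (hg.mul3 h hc (hg.inv h))

theorem nth_mem (l : List ℕ) : ∀ i, nth l i = 0 ∨ nth l i ∈ l := by
  induction l with
  | nil => exact fun _ => Or.inl rfl
  | cons a l ih =>
    rintro (_ | i)
    · exact Or.inr List.mem_cons_self
    · exact (ih i).imp_right (List.mem_cons_of_mem a)

theorem bld_sound (h : Rel y) (hs : List ℕ) : ∀ (cur : List ℕ) (L : EL),
    (∀ c ∈ cur, c < 59049 ∧ nf y c ∈ P) → ValZ y (phi 3 P) L → ValZ y (phi 3 P) (bld hs cur L) := by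
  induction hs with
  | nil => exact fun _ _ _ hL => hL
  | cons a hs ih =>
    intro cur L hc hL
    have hn : ∀ i, nth cur i < 59049 ∧ nf y (nth cur i) ∈ P := fun i =>
      (nth_mem cur i).elim (fun e => by rw [e, nf_zero]; exact ⟨by decide, P.one_mem⟩) (hc _)
    have e : bld (a :: hs) cur L = (fun r => bld hs (r :: cur) (insE r 0 L)) (red L
      (bif' (Nat.beq (nth cur (a / 16)) (nth cur (a % 16))) (cb (nth cur (a / 16)))
        (cm (nth cur (a / 16)) (nth cur (a % 16))))) := rfl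
    obtain ⟨z, hz, hw⟩ : ∃ z ∈ phi 3 P, Rp y (bif' (Nat.beq (nth cur (a / 16)) (nth cur (a % 16)))
        (cb (nth cur (a / 16))) (cm (nth cur (a / 16)) (nth cur (a % 16)))) z := by
      rw [bif'_eq]
      split_ifs
      · exact ⟨_, pow_mem_phi (hn _).2, (rp_nf (hn _).1).cb h⟩
      · exact ⟨_, comm_mem_phi (hn _).2 (hn _).2, (rp_nf (hn _).1).cm h (rp_nf (hn _).1)⟩
    obtain ⟨x, hx, hr⟩ := red_sound h hL.val hw hz
    rw [e]
    exact ih _ _ (List.forall_mem_cons.2 ⟨⟨hr.1, hr.2 ▸ phi_le hx⟩, hc⟩) (hL.insE h hx hr)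

theorem ext_sound (h : Rel y) (qs : List ℕ) : ∀ L : EL, (∀ q ∈ qs, q < 59049 ∧ nf y q ∈ K) →
    ValZ y K L → ValZ y K (ext qs L) := by
  induction qs with
  | nil => exact fun _ _ hL => hL
  | cons q qs ih =>
    intro L hq hL
    obtain ⟨h1, h2⟩ := List.forall_mem_cons.1 hq
    obtain ⟨x, hx, hr⟩ := red_sound h hL.val (rp_nf h1.1) h1.2
    exact ih (insE (red L q) 0 L) h2 (hL.insE h hx hr)

open Classical in
/-- The products of powers of the entries. -/
noncomputable def Pr (y : ℕ → G) : EL → Finset G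
  | .nil => {1}
  | .cons u _ _ _ r => (Finset.range 3 ×ˢ Pr y r).image fun e => nf y u ^ e.1 * e.2

theorem mem_Pr_cons {u v p t : ℕ} {r : EL} {x : G} :
    x ∈ Pr y (.cons u v p t r) ↔ ∃ e < 3, ∃ z ∈ Pr y r, nf y u ^ e * z = x := by
  simp only [Pr, Finset.mem_image, Finset.mem_product, Finset.mem_range, Prod.exists]
  exact ⟨fun ⟨e, z, ⟨h1, h2⟩, h3⟩ => ⟨e, h1, z, h2, h3⟩, fun ⟨e, h1, z, h2, h3⟩ => ⟨e, z, ⟨h1, h2⟩, h3⟩⟩

theorem Mem.pr (h : Mem y K L) : ∀ x ∈ Pr y L, x ∈ K := by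
  induction L with
  | nil => intro x hx; rw [Finset.mem_singleton.1 hx]; exact K.one_mem
  | cons u v p t r ih =>
    intro x hx
    obtain ⟨e, -, z, hz, rfl⟩ := mem_Pr_cons.1 hx
    exact K.mul_mem (K.pow_mem h.1.2 e) (ih h.2 z hz)

theorem ech_spec (h : PC y) (L : EL) : ∀ m ≤ 10, ech L (3 ^ m) = true →
    (Pr y L).card = 3 ^ len L ∧ Mem y (B y m) L := by
  induction L with
  | nil => exact fun _ _ _ => ⟨rfl, trivial⟩
  | cons u v p t r ih =>
    intro m hm e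
    change (Nat.blt u (3 ^ m) && Nat.ble p u && Nat.beq (59049 % p) 0 && ech r p) = true at e
    simp only [Bool.and_eq_true, Nat.blt_eq, Nat.ble_eq, Nat.beq_eq] at e
    obtain ⟨⟨⟨e1, e2⟩, e3⟩, e4⟩ := e
    obtain ⟨n, hn, rfl⟩ := (Nat.dvd_prime_pow Nat.prime_three (m := 10)).1 (Nat.dvd_of_mod_eq_zero e3)
    obtain ⟨i1, i2⟩ := ih n hn e4
    have hu : Rp y u (nf y u) := rp_nf (e1.trans_le (Nat.pow_le_pow_right (n := 3) (by decide) hm))
    have hnm : n ≤ m := ((Nat.pow_lt_pow_iff_right (by decide)).1 (e2.trans_lt e1)).le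
    have hx : nf y u ∉ B y n := fun hx => absurd ((h.mem_B hu).1 hx) (by omega)
    have hx2 : nf y u ^ 2 ∉ B y n := fun hx2 => by
      obtain ⟨k, hk⟩ := h.pg (nf y u)
      exact hx (mem_of_pow_mem_of_coprime hk (by decide) hx2)
    have mono : ∀ r, Mem y (B y n) r → Mem y (B y m) r := fun r hr => by
      induction r with
      | nil => trivial
      | cons _ _ _ _ r ih => exact ⟨⟨hr.1.1, B_mono hnm hr.1.2⟩, ih hr.2⟩
    refine ⟨?_, ⟨hu.1, hu.mem_B_of_lt e1⟩, mono r i2⟩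
    have key : ∀ a b : ℕ, a < b → b < 3 → ∀ z ∈ Pr y r, ∀ w ∈ Pr y r,
        nf y u ^ a * z ≠ nf y u ^ b * w := fun a b hab hb z hz w hw e => by
      obtain ⟨d, rfl⟩ := Nat.exists_eq_add_of_lt hab
      rw [Nat.add_assoc, pow_add, mul_assoc, mul_right_inj] at e
      have : nf y u ^ (d + 1) ∈ B y n :=
        ((B y n).mul_mem_cancel_right (i2.pr w hw)).1 (e ▸ i2.pr z hz)
      rcases (show d = 0 ∨ d = 1 by omega) with rfl | rfl
      exacts [hx (by simpa using this), hx2 this]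
    classical
    rw [Pr, Finset.card_image_of_injOn, Finset.card_product, i1, Finset.card_range]
    · exact (pow_succ' 3 _).symm
    · rintro ⟨a, z⟩ ha ⟨b, w⟩ hb e
      simp only [Finset.coe_product, Set.mem_prod, Finset.mem_coe, Finset.mem_range] at ha hb e
      rcases lt_trichotomy a b with d | rfl | d
      · exact absurd e (key a b d hb.1 z ha.2 w hb.2)
      · rw [mul_left_cancel e]
      · exact absurd e.symm (key b a d ha.1 w hb.2 z ha.2)

theorem card_ge (h : PC y) (e : ech L 59049 = true) (hK : Mem y K L) : 3 ^ len L ≤ Nat.card K := by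
  haveI := h.finite
  rw [← (ech_spec h L 10 le_rfl e).1, ← Set.ncard_coe_finset, ← SetLike.coe_sort_coe,
    Nat.card_coe_set_eq]
  exact Set.ncard_le_ncard fun x hx => hK.pr x hx

theorem mem_Pr (h : PC y) (e : ech L 59049 = true) (hK : Mem y K L) (hc : Nat.card K = 3 ^ len L)
    {x : G} (hx : x ∈ K) : x ∈ Pr y L := by
  haveI := h.finite
  have : (Pr y L : Set G) = K := Set.eq_of_subset_of_ncard_le (fun x hx => hK.pr x hx) (by
    rw [Set.ncard_coe_finset, (ech_spec h L 10 le_rfl e).1, ← hc, ← Nat.card_coe_set_eq]; rfl)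
  rwa [← SetLike.mem_coe, ← this] at hx

theorem notIn_sound (h : PC y) (hL : Val y P 0 0 L) (hc : Nat.card P = 3 ^ len L) {c : ℕ} {z : G}
    (hz : Rp y c z) (e : notIn L c = true) : z ∉ P := fun hP => by
  obtain ⟨w, hw, r, h1, h2, -⟩ := sift_sound h.toRel hm_zero hL 0 hz
  have := card_ge h (L := ins (sift L 0 c 0 / 3) 0 (lp (sift L 0 c 0 / 3)) 0 L) e
    (hL.mem.ins ⟨h1.1, h1.2 ▸ (P.mul_mem_cancel_left hw).1 (h2 ▸ hP)⟩)
  rw [len_ins, hc, Nat.pow_le_pow_iff_right (by decide)] at this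
  omega

theorem ml_sound (h : Rel y) (hl : Hm P lam) (hL : Val y P lam l L) {t0 u0 : ℕ} {x : G}
    (hx : x ∈ P) (hu : Rp y u0 x) (e : lam x = 1) : Mem y hl.ker (ml L l t0 u0 (mul u0 u0)) := by
  induction L with
  | nil => trivial
  | cons u v p t r ih =>
    obtain ⟨⟨z, hz, hu', -, e'⟩, hL⟩ := hL
    have : ml (.cons u v p t r) l t0 u0 (mul u0 u0) = bif' (Nat.beq t t0) (ml r l t0 u0 (mul u0 u0))
      (.cons (bif' (Nat.beq (l / t % 3) 0) u (bif' (Nat.beq (l / t % 3) 1) (mul u (mul u0 u0))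
        (mul u u0))) 0 p 0 (ml r l t0 u0 (mul u0 u0))) := rfl
    rw [this]
    simp only [bif'_eq, Nat.beq_eq]
    split_ifs with h1 h2 h3
    · exact ih hL
    · exact ⟨⟨hu'.1, hu'.2 ▸ ⟨hz, by rw [e', h2]; rfl⟩⟩, ih hL⟩
    · have a := hu'.mul h (hu.mul h hu)
      exact ⟨⟨a.1, a.2 ▸ ⟨P.mul_mem hz (P.mul_mem hx hx), by
        rw [hl _ hz _ (P.mul_mem hx hx), hl _ hx _ hx, e', h3, e]; rfl⟩⟩, ih hL⟩
    · have a := hu'.mul h hu
      exact ⟨⟨a.1, a.2 ▸ ⟨P.mul_mem hz hx, by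
        rw [hl _ hz _ hx, e', show l / t % 3 = 2 by omega, e]; rfl⟩⟩, ih hL⟩

theorem allE_sound (h : Rel y) (hK : Mem y K L) {c : ℕ} {z : G} (hz : Rp y c z)
    (e : allE L (fun m => Nat.beq (mul c m) (mul m c)) = true) : Mem y (centralizer {z}) L := by
  induction L with
  | nil => trivial
  | cons u v p t r ih =>
    change @Bool.rec (fun _ => Bool) false (allE r _) (Nat.beq (mul c u) (mul u c)) = true at e
    rw [brec_eq] at e
    split_ifs at e with h1
    refine ⟨⟨hK.1.1, mem_centralizer_singleton_iff.2 ?_⟩, ih hK.2 e⟩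
    exact ((rp_nf hK.1.1).mul h hz).eq (Nat.eq_of_beq_eq_true h1 ▸ hz.mul h (rp_nf hK.1.1))

theorem allN_iff {l : List ℕ} {f : ℕ → Bool} : allN l f = true ↔ ∀ a ∈ l, f a = true := by
  induction l with
  | nil => simp [allN]
  | cons a l ih =>
    change (f a && allN l f) = true ↔ _
    rw [Bool.and_eq_true, ih, List.forall_mem_cons]

theorem allS_iff {N : ℕ} {f : ℕ → Bool} :
    allS N f = true ↔ ∀ j < 5, sl N j ≠ 0 → f (sl N j) = true := by
  rw [allS, allLt_iff]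
  refine forall₂_congr fun j _ => ?_
  change bif' (Nat.beq (sl N j) 0) true (f (sl N j)) = true ↔ _
  simp only [bif'_eq, Nat.beq_eq]
  split_ifs with h <;> simp [h]

/-- The entries with tag one lie in `K`. -/
def Skp (y : ℕ → G) (K : Subgroup G) : EL → Prop
  | .nil => True
  | .cons u _ _ t r => (t = 1 → nf y u ∈ K) ∧ Skp y K r

theorem Skp.ins (hL : Skp y K L) {u v p t : ℕ} (h : t = 1 → nf y u ∈ K) :
    Skp y K (ins u v p t L) := by
  induction L with
  | nil => exact ⟨h, trivial⟩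
  | cons u' v' p' t' r ih =>
    rw [ins_cons]
    split_ifs
    exacts [⟨h, hL⟩, ⟨hL.1, ih hL.2⟩]

theorem mkL_sound (h : Rel y) {ls : List ℕ}
    (H : ∀ q ∈ ls, q / 2 < 59049 ∧ nf y (q / 2) ∈ P ∧ (q % 2 = 1 → nf y (q / 2) ∈ K)) :
    Val y P 0 0 (mkL ls) ∧ Skp y K (mkL ls) := by
  induction ls with
  | nil => exact ⟨trivial, trivial⟩
  | cons q ls ih =>
    obtain ⟨h1, h2⟩ := List.forall_mem_cons.1 H
    exact ⟨(ih h2).1.insE h h1.2.1 (rp_nf h1.1) (by simp), (ih h2).2.ins h1.2.2⟩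

theorem enum_sound (h : Rel y) (hn : P ≤ normalizer (K : Set G)) (hL : Val y P 0 0 L)
    (hs : Skp y K L) {f : ℕ → Bool} : ∀ {a : ℕ} {z : G}, Rp y a z → enum L f a = true →
    ∀ x ∈ Pr y L, ∃ c, ∃ w ∈ P, Rp y c (z * w) ∧ f c = true ∧ w⁻¹ * x ∈ K := by
  induction L with
  | nil =>
    intro a z ha e x hx
    rw [Finset.mem_singleton.1 hx]
    exact ⟨a, 1, P.one_mem, by rwa [mul_one], e, by simp⟩
  | cons u v p t r ih =>
    intro a z ha e x hx
    obtain ⟨k, hk, x', hx', rfl⟩ := mem_Pr_cons.1 hx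
    obtain ⟨⟨s, hsP, hu, hv, -⟩, hL⟩ := hL
    change bif' (Nat.beq t 1) (enum r f a) (enum r f a && enum r f (mul a u) &&
      enum r f (mul a v)) = true at e
    simp only [bif'_eq, Nat.beq_eq] at e
    rw [hu.2]
    split_ifs at e with h1
    · obtain ⟨c, w, hw, h2, h3, h4⟩ := ih hL hs.2 ha e x' hx'
      refine ⟨c, w, hw, h2, h3, ?_⟩
      have := K.mul_mem ((hn (P.inv_mem hw) _).1 (K.pow_mem (hu.2 ▸ hs.1 h1) k)) h4
      simpa [mul_assoc] using this
    · simp only [Bool.and_eq_true] at e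
      obtain ⟨b, hb, e'⟩ : ∃ b, Rp y b (z * s ^ k) ∧ enum r f b = true := by
        interval_cases k
        · exact ⟨a, by simpa using ha, e.1.1⟩
        · exact ⟨_, by simpa using ha.mul h hu, e.1.2⟩
        · exact ⟨_, by simpa [sq] using ha.mul h hv, e.2⟩
      obtain ⟨c, w, hw, h2, h3, h4⟩ := ih hL hs.2 hb e' x' hx'
      exact ⟨c, s ^ k * w, P.mul_mem (P.pow_mem hsP k) hw, by rwa [← mul_assoc], h3,
        by simpa [mul_assoc] using h4⟩

end Cfsg.Agent.ThS
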