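import Cfsg.Agent.Lib.ThS.Wt

/-!
The automizer of the elementary abelian subgroup `E3` as a linear group.
-/

set_option autoImplicit false
set_option linter.style.haveILetI false
set_option linter.unusedVariables false

namespace Cfsg.Agent.ThS

open Cfsg.Agent.Fus Cfsg.Agent.Fus2 Subgroup
open Cfsg.Agent.U5 (SEd sed_of_ess)
open L (K T V GV fm io)

variable {G : Type*} [Group G] {y : ℕ → G}

/-- The part of an element of `E3` outside `B 5`. -/
def jp (y : ℕ → G) (p : T) : G := nf y 6804 ^ p.1.val * nf y 2952 ^ p.2.val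

/-- The element of `E3` with given coordinates. -/
def jv (y : ℕ → G) (v : V) : G := jp y v.1 * (nf y 90 ^ v.2.1.val * jz y v.2.2)

noncomputable def cp (p : T) : ℕ := mul (pw 6804 p.1.val) (pw 2952 p.2.val)

/-- The code of `jv`. -/
noncomputable def cv (v : V) : ℕ := mul (cp v.1) (mul (pw 90 v.2.1.val) (cj 8 v.2.2))

theorem PC.rp (h : PC y) (p : T) : Rp y (cp p) (jp y p) :=
  ((rp_nf (by decide)).pw h.toRel _).mul h.toRel ((rp_nf (by decide)).pw h.toRel _)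

theorem PC.rv (h : PC y) (v : V) : Rp y (cv v) (jv y v) :=
  (h.rp _).mul h.toRel (((rp_nf (by decide)).pw h.toRel _).mul h.toRel (h.rj (by decide) _))

theorem jv_io (w : T) : jv y (io w) = jz y w := by simp [jv, jp, io]

theorem jz_mem (w : T) : jz y w ∈ B y 2 := mul_mem (pow_mem (mB 8 2) _) (pow_mem (mB 9 2) _)

theorem jp_mem (p : T) : jp y p ∈ E3 y :=
  mul_mem (pow_mem (subset_closure (by simp)) _) (pow_mem (subset_closure (by simp)) _)

theorem jv_mem (v : V) : jv y v ∈ E3 y :=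
  mul_mem (jp_mem _) (mul_mem (pow_mem (subset_closure (by simp)) _)
    (mul_mem (pow_mem (subset_closure (by simp)) _) (pow_mem (subset_closure (by simp)) _)))

theorem E3_le_E1 : E3 y ≤ E1 y := (closure_le _).2 (by
  rintro _ (rfl | rfl | rfl | rfl | rfl)
  exacts [(rp_nf (by decide)).mem_B_of_lt (by decide), (rp_nf (by decide)).mem_B_of_lt (by decide),
    (rp_nf (by decide)).mem_B_of_lt (by decide), m1 8, m1 9])

theorem N3_le_E1e : N3 y ≤ E1 y := sup_le E3_le_E1 (B_mono (by decide))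

theorem pow_val_add {x : G} (hx : x ^ 3 = 1) (a b : K) :
    x ^ (a + b).val = x ^ a.val * x ^ b.val := by
  rw [ZMod.val_add, ← pow_eq_pow_mod _ hx, pow_add]

theorem PC.comm_E3 (h : PC y) {s t : G} (hs : s ∈ E3 y) (ht : t ∈ E3 y) : Commute s t := by
  have k : ∀ a ∈ [6804, 2952, 90, 3, 1], ∀ b ∈ [6804, 2952, 90, 3, 1], mul a b = mul b a := by
    decide +kernel
  have e : ∀ x ∈ ({nf y 6804, nf y 2952, nf y 90, y 8, y 9} : Set G),
      ∃ a ∈ [6804, 2952, 90, 3, 1], Rp y a x := by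
    rintro _ (rfl | rfl | rfl | rfl | rfl)
    exacts [⟨_, by simp, rp_nf (by decide)⟩, ⟨_, by simp, rp_nf (by decide)⟩,
      ⟨_, by simp, rp_nf (by decide)⟩, ⟨3, by simp, h.g 8⟩, ⟨1, by simp, h.g 9⟩]
  refine mem_centralizer_singleton_iff.1 ((closure_le (centralizer {t})).2 (fun s hs => ?_) hs)
  refine mem_centralizer_singleton_iff.2 (mem_centralizer_singleton_iff.1
    ((closure_le (centralizer {s})).2 (fun t ht => mem_centralizer_singleton_iff.2 ?_) ht)).symm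
  obtain ⟨a, ha, ra⟩ := e s hs
  obtain ⟨b, hb, rb⟩ := e t ht
  exact ((rb.mul h.toRel ra).of_eq (k b hb a ha)).eq (ra.mul h.toRel rb)

theorem PC.jv_add (h : PC y) (v w : V) : jv y (v + w) = jv y v * jv y w := by
  have c : ∀ {a : ℕ} {x : G}, Rp y a x → pw a 3 = 0 → x ^ 3 = 1 := fun ha e =>
    ((ha.pw h.toRel 3).of_eq e).eq Rp.one
  have g : ∀ x ∈ ({nf y 6804, nf y 2952, nf y 90, y 8, y 9} : Set G), ∀ n : ℕ, x ^ n ∈ E3 y :=
    fun x hx n => pow_mem (subset_closure hx) n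
  have m : ∀ {a b c d : G}, b ∈ E3 y → c ∈ E3 y → a * c * (b * d) = a * b * (c * d) :=
    fun hb hc => (h.comm_E3 hc hb).mul_mul_mul_comm _ _
  simp only [jv, jp, jz, Prod.fst_add, Prod.snd_add]
  rw [pow_val_add (c (rp_nf (c := 6804) (by decide)) (by decide +kernel)),
    pow_val_add (c (rp_nf (c := 2952) (by decide)) (by decide +kernel)),
    pow_val_add (c (rp_nf (c := 90) (by decide)) (by decide +kernel)),
    pow_val_add (c (h.g 8) (by decide +kernel)), pow_val_add (c (h.g 9) (by decide +kernel)),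
    m (g _ (by simp) _) (g (nf y 6804) (by simp) _), m (g (y 9) (by simp) _) (g (y 8) (by simp) _),
    m (mul_mem (g (y 8) (by simp) _) (g _ (by simp) _)) (g (nf y 90) (by simp) _),
    m (mul_mem (g (nf y 90) (by simp) _) (mul_mem (g _ (by simp) _) (g _ (by simp) _)))
      (mul_mem (g (nf y 6804) (by simp) _) (g _ (by simp) _))]

theorem jv_zero : jv y 0 = 1 := by simp [jv, jp, jz]

theorem PC.jv_neg (h : PC y) (v : V) : jv y (-v) = (jv y v)⁻¹ :=
  eq_inv_of_mul_eq_one_left (by rw [← h.jv_add, neg_add_cancel, jv_zero])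

theorem PC.jv_inj (h : PC y) : Function.Injective (jv y) := fun v w e => by
  have k : ∀ v : V, cv v = 0 → v = 0 := by decide +kernel
  refine sub_eq_zero.1 (k _ ((h.rv _).inj h.toRel ?_))
  rw [sub_eq_add_neg, h.jv_add, h.jv_neg, e, mul_inv_cancel]
  exact Rp.one

theorem PC.exists_jv (h : PC y) {s : G} (hs : s ∈ E3 y) : ∃ v, jv y v = s := by
  induction hs using closure_induction with
  | mem x hx =>
    rcases hx with rfl | rfl | rfl | rfl | rfl
    exacts [⟨((1, 0), 0, 0), by simp [jv, jp, jz, ZMod.val_one]⟩,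
      ⟨((0, 1), 0, 0), by simp [jv, jp, jz, ZMod.val_one]⟩,
      ⟨(0, 1, 0), by simp [jv, jp, jz, ZMod.val_one]⟩,
      ⟨(0, 0, 1, 0), by simp [jv, jp, jz, ZMod.val_one]⟩,
      ⟨(0, 0, 0, 1), by simp [jv, jp, jz, ZMod.val_one]⟩]
  | one => exact ⟨0, jv_zero⟩
  | mul x z _ _ hx hz =>
    obtain ⟨v, rfl⟩ := hx
    obtain ⟨w, rfl⟩ := hz
    exact ⟨_, h.jv_add v w⟩
  | inv x _ hx =>
    obtain ⟨v, rfl⟩ := hx
    exact ⟨_, h.jv_neg v⟩

/-- The coordinates of an element of `E3`. -/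
noncomputable def vj (y : ℕ → G) : G → V := Function.invFun (jv y)

theorem PC.vj_jv (h : PC y) (v : V) : vj y (jv y v) = v := Function.leftInverse_invFun h.jv_inj v

theorem PC.jv_vj (h : PC y) {s : G} (hs : s ∈ E3 y) : jv y (vj y s) = s :=
  Function.invFun_eq (h.exists_jv hs)

theorem PC.vj_mul (h : PC y) {s t : G} (hs : s ∈ E3 y) (ht : t ∈ E3 y) :
    vj y (s * t) = vj y s + vj y t :=
  h.jv_inj (by rw [h.jv_add, h.jv_vj hs, h.jv_vj ht, h.jv_vj (mul_mem hs ht)])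

/-- The automorphism of `E3` given by a linear map. -/
noncomputable def PC.toE (h : PC y) : GV →* MulAut (E3 y) := MonoidHom.mk' (fun g =>
  { toFun := fun s => ⟨jv y (g (vj y s)), jv_mem _⟩
    invFun := fun s => ⟨jv y (g⁻¹ (vj y s)), jv_mem _⟩
    left_inv := fun s => Subtype.ext (by
      change jv y (g⁻¹ (vj y (jv y _))) = _
      rw [h.vj_jv, L.inv_ap, h.jv_vj s.2])
    right_inv := fun s => Subtype.ext (by
      change jv y (g (vj y (jv y _))) = _
      rw [h.vj_jv, L.ap_inv, h.jv_vj s.2])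
    map_mul' := fun s t => Subtype.ext (by
      change jv y (g (vj y (s * t))) = jv y _ * jv y _
      rw [h.vj_mul s.2 t.2, map_add, h.jv_add]) }) fun g k => MulEquiv.ext fun s => Subtype.ext (by
    change jv y (g (k _)) = jv y (g (vj y (jv y _)))
    rw [h.vj_jv])

theorem PC.afn_toE (h : PC y) (g : GV) (v : V) : afn (h.toE g) (jv y v) = jv y (g v) := by
  rw [afn_apply _ (jv_mem v)]
  change jv y (g (vj y (jv y v))) = _
  rw [h.vj_jv]

theorem PC.toE_bij (h : PC y) : Function.Bijective h.toE :=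
  ⟨fun g k e => LinearEquiv.ext fun v => h.jv_inj (by rw [← h.afn_toE, e, h.afn_toE]), fun α => by
    have e : ∀ v, jv y (vj y (afn α (jv y v))) = afn α (jv y v) := fun v =>
      h.jv_vj (afn_mem α (jv_mem v))
    let φ : V →+ V := AddMonoidHom.mk' (fun v => vj y (afn α (jv y v))) fun v w => h.jv_inj (by
      rw [e, h.jv_add, h.jv_add, e, e, (homOn_afn α).map_mul (jv_mem v) (jv_mem w)])
    refine ⟨LinearEquiv.ofBijective (φ.toZModLinearMap 3) (Finite.injective_iff_bijective.1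
      fun v w k => h.jv_inj (afn_injective α ((e v).symm.trans ((congrArg (jv y) k).trans (e w))))),
      aut_ext fun s hs => ?_⟩
    obtain ⟨v, rfl⟩ := h.exists_jv hs
    rw [h.afn_toE]
    exact e v⟩

/-- The elements acting on `E3` as root elements. -/
def PC.nU (h : PC y) : Subgroup G where
  carrier := {x | ∃ t, ∀ v, x * jv y v * x⁻¹ = jv y (L.u t v)}
  one_mem' := ⟨0, fun v => by rw [L.u_zero, L.one_ap, one_mul, inv_one, mul_one]⟩
  mul_mem' := by
    rintro x z ⟨t, ht⟩ ⟨s, hs⟩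
    exact ⟨t + s, fun v => by rw [← L.u_mul, L.mul_ap, ← ht, ← hs]; group⟩
  inv_mem' := by
    rintro x ⟨t, ht⟩
    refine ⟨-t, fun v => ?_⟩
    have := ht (L.u (-t) v)
    rw [← L.mul_ap, L.u_mul, add_neg_cancel, L.u_zero, L.one_ap] at this
    rw [← this]; group

theorem PC.conj_gen (h : PC y) {i : ℕ} (hi : i < 10) {t : T} (k : ∀ v : V,
    mul (mul (3 ^ (9 - i)) (cv v)) (inv (3 ^ (9 - i))) = cv (v + io (fm t v.1))) (v : V) :
    y i * jv y v * (y i)⁻¹ = jv y (L.u t v) :=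
  ((((h.g i hi).mul h.toRel (h.rv v)).mul h.toRel ((h.g i hi).inv h.toRel)).of_eq (k v)).eq (h.rv _)

theorem PC.conj7 (h : PC y) (v : V) : y 7 * jv y v * (y 7)⁻¹ = jv y (L.u (1, 0) v) :=
  h.conj_gen (by decide) (by decide +kernel) v

theorem PC.conj6 (h : PC y) (v : V) : y 6 * jv y v * (y 6)⁻¹ = jv y (L.u (0, 1) v) :=
  h.conj_gen (by decide) (by decide +kernel) v

theorem PC.E3_le_nU (h : PC y) : E3 y ≤ h.nU := fun x hx => ⟨0, fun v => by
  rw [L.u_zero, L.one_ap, (h.comm_E3 hx (jv_mem v)).eq, mul_inv_cancel_right]⟩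

theorem PC.N3_le_nU (h : PC y) : N3 y ≤ h.nU := sup_le h.E3_le_nU (B_le_iff.2 fun i hi h5 => by
  rcases (show i = 5 ∨ i = 6 ∨ i = 7 ∨ i = 8 ∨ i = 9 by omega) with rfl | rfl | rfl | rfl | rfl
  exacts [⟨(2, 0), h.conj_gen hi (by decide +kernel)⟩, ⟨_, h.conj6⟩, ⟨_, h.conj7⟩,
    h.E3_le_nU (subset_closure (by simp)), h.E3_le_nU (subset_closure (by simp))])

/-- The code of `x` modulo the part outside `B 5`. -/
noncomputable def lo3 (c : ℕ) : ℕ := mul (inv (cp ((c / 6561 : ℕ), (c / 2187 : ℕ)))) c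

/-- A test satisfied by the codes of the elements of `E3`. -/
noncomputable def in3 (c : ℕ) : Bool :=
  Nat.blt (lo3 c) 243 && Nat.beq (lo3 c / 27 % 3) 0 && Nat.beq (lo3 c / 81) (lo3 c / 9 % 3)

theorem PC.in3_of (h : PC y) {c : ℕ} {x : G} (hc : Rp y c x) (hx : x ∈ E3 y) : in3 c = true := by
  have k : ∀ v : V, in3 (cv v) = true := by decide +kernel
  obtain ⟨v, rfl⟩ := h.exists_jv hx
  exact (h.rv v).inj h.toRel hc ▸ k v

/-- The normaliser of `E3` is `N3`. -/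
theorem PC.mem_N3 (h : PC y) {x : G} (hx : ∀ s ∈ E3 y, x * s * x⁻¹ ∈ E3 y) : x ∈ N3 y := by
  have k : allLt 243 (fun q => bif' (in3 (mul (mul (243 * q) 6804) (inv (243 * q))))
      (bif' (in3 (mul (mul (243 * q) 2952) (inv (243 * q)))) (Nat.blt (lo3 (243 * q)) 243) true)
      true) = true := by decide +kernel
  obtain ⟨c, hc, rfl⟩ := h.exists_rp x
  have hz : nf y (c % 243) ∈ B y 5 :=
    (rp_nf (by omega)).mem_B_of_lt (Nat.mod_lt c (show 0 < 243 by decide))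
  have r : Rp y (243 * (c / 243)) (nf y (243 * (c / 243))) := rp_nf (by omega)
  have e : ∀ d < 59049, nf y d ∈ E3 y →
      in3 (mul (mul (243 * (c / 243)) d) (inv (243 * (c / 243)))) = true := fun d hd hs => by
    refine h.in3_of ((r.mul h.toRel (rp_nf hd)).mul h.toRel (r.inv h.toRel)) ?_
    obtain ⟨v, ev⟩ := h.exists_jv hs
    obtain ⟨t, ht⟩ := inv_mem (h.N3_le_nU (mem_sup_right hz))
    have := hx _ (jv_mem (L.u t v))
    rw [← ht, ev, nf_split c] at this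
    convert this using 1
    group
  have := allLt_iff.1 k (c / 243) (by omega)
  rw [bif'_eq, if_pos (e _ (by decide) (subset_closure (by simp))), bif'_eq,
    if_pos (e _ (by decide) (subset_closure (by simp))), Nat.blt_eq] at this
  have hb := (((h.rp _).inv h.toRel).mul h.toRel r).mem_B_of_lt (l := 5) this
  rw [nf_split c]
  refine mul_mem ?_ (mem_sup_right hz)
  exact (mul_mem_cancel_left (inv_mem (mem_sup_left (jp_mem _)))).1 (mem_sup_right hb)

theorem PC.autE3 (h : PC y) : autInducedBy ⊤ (E3 y) ≤ autInducedBy (E1 y) (E3 y) := fun α hα => by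
  obtain ⟨x, -, e⟩ := Fus2.mem_autInducedBy_iff.1 hα
  exact Fus2.mem_autInducedBy_iff.2
    ⟨x, N3_le_E1e (h.mem_N3 fun s hs => e s hs ▸ afn_mem α hs), e⟩

theorem PC.toE_mem_iff (h : PC y) {g : GV} : h.toE g ∈ autInducedBy ⊤ (E3 y) ↔ g ∈ L.U := by
  have k : ∀ x t, (∀ v, x * jv y v * x⁻¹ = jv y (L.u t v)) → h.toE (L.u t) ∈ autInducedBy ⊤ (E3 y) :=
    fun x t e => Fus2.mem_autInducedBy_iff.2 ⟨x, trivial, fun s hs => by
      obtain ⟨v, rfl⟩ := h.exists_jv hs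
      rw [h.afn_toE, e]⟩
  constructor
  · intro hg
    obtain ⟨x, -, e⟩ := Fus2.mem_autInducedBy_iff.1 hg
    obtain ⟨t, ht⟩ := h.N3_le_nU (h.mem_N3 fun s hs => e s hs ▸ afn_mem _ hs)
    exact ⟨t, LinearEquiv.ext fun v => h.jv_inj (by rw [← ht, ← e _ (jv_mem v), h.afn_toE])⟩
  · rintro ⟨t, rfl⟩
    have a := k _ _ h.conj7
    have b := k _ _ h.conj6
    let H : AddSubgroup T := ⟨⟨⟨{t | h.toE (L.u t) ∈ autInducedBy ⊤ (E3 y)}, fun ha hb => by
      simpa only [Set.mem_ofPred_eq, ← L.u_mul, map_mul] using mul_mem ha hb⟩, by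
      simpa only [Set.mem_ofPred_eq, L.u_zero, map_one] using one_mem _⟩, fun {t} ht => by
      have : L.u (-t) = (L.u t)⁻¹ :=
        eq_inv_of_mul_eq_one_left (by rw [L.u_mul, neg_add_cancel, L.u_zero])
      simpa only [Set.mem_ofPred_eq, this, map_inv] using inv_mem ht⟩
    have e : ∀ t : T, t = t.1.val • ((1, 0) : T) + t.2.val • ((0, 1) : T) := by decide +kernel
    have : t ∈ H := by
      rw [e t]
      exact add_mem (nsmul_mem (show ((1, 0) : T) ∈ H from a) _)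
        (nsmul_mem (show ((0, 1) : T) ∈ H from b) _)
    exact this

variable {F : FusionSystem (⊤ : Subgroup G)}

theorem PC.sed3 (h : PC y) (hF : F.IsSaturated 3) (hE : F.IsEssential 3 (E3 y)) :
    ∃ Mx, SEd 3 ((F.autGroup (E3 y)).comap h.toE) L.U ⊥ Mx := by
  haveI := h.finite
  haveI : Fact (Nat.Prime 3) := ⟨Nat.prime_three⟩
  obtain ⟨Mx, k⟩ := sed_of_ess h.pg_top hF hE
  refine ⟨Mx.comap h.toE, ?_, fun t ht => k.le (h.toE_mem_iff.2 ht), fun hle => k.nle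
    fun α hα => ?_, fun g hg hg' x hx hx' ⟨n, hn⟩ hc => ?_⟩
  · have := k.syl.map_equiv (MulEquiv.ofBijective h.toE h.toE_bij).symm
    convert this using 1 <;> ext g <;> rw [mem_map_equiv]
    exacts [h.toE_mem_iff.symm, Iff.rfl]
  · obtain ⟨g, rfl⟩ := h.toE_bij.2 α
    exact hle hα
  · obtain ⟨s, hs, e⟩ := Fus2.mem_Inn_iff.1 (k.se _ hg hg' _ hx hx'
      ⟨n, by rw [← map_pow, hn, map_one]⟩ (by simpa using hc))
    refine LinearEquiv.ext fun v => h.jv_inj ?_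
    rw [← h.afn_toE, e _ (jv_mem v), (h.comm_E3 hs (jv_mem v)).eq, mul_inv_cancel_right]
    rfl

theorem PC.e3a (h : PC y) (hF : F.IsSaturated 3) (hE : F.IsEssential 3 (E3 y))
    (K : Subgroup (MulAut (E3 y))) (h1 : autInducedBy ⊤ (E3 y) ≤ K)
    (h2 : ∀ γ ∈ F.autGroup (E3 y), ∀ β ∈ K, γ * β * γ⁻¹ ∈ K) :
    ∃ k ∈ K, ∀ w, afn k (jz y w) = jz y (L.fm (1, 1) w) := by
  obtain ⟨Mx, s⟩ := h.sed3 hF hE
  obtain ⟨γ, hγ, -, e⟩ := L.main s
  obtain ⟨k, hk, ek⟩ := e (K.comap h.toE) (fun g hg => h1 (h.toE_mem_iff.2 hg)) (by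
    simpa using h2 _ hγ _ (h1 (h.toE_mem_iff.2 (L.u_mem (1, 0)))))
  exact ⟨_, hk, fun w => by rw [← jv_io, h.afn_toE, ek, jv_io]⟩

theorem PC.e3b (h : PC y) (hF : F.IsSaturated 3) (hE : F.IsEssential 3 (E3 y)) {R : Subgroup G}
    (hR : F.StronglyClosed R) (h2 : B y 2 ≤ R) : E1 y ≤ R := by
  have r := h.toRel
  haveI := normal_of_sc hR
  haveI := h.nB 5
  obtain ⟨Mx, s⟩ := h.sed3 hF hE
  obtain ⟨γ, hγ, e, -⟩ := L.main s
  have hp : ∀ p, jp y p ∈ R ⊔ B y 5 := fun p => by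
    obtain ⟨w, rfl⟩ := e p
    have := afn_mem_of_sc le_top hγ hR (jv_mem (io w)) (jv_io (y := y) w ▸ h2 (jz_mem w))
    rw [h.afn_toE] at this
    have := mul_mem (mem_sup_left this : _ ∈ R ⊔ B y 5) (inv_mem (mem_sup_right
      (mul_mem (pow_mem ((rp_nf (c := 90) (by decide)).mem_B_of_lt (by decide)) (γ (io w)).2.1.val)
        (B_mono (by decide) (jz_mem (γ (io w)).2.2)))))
    rwa [jv, mul_inv_cancel_right] at this
  have hc : ∀ p, icj (y 0) (jp y p) ∈ R ⊔ B y 5 := fun p =>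
    mul_mem (inv_mem (hp p)) (Normal.conj_mem inferInstance _ (hp p) _)
  have h9 : E1 y ≤ R ⊔ B y 5 := h.succ_le 8 (h.succ_le 7 (h.succ_le 6 (h.succ_le 5 le_sup_right
    (hc (0, 1)) ((h.g 0).icj r (h.rp _))) (hc (1, 0)) ((h.g 0).icj r (h.rp _))) (hp (0, 1))
    (h.rp _)) (hp (1, 0)) (h.rp _)
  have hq : ∀ g ∈ E1 y, ∃ b ∈ B y 5, (g : G ⧸ R) = b := fun g hg => by
    obtain ⟨a, ha, b, hb, rfl⟩ := mem_sup_of_normal_left.1 (h9 hg)
    exact ⟨b, hb, by rw [QuotientGroup.mk_mul, (QuotientGroup.eq_one_iff a).2 ha, one_mul]⟩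
  have hi : ∀ g ∈ E1 y, ∀ x ∈ E1 y, icj g x ∈ R := fun g hg x hx => by
    obtain ⟨b, hb, eb⟩ := hq g hg
    obtain ⟨c, hc, ec⟩ := hq x hx
    rw [icj_mem_iff, eb, ec, commute_iff_eq, ← QuotientGroup.mk_mul, h.v5 hb hc,
      QuotientGroup.mk_mul]
  exact h9.trans (sup_le le_rfl (h.succ_le 4 (h.succ_le 3 (h.succ_le 2 h2
    (hi _ (m1 2) _ (m1 4)) ((h.g 2).icj r (h.g 4))) (hi _ (m1 2) _ (m1 3)) ((h.g 2).icj r (h.g 3)))
    (hi _ (m1 1) _ (m1 2)) ((h.g 1).icj r (h.g 2))))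

end Cfsg.Agent.ThS
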