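import Cfsg.Agent.Lib.U5.QF

/-!
Linear algebra for the automizer of the elementary abelian subgroup of order `3 ^ 5`.
-/

set_option autoImplicit false
set_option linter.style.haveILetI false

namespace Cfsg.Agent.ThS.L

open Cfsg.Agent.Fus Subgroup
open Cfsg.Agent.U5 (SEd)

abbrev K := ZMod 3
abbrev T := K × K
abbrev V := T × K × T
abbrev GV := V ≃ₗ[K] V
abbrev M2 := T × T

/-- Multiplication in the field with nine elements. -/
def fm (x p : T) : T := (x.1 * p.1 - x.2 * p.2, x.1 * p.2 + x.2 * p.1)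

/-- The linear map with columns `m.1`, `m.2`. -/
def ap (m : M2) (w : T) : T := (m.1.1 * w.1 + m.2.1 * w.2, m.1.2 * w.1 + m.2.2 * w.2)

def io (w : T) : V := (0, 0, w)

theorem fm_add : ∀ x p q : T, fm x (p + q) = fm x p + fm x q := by decide +kernel
theorem add_fm : ∀ x y p : T, fm (x + y) p = fm x p + fm y p := by decide +kernel
theorem fm_zero : ∀ x : T, fm x 0 = 0 := by decide +kernel
theorem zero_fm : ∀ x : T, fm 0 x = 0 := by decide +kernel
theorem one_fm : ∀ x : T, fm (1, 0) x = x := by decide +kernel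
theorem fm_smul : ∀ (x : T) (k : K) (p : T), fm x (k • p) = k • fm x p := by decide +kernel
theorem io_add (w w' : T) : io (w + w') = io w + io w' := by simp [io]
theorem io_smul (k : K) (w : T) : io (k • w) = k • io w := by simp [io]
theorem io_zero : io 0 = 0 := rfl
theorem io_fst (w : T) : (io w).1 = 0 := rfl
theorem io_inj {w w' : T} (h : io w = io w') : w = w' := congrArg (fun v : V => v.2.2) h
theorem T_dec : ∀ w : T, w = w.1 • ((1, 0) : T) + w.2 • ((0, 1) : T) := by decide +kernel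
theorem ap_eq : ∀ (a b w : T), ap (a, b) w = w.1 • a + w.2 • b := by decide +kernel
theorem three (v : V) : v + v + v = 0 := by
  have : ∀ k : K, k + k + k = 0 := by decide
  exact Prod.ext (Prod.ext (this _) (this _)) (Prod.ext (this _) (Prod.ext (this _) (this _)))

instance : Finite GV := Finite.of_injective (fun g : GV => (g : V → V)) DFunLike.coe_injective

theorem mul_ap (g h : GV) (v : V) : (g * h) v = g (h v) := rfl
theorem one_ap (v : V) : (1 : GV) v = v := rfl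
theorem inv_ap (g : GV) (v : V) : g⁻¹ (g v) = v := by rw [← mul_ap, inv_mul_cancel, one_ap]
theorem ap_inv (g : GV) (v : V) : g (g⁻¹ v) = v := by rw [← mul_ap, mul_inv_cancel, one_ap]

/-- The root elements. -/
def u (x : T) : GV where
  toFun v := v + io (fm x v.1)
  invFun v := v + io (fm (-x) v.1)
  map_add' v w := by rw [Prod.fst_add, fm_add, io_add]; abel
  map_smul' k v := by rw [Prod.smul_fst, fm_smul, io_smul, RingHom.id_apply, smul_add]
  left_inv v := by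
    simp only [Prod.fst_add, io_fst, add_zero]
    rw [add_assoc, ← io_add, ← add_fm, add_neg_cancel, zero_fm, io_zero, add_zero]
  right_inv v := by
    simp only [Prod.fst_add, io_fst, add_zero]
    rw [add_assoc, ← io_add, ← add_fm, neg_add_cancel, zero_fm, io_zero, add_zero]

theorem u_ap (x : T) (v : V) : u x v = v + io (fm x v.1) := rfl

theorem u_mul (x y : T) : u x * u y = u (x + y) := LinearEquiv.ext fun v => by
  simp only [mul_ap, u_ap, Prod.fst_add, io_fst, add_zero, add_fm, io_add]; abel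

theorem u_zero : u 0 = 1 := LinearEquiv.ext fun v => by
  rw [u_ap, zero_fm, io_zero, add_zero, one_ap]

/-- The root subgroup. -/
def U : Subgroup GV where
  carrier := {g | ∃ x, g = u x}
  one_mem' := ⟨0, u_zero.symm⟩
  mul_mem' := by rintro _ _ ⟨x, rfl⟩ ⟨y, rfl⟩; exact ⟨_, u_mul x y⟩
  inv_mem' := by
    rintro _ ⟨x, rfl⟩
    exact ⟨-x, inv_eq_of_mul_eq_one_right (by rw [u_mul, add_neg_cancel, u_zero])⟩

theorem u_mem (x : T) : u x ∈ U := ⟨x, rfl⟩

theorem u_ne {x : T} (hx : x ≠ 0) : u x ∉ (⊥ : Subgroup GV) := fun e => by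
  have h := LinearEquiv.congr_fun (mem_bot.1 e) ((1, 0), 0, 0)
  rw [u_ap, one_ap, add_eq_left] at h
  have : ∀ x : T, fm x (1, 0) = 0 → x = 0 := by decide +kernel
  exact hx (this x (io_inj h))

/-- The ascending series of a pair of automorphisms. -/
def C (a b : GV) : ℕ → AddSubgroup V
  | 0 => ⊥
  | j + 1 =>
    { carrier := {v | a v - v ∈ C a b j ∧ b v - v ∈ C a b j}
      zero_mem' := by simp
      add_mem' := fun {v w} hv hw => ⟨by
        simpa [map_add, add_sub_add_comm] using add_mem hv.1 hw.1, by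
        simpa [map_add, add_sub_add_comm] using add_mem hv.2 hw.2⟩
      neg_mem' := fun {v} hv => ⟨by
        have := neg_mem hv.1
        rwa [map_neg, neg_sub_neg, ← neg_sub], by
        have := neg_mem hv.2
        rwa [map_neg, neg_sub_neg, ← neg_sub]⟩ }

theorem C_mono (a b : GV) : ∀ j, C a b j ≤ C a b (j + 1)
  | 0 => bot_le
  | j + 1 => fun _ hv => ⟨C_mono a b j hv.1, C_mono a b j hv.2⟩

theorem pgroup_pair {a b : GV} {n : ℕ} (h : ∀ v, v ∈ C a b n) :
    IsPGroup 3 (closure {a, b} : Subgroup GV) := by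
  let P : GV → Prop := fun g => ∀ j, ∀ v ∈ C a b (j + 1), g v - v ∈ C a b j
  have hm : ∀ g k, P g → P k → P (g * k) := fun g k hg hk j v hv => by
    have h₁ : k v ∈ C a b (j + 1) := by simpa using add_mem (C_mono a b j (hk j v hv)) hv
    simpa [mul_ap] using add_mem (hg j _ h₁) (hk j v hv)
  have h1 : P 1 := fun j v _ => by simp
  have hp : ∀ g, P g → ∀ k : ℕ, P (g ^ k) := fun g hg k => by
    induction k with
    | zero => simpa using h1
    | succ k ih => rw [pow_succ]; exact hm _ _ ih hg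
  have hf : ∀ g, P g → ∀ j, ∀ v ∈ C a b j, (g ^ 3 ^ j) v = v := fun g hg j => by
    induction j with
    | zero => intro v hv; rw [AddSubgroup.mem_bot.1 hv, map_zero]
    | succ j ih =>
      intro v hv
      obtain ⟨d, hd, e⟩ : ∃ d, (g ^ 3 ^ j) d = d ∧ (g ^ 3 ^ j) v = v + d :=
        ⟨_, ih _ (hp g hg _ j v hv), by abel⟩
      rw [pow_succ, pow_mul, pow_three', mul_ap, mul_ap, e, map_add, e, hd, map_add, map_add, e, hd,
        add_assoc, add_assoc, ← add_assoc d, three, add_zero]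
  have ho : ∀ g, P g → g ^ 3 ^ n = 1 := fun g hg => LinearEquiv.ext fun v => hf g hg n v (h v)
  have key : ∀ g ∈ (closure {a, b} : Subgroup GV), P g := fun g hg => by
    induction hg using closure_induction with
    | mem g hg =>
      rcases hg with rfl | rfl
      exacts [fun j v hv => hv.1, fun j v hv => hv.2]
    | one => exact h1
    | mul g k _ _ hg hk => exact hm g k hg hk
    | inv g _ hg =>
      have : g⁻¹ = g ^ (3 ^ n - 1) := inv_eq_of_mul_eq_one_left (by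
        rw [← pow_succ, Nat.sub_add_cancel (Nat.one_le_pow _ _ (by norm_num)), ho g hg])
      exact this ▸ hp g hg _
  exact fun g => ⟨n, Subtype.ext (ho g (key g g.2))⟩

/-- The matrix of `u x * b` on the span of the two root spaces. -/
def Gm (n : M2) (z : T × T) : T × T := (z.1 + ap n (z.2 + z.1), z.2 + z.1)

def Sm (n : M2) (z : T × T) : ℕ → T × T
  | 0 => 0
  | k + 1 => z + Gm n (Sm n z k)

theorem tri : ∀ m : M2, (∃ x ≠ 0, ∀ w, fm x (ap m (fm x (ap m w))) = 0) ∨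
    (∃ x, (∀ w, fm x (ap m (fm x (ap m w))) = w) ∧ (fm x m.1).1 + (fm x m.2).2 = 0) ∨
    ∃ μ ≠ 0, ∀ w, ap m w = fm μ w := by decide +kernel

theorem fm_ap : ∀ (x : T) (m : M2) (w : T), fm x (ap m w) = ap (fm x m.1, fm x m.2) w := by
  decide +kernel

theorem rk1 : ∀ n : M2, (∀ w, ap n (ap n w) = w) → n.1.1 + n.2.2 = 0 →
    (∃ z₀, ∀ z, ∃ k : K, Sm n z 4 = k • z₀) ∧ (∀ z, Sm n z 12 = 0) ∧
      ∃ z, Sm n (Gm n z - z) 4 ≠ 0 := by decide +kernel

theorem rk2 : ∀ x ≠ 0, ∀ w₁ : T, ∃ p, ∀ k : K, fm x p ≠ k • w₁ := by decide +kernel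

theorem fm_div : ∀ μ ≠ 0, ∀ t : T, ∃ x, ∀ w, fm x (fm μ w) = fm t w := by decide +kernel

section Pair

variable (γ : GV)

/-- The second root space. -/
def q (w : T) : T := (γ⁻¹ (io w)).1

def mm : M2 := ((γ (io (q γ (1, 0)))).1, (γ (io (q γ (0, 1)))).1)

def Φ (z : T × T) : V := io z.1 + γ (io (q γ z.2))

def b : GV := γ * u (1, 0) * γ⁻¹

theorem q_add (w w' : T) : q γ (w + w') = q γ w + q γ w' := by
  rw [q, io_add, map_add]; rfl

theorem q_smul (k : K) (w : T) : q γ (k • w) = k • q γ w := by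
  rw [q, io_smul, map_smul]; rfl

theorem pq (w : T) : (γ (io (q γ w))).1 = ap (mm γ) w := by
  rw [mm, ap_eq, T_dec w, q_add, q_smul, q_smul, io_add, io_smul, io_smul, map_add, map_smul,
    map_smul, ← T_dec w]
  rfl

theorem Φ_add (z z' : T × T) : Φ γ (z + z') = Φ γ z + Φ γ z' := by
  simp only [Φ, Prod.fst_add, Prod.snd_add, q_add, io_add, map_add]; abel

theorem Φ_smul (k : K) (z : T × T) : Φ γ (k • z) = k • Φ γ z := by
  simp only [Φ, Prod.smul_fst, Prod.smul_snd, q_smul, io_smul, map_smul, smul_add]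

theorem Φ_zero : Φ γ 0 = 0 := by simpa using Φ_smul γ 0 0

theorem Φ_fst (z : T × T) : (Φ γ z).1 = ap (mm γ) z.2 := by
  rw [Φ, Prod.fst_add, io_fst, zero_add, pq]

theorem io_eq (w : T) : io w = Φ γ (w, 0) := by
  have : q γ 0 = 0 := by simpa using q_smul γ 0 0
  simp [Φ, this, io_zero]

theorem b_ap (v : V) : b γ v = v + γ (io (γ⁻¹ v).1) := by
  rw [b, mul_ap, mul_ap, u_ap, map_add, ap_inv, one_fm]

theorem u_Φ (x w w' : T) : u x (Φ γ (w, w')) = Φ γ (w + fm x (ap (mm γ) w'), w') := by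
  rw [u_ap, Φ_fst]
  simp only [Φ, io_add]; abel

theorem b_γ (w : T) : b γ (γ (io w)) = γ (io w) := by
  rw [b_ap, inv_ap, io_fst, io_zero, map_zero, add_zero]

theorem b_Φ (w w' : T) : b γ (Φ γ (w, w')) = Φ γ (w, w' + w) := by
  simp only [Φ, map_add, b_γ, q_add, io_add]
  rw [b_ap, ← q]; abel

theorem nil {x : T} (h : ∀ w, fm x (ap (mm γ) (fm x (ap (mm γ) w))) = 0) (v : V) :
    v ∈ C (u x) (b γ) 6 := by
  have e₁ : ∀ w, u x (Φ γ (0, w)) - Φ γ (0, w) = io (fm x (ap (mm γ) w)) := fun w => by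
    rw [u_ap, Φ_fst, add_sub_cancel_left]
  have e₂ : ∀ w, b γ (Φ γ (0, w)) - Φ γ (0, w) = 0 := fun w => by rw [b_Φ, add_zero, sub_self]
  have e₃ : ∀ w, u x (io w) - io w = 0 := fun w => by
    rw [u_ap, io_fst, fm_zero, io_zero, add_zero, sub_self]
  have e₄ : ∀ w, b γ (io w) - io w = Φ γ (0, w) := fun w => by
    rw [b_ap, add_sub_cancel_left, Φ, io_zero, zero_add, q]
  have h₁ : ∀ w, Φ γ (0, fm x (ap (mm γ) w)) ∈ C (u x) (b γ) 1 := fun w =>
    ⟨by rw [e₁, h, io_zero]; exact zero_mem _, by rw [e₂]; exact zero_mem _⟩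
  have h₂ : ∀ w, io (fm x (ap (mm γ) w)) ∈ C (u x) (b γ) 2 := fun w =>
    ⟨by rw [e₃]; exact zero_mem _, by rw [e₄]; exact h₁ w⟩
  have h₃ : ∀ w, Φ γ (0, w) ∈ C (u x) (b γ) 3 := fun w =>
    ⟨by rw [e₁]; exact h₂ w, by rw [e₂]; exact zero_mem _⟩
  have h₄ : ∀ w, io w ∈ C (u x) (b γ) 4 := fun w =>
    ⟨by rw [e₃]; exact zero_mem _, by rw [e₄]; exact h₃ w⟩
  have h₅ : ∀ w, γ (io w) ∈ C (u x) (b γ) 5 := fun w =>
    ⟨by rw [u_ap, add_sub_cancel_left]; exact h₄ _, by rw [b_γ, sub_self]; exact zero_mem _⟩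
  exact ⟨by rw [u_ap, add_sub_cancel_left]; exact C_mono _ _ _ (h₄ _),
    by rw [b_ap, add_sub_cancel_left]; exact h₅ _⟩

theorem tv {x : T} (h : ∀ w, fm x (ap (mm γ) (fm x (ap (mm γ) w))) = w)
    (ht : (fm x (mm γ).1).1 + (fm x (mm γ).2).2 = 0) :
    ((u x * b γ) ^ 4) ^ 3 ^ 1 = 1 ∧ (u x * b γ) ^ 4 ≠ 1 ∧
      ∃ v₀, ∀ v, ∃ k : K, ((u x * b γ) ^ 4) v = v + k • v₀ := by
  set n : M2 := (fm x (mm γ).1, fm x (mm γ).2) with hn
  have hN : ∀ w, fm x (ap (mm γ) w) = ap n w := fm_ap x _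
  simp only [hN] at h
  obtain ⟨⟨z₀, r₁⟩, r₂, z₁, r₃⟩ := rk1 n h ht
  have hG : ∀ z, (u x * b γ) (Φ γ z) = Φ γ (Gm n z) := fun z => by
    rw [mul_ap, b_Φ, u_Φ, hN]; rfl
  have hq : Function.Surjective (q γ) := Finite.injective_iff_surjective.1 fun w w' e => by
    rw [← h w, ← h w', ← hN w, ← hN w', ← pq, ← pq, e]
  have hS : ∀ v z, (u x * b γ) v = v + Φ γ z → ∀ k, ((u x * b γ) ^ k) v = v + Φ γ (Sm n z k) := by
    intro v z e k
    induction k with
    | zero => rw [pow_zero, one_ap, Sm, Φ_zero, add_zero]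
    | succ k ih => rw [pow_succ', mul_ap, ih, map_add, e, hG, Sm, Φ_add, add_assoc]
  have hv : ∀ v, ∃ z, (u x * b γ) v = v + Φ γ z := fun v => by
    obtain ⟨w, e⟩ := hq (γ⁻¹ v).1
    refine ⟨(fm x v.1, 0) + (0 + fm x (ap (mm γ) w), w), ?_⟩
    rw [mul_ap, b_ap, ← e, map_add, u_ap, Φ_add, ← u_Φ, ← io_eq, add_assoc, Φ, io_zero, zero_add]
  refine ⟨LinearEquiv.ext fun v => ?_, fun e => r₃ ?_, Φ γ z₀, fun v => ?_⟩
  · obtain ⟨z, e⟩ := hv v
    rw [← pow_mul, show 4 * 3 ^ 1 = 12 from rfl, hS v z e, r₂, Φ_zero, add_zero, one_ap]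
  · have := hS (Φ γ z₁) (Gm n z₁ - z₁) (by rw [hG, ← Φ_add, add_sub_cancel]) 4
    rw [e, one_ap, left_eq_add] at this
    generalize Sm n (Gm n z₁ - z₁) 4 = z at this
    have h₂ : z.2 = 0 := by
      rw [← h z.2, ← hN z.2, ← Φ_fst, this, Prod.fst_zero, fm_zero, ← hN]
      simp [ap, fm]
    obtain ⟨z1, z2⟩ := z
    obtain rfl : z2 = 0 := h₂
    rw [← io_eq] at this
    rw [io_inj (w' := 0) this]; rfl
  · obtain ⟨z, e⟩ := hv v
    obtain ⟨k, ek⟩ := r₁ z
    exact ⟨k, by rw [hS v z e, ek, Φ_smul]⟩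

theorem tor {μ : T} (hμ : μ ≠ 0) (h : ∀ w, ap (mm γ) w = fm μ w) {H : Subgroup GV} (hU : U ≤ H)
    (hb : b γ ∈ H) : ∃ k ∈ H, ∀ w, k (io w) = io (fm (1, 1) w) := by
  choose x hx using fm_div μ hμ
  have hu : ∀ t w w', u (x t) (Φ γ (w, w')) = Φ γ (w + fm t w', w') := fun t w w' => by
    rw [u_Φ, h, hx]
  let ω : GV := u (x (-1, 0)) * b γ * u (x (-1, 0))
  have hω : ∀ w w', ω (Φ γ (w, w')) = Φ γ (-w', w) := fun w w' => by
    have : ∀ w w' : T, w' + (w + fm (-1, 0) w') = w ∧ w + fm (-1, 0) w' + fm (-1, 0) w = -w' := by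
      decide +kernel
    rw [mul_ap, mul_ap, hu, b_Φ, hu, (this w w').1, (this w w').2]
  have hω' : ∀ w w', ω⁻¹ (Φ γ (w, w')) = Φ γ (w', -w) := fun w w' => by
    have := hω w' (-w)
    rw [neg_neg] at this
    rw [← this, inv_ap]
  have mu := fun t => hU (u_mem (x t))
  have mω : ω ∈ H := mul_mem (mul_mem (mu _) hb) (mu _)
  refine ⟨u (x (1, 1)) * (ω * u (x (-1, 1)) * ω⁻¹) * u (x (1, 1)) * ω,
    mul_mem (mul_mem (mul_mem (mu _) (mul_mem (mul_mem mω (mu _)) (inv_mem mω))) (mu _)) mω,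
    fun w => ?_⟩
  have : ∀ w : T, w + fm (-1, 1) (-(-0 + fm (1, 1) w)) = 0 ∧
      - -(-0 + fm (1, 1) w) + fm (1, 1) 0 = fm (1, 1) w := by decide +kernel
  rw [io_eq γ w, io_eq γ (fm _ w)]
  simp only [mul_ap]
  rw [hω, hu, hω', hu, hω, hu, (this w).1, (this w).2]

end Pair

/-- The automizer contains the special linear group over nine elements. -/
theorem main {Γ Mx : Subgroup GV} (h : SEd 3 Γ U ⊥ Mx) :
    ∃ γ ∈ Γ, (∀ p, ∃ w, (γ (io w)).1 = p) ∧ ∀ H : Subgroup GV, U ≤ H → γ * u (1, 0) * γ⁻¹ ∈ H →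
      ∃ k ∈ H, ∀ w, k (io w) = io (fm (1, 1) w) := by
  haveI : Fact (Nat.Prime 3) := ⟨Nat.prime_three⟩
  obtain ⟨γ, hγ, hγM⟩ := h.exists_notMem
  have hu : ∀ x, u x ∈ Γ := fun x => h.syl.le (u_mem x)
  have hb : b γ ∈ Γ := mul_mem (mul_mem hγ (hu _)) (inv_mem hγ)
  rcases tri (mm γ) with ⟨x, hx, e⟩ | ⟨x, e, ht⟩ | ⟨μ, hμ, e⟩
  · refine absurd (h.le_of_isPGroup ((closure_le _).2 ?_) (pgroup_pair (nil γ e))
      (subset_closure (Or.inl rfl)) (u_mem x) (u_ne hx) (subset_closure (Or.inr rfl)))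
      (h.conj_notMem hγ hγM (u_mem _) (u_ne (by decide)))
    rintro _ (rfl | rfl)
    exacts [hu x, hb]
  · exfalso
    obtain ⟨h₁, h₂, v₀, h₃⟩ := tv γ e ht
    obtain ⟨g, -, y, ey⟩ := h.syl.exists_conj_mem_of_pow (pow_mem (mul_mem (hu x) hb) 4) h₁
    have hy : y ≠ 0 := fun e0 => h₂ (by
      rw [e0, u_zero, mul_inv_eq_one, mul_eq_left] at ey
      exact ey)
    obtain ⟨p, hp⟩ := rk2 y hy (g v₀).2.2
    obtain ⟨k, ek⟩ := h₃ (g⁻¹ (p, 0, 0))
    have := LinearEquiv.congr_fun ey (p, 0, 0)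
    rw [mul_ap, mul_ap, ek, map_add, ap_inv, map_smul, u_ap, add_right_inj] at this
    exact hp k (congrArg (fun v : V => v.2.2) this).symm
  · refine ⟨γ, hγ, fun p => ?_, fun H hU hb => tor γ hμ e hU hb⟩
    obtain ⟨x, hx⟩ := fm_div μ hμ (1, 0)
    have : ∀ x μ p : T, fm μ (fm x p) = fm x (fm μ p) := by decide +kernel
    exact ⟨q γ (fm x p), by rw [pq, e, this, hx, one_fm]⟩

end Cfsg.Agent.ThS.L
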