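import Cfsg.Agent.Lib.ThS.Node

/-!
One subgroup of order `3 ^ 8` that needs a longer characteristic chain.
-/

set_option autoImplicit false
set_option linter.style.haveILetI false
set_option Elab.async false

namespace Cfsg.Agent.ThS

open Cfsg.Agent.Fus Cfsg.Agent.Ess Subgroup
open Cfsg.Agent.Fus2 (afn homOn_afn afn_mem)
open scoped commutatorElement

theorem ck34a : allLt 243 (fun q => allLt 243 fun r =>
    bif' (Nat.beq (q / 27 % 3) 0 && Nat.beq (q / 3 % 3) 0)
      (bif' (Nat.beq (r / 27 % 3) 0 && Nat.beq (r / 3 % 3) 0)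
        (Nat.beq (lT q r / 6561 % 3) 0 && Nat.beq (lT q r / 729 % 3) 0) true) true) = true := by
  decide +kernel

noncomputable def frc (a : ℕ) (f : ℕ → Bool) : Bool :=
  @Nat.rec (fun _ => Bool) true (fun x _ => f x) (Nat.succ a)

theorem frc_eq (a : ℕ) (f : ℕ → Bool) : frc a f = f a := rfl

noncomputable def gd (z w : ℕ) : Bool :=
  Nat.beq z 0 || Nat.beq w 0 || Nat.beq w z || Nat.beq w (inv z)

theorem ck34b : allC (fun c => bif' (Nat.beq (c / 6561 % 3) 0 && Nat.beq (c / 729 % 3) 0)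
    (Nat.blt (dl 729 (inv 729) c) 729 &&
      (frc (cm c 19683) fun a => frc (cm c 243) fun b => frc (cm c 81) fun d =>
        frc (cm c 2187) fun e => bif' (gd a b && gd a d && gd a e && gd b d && gd b e && gd d e)
          (Nat.blt c 27) true) &&
      bif' (Nat.beq (mul c 3) (mul 3 c)) (Nat.blt (dl 729 (inv 729) c) 81) true) true) = true := by
  decide +kernel

theorem ck34c : allC (fun c => bif' (Nat.beq (c / 6561 % 3) 0) (Nat.blt (cm 3 c) 3) true) = true := by
  decide +kernel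

variable {G : Type*} [Group G] {y : ℕ → G}

theorem not_ess34 (h : PC y) {F : FusionSystem (⊤ : Subgroup G)} (hF : F.IsSaturated 3) :
    ¬ F.IsEssential 3 (Pn y 364808270943407672) := fun hE => by
  haveI := h.finite
  have r := h.toRel
  set P := Pn y 364808270943407672 with hP
  have p0 : nf y 19683 ∈ P := sl_mem (N := 364808270943407672) (j := 0) (by decide)
  have p2 : nf y 2187 ∈ P := sl_mem (N := 364808270943407672) (j := 1) (by decide)
  have p4 : nf y 243 ∈ P := sl_mem (N := 364808270943407672) (j := 2) (by decide)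
  have p5 : nf y 81 ∈ P := sl_mem (N := 364808270943407672) (j := 3) (by decide)
  have dg : ∀ {c : ℕ} {x : G}, Rp y c x → x ∈ P → c / 6561 % 3 = 0 ∧ c / 729 % 3 = 0 :=
    fun hc hx => h.closure_ind (p := fun c => c / 6561 % 3 = 0 ∧ c / 729 % 3 = 0) (by decide) (by
      rintro _ ⟨j, hj, rfl⟩
      have : ∀ j < 5, sl 364808270943407672 j < 59049 ∧ sl 364808270943407672 j / 6561 % 3 = 0 ∧
        sl 364808270943407672 j / 729 % 3 = 0 := by decide +kernel
      exact ⟨_, rp_nf (this j hj).1, (this j hj).2⟩) (fun a ha b hb pa pb => by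
        have hd := r.mul_div ha hb
        have := allLt_iff.1 (allLt_iff.1 ck34a (a / 243) (by omega)) (b / 243) (by omega)
        simp only [bif'_eq, Nat.beq_eq, Bool.and_eq_true] at this
        rw [if_pos (by omega), if_pos (by omega)] at this
        simp only [Nat.beq_eq, Bool.and_eq_true] at this
        omega) hc hx
  have key : ∀ {c : ℕ} {x : G}, Rp y c x → x ∈ P → dl 729 (inv 729) c < 729 ∧
      ((gd (cm c 19683) (cm c 243) && gd (cm c 19683) (cm c 81) && gd (cm c 19683) (cm c 2187) &&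
        gd (cm c 243) (cm c 81) && gd (cm c 243) (cm c 2187) && gd (cm c 81) (cm c 2187)) = true →
        c < 27) ∧ (mul c 3 = mul 3 c → dl 729 (inv 729) c < 81) := fun hc hx => by
    have := allC_iff.1 ck34b _ hc.1
    simp only [bif'_eq, Nat.beq_eq, Bool.and_eq_true, frc_eq] at this
    rw [if_pos (dg hc hx)] at this
    simp only [Bool.and_eq_true, Nat.blt_eq] at this
    refine ⟨this.1.1, fun e => ?_, fun e => ?_⟩
    · simp only [Bool.and_eq_true] at e
      simpa [e] using this.1.2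
    · simpa [e] using this.2
  have g : ∀ {i : ℕ}, i < 10 → Rp y (3 ^ (9 - i)) (y i) := Rp.gen
  have n : ∀ {c : ℕ}, c < 59049 → Rp y c (nf y c) := rp_nf
  have f9 : y 9 ∈ mho 3 P := by
    have := pow_mem (pow_mem_mho (n := 3) p4) 2
    rwa [sq, (((n (by decide)).cb r).mul r ((n (c := 243) (by decide)).cb r)).eq
      (show Rp y (mul (cb 243) (cb 243)) (y 9) from
        (by decide +kernel : mul (cb 243) (cb 243) = 3 ^ (9 - 9)) ▸ g (by decide))] at this
  have hphi : B y 4 ≤ phi 3 P := by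
    have a9 : nf y 1 ∈ phi 3 P := (g (i := 9) (by decide)).2 ▸ mem_sup_left f9
    have c : ∀ {a b k : ℕ}, a < 59049 → b < 59049 → nf y a ∈ P → nf y b ∈ P → cm a b = k →
        nf y k ∈ phi 3 P := fun ha hb pa pb e =>
      (e ▸ (n ha).cm r (n hb)).2 ▸ comm_mem_phi pa pb
    have m : ∀ {a b k : ℕ}, a < 59049 → b < 59049 → nf y a ∈ phi 3 P → nf y b ∈ phi 3 P →
        mul a b = k → nf y k ∈ phi 3 P := fun ha hb pa pb e =>
      (e ▸ (n ha).mul r (n hb)).2 ▸ mul_mem pa pb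
    have a7 : nf y 9 ∈ phi 3 P := c (by decide) (by decide) p2 p4 (by decide +kernel)
    have a8 : nf y 3 ∈ phi 3 P := c (by decide) (by decide) p5 p4 (by decide +kernel)
    have a6 : nf y 27 ∈ phi 3 P := m (a := 36) (b := 18) (by decide) (by decide)
      (c (by decide) (by decide) p5 p0 (by decide +kernel))
      (m (by decide) (by decide) a7 a7 (by decide +kernel)) (by decide +kernel)
    refine B_le_iff.2 fun i hi hi' => ?_
    have : 6 ≤ i := by omega
    interval_cases i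
    exacts [(g (i := 6) (by decide)).2 ▸ a6, (g (i := 7) (by decide)).2 ▸ a7,
      (g (i := 8) (by decide)).2 ▸ a8, (g (i := 9) (by decide)).2 ▸ a9]
  have h6 : B y 6 ≤ P := B_le_iff.2 fun i hi hi' => by
    rcases (show i = 4 ∨ i = 5 ∨ 10 ≤ i + 4 by omega) with rfl | rfl | e
    exacts [(g hi).2 ▸ p4, (g hi).2 ▸ p5, phi_le (hphi (gen_mem_B e hi))]
  let Y : Set G := {x | x ∈ P ∧ ∀ z ∈ P, ∀ w ∈ P,
    ⁅x, z⁆ = 1 ∨ ⁅x, w⁆ = 1 ∨ ⁅x, w⁆ = ⁅x, z⁆ ∨ ⁅x, w⁆ = ⁅x, z⁆⁻¹}
  have gd_iff : ∀ {a b : ℕ} {u v : G}, Rp y a u → Rp y b v →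
      (gd a b = true ↔ u = 1 ∨ v = 1 ∨ v = u ∨ v = u⁻¹) := fun ha hb => by
    simp only [gd, Bool.or_eq_true, Nat.beq_eq, or_assoc]
    rw [ha.eq_iff r Rp.one, hb.eq_iff r Rp.one, hb.eq_iff r ha, hb.eq_iff r (ha.inv r)]
  have hY : ∀ x ∈ Y, x ∈ B y 3 := fun x hx => by
    obtain ⟨c, hc⟩ := h.exists_rp x
    have t : ∀ {k l : ℕ}, k < 59049 → l < 59049 → nf y k ∈ P → nf y l ∈ P →
        gd (cm c k) (cm c l) = true := fun hk hl pk pl =>
      (gd_iff (hc.cm r (n hk)) (hc.cm r (n hl))).2 (hx.2 _ pk _ pl)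
    refine hc.mem_B_of_lt ((key hc hx.1).2.1 ?_)
    rw [t (by decide) (by decide) p0 p4, t (by decide) (by decide) p0 p5,
      t (by decide) (by decide) p0 p2, t (by decide) (by decide) p4 p5,
      t (by decide) (by decide) p4 p2, t (by decide) (by decide) p5 p2]
    rfl
  have y8 : y 8 ∈ Y := ⟨h6 (gen_mem_B (by decide) (by decide)), fun z hz w hw => by
    have t : ∀ z ∈ P, ∃ c < 3, Rp y c ⁅y 8, z⁆ := fun z hz => by
      obtain ⟨c, hc⟩ := h.exists_rp z
      have := allC_iff.1 ck34c _ hc.1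
      simp only [bif'_eq, Nat.beq_eq, if_pos (dg hc hz).1, Nat.blt_eq] at this
      exact ⟨_, this, (g (i := 8) (by decide)).cm r hc⟩
    obtain ⟨a, ha, ra⟩ := t z hz
    obtain ⟨b, hb, rb⟩ := t w hw
    have : ∀ a < 3, ∀ b < 3, gd a b = true := by decide +kernel
    exact (gd_iff ra rb).1 (this a ha b hb)⟩
  have c63 : B y 6 ≤ centralizer (B y 3 : Set G) := B_le_iff.2 fun i hi hi' => by
    rw [← Subgroup.zpowers_le, le_centralizer_iff]
    refine B_le_iff.2 fun j hj hj' => ?_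
    rw [zpowers_eq_closure, centralizer_closure, mem_centralizer_singleton_iff]
    have : ∀ i < 10, 10 ≤ i + 6 → ∀ j < 10, 10 ≤ j + 3 →
      mul (3 ^ (9 - j)) (3 ^ (9 - i)) = mul (3 ^ (9 - i)) (3 ^ (9 - j)) := by decide +kernel
    exact ((g hj).mul r (g hi)).eq (this i hi hi' j hj hj' ▸ (g hi).mul r (g hj))
  have d6 : ∀ x ∈ P, x⁻¹ * (nf y 729 * x * (nf y 729)⁻¹) ∈ B y 6 := fun x hx => by
    obtain ⟨c, hc⟩ := h.exists_rp x
    exact ((n (by decide)).dl r hc).mem_B_of_lt (key hc hx).1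
  have hR : B y 6 ≤ P ⊓ centralizer Y := le_inf h6 fun x hx z hz => c63 hx z (hY z hz)
  have iY : ∀ α : MulAut P, ∀ x ∈ Y, afn α x ∈ Y := fun α x hx =>
    ⟨afn_mem α hx.1, fun z hz w hw => by
    have m : ∀ z ∈ P, ⁅x, afn α⁻¹ z⁆ ∈ P ∧ afn α ⁅x, afn α⁻¹ z⁆ = ⁅afn α x, z⁆ := fun z hz => by
      have a := afn_mem α⁻¹ hz
      refine ⟨phi_le (comm_mem_phi (p := 3) hx.1 a), ?_⟩
      rw [commutatorElement_def, (homOn_afn α).map_mul (mul_mem (mul_mem hx.1 a) (inv_mem hx.1))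
        (inv_mem a), (homOn_afn α).map_mul (mul_mem hx.1 a) (inv_mem hx.1),
        (homOn_afn α).map_mul hx.1 a, (homOn_afn α).map_inv hx.1, (homOn_afn α).map_inv a,
        Fus2.afn_afn_inv, commutatorElement_def]
    rw [← (m z hz).2, ← (m w hw).2, ← (homOn_afn α).map_inv (m z hz).1]
    rcases hx.2 _ (afn_mem α⁻¹ hz) _ (afn_mem α⁻¹ hw) with e | e | e | e
    · exact Or.inl (by rw [e, (homOn_afn α).map_one])
    · exact Or.inr (Or.inl (by rw [e, (homOn_afn α).map_one]))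
    · exact Or.inr (Or.inr (Or.inl (by rw [e])))
    · exact Or.inr (Or.inr (Or.inr (by rw [e])))⟩
  have hN : nf y 729 ∈ normalizer (P : Set G) :=
    mem_normalizer_of_conj_mem fun x hx => by simpa using P.mul_mem hx (h6 (d6 x hx))
  refine absurd (dg (n (by decide)) (mem_of_chain (R := (P ⊓ centralizer Y) ⊔ phi 3 P) h.pg_top hF
    hE (fun α x hx => ?_) (mem_top (nf y 729)) hN (fun x hx => mem_sup_left (hR (d6 x hx)))
    le_sup_right fun x hx => ((show _ ≤ dS P (phi 3 P) _ _ from sup_le ?_ (phi_le_dS hN)) hx).2)).2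
    (by decide)
  · refine (inv_subgroupOf_iff (A := ⊤)).1 ?_ α (mem_top α) x (sup_le inf_le_left phi_le hx) hx
    rw [subgroupOf_sup inf_le_left phi_le, phi_subgroupOf le_rfl, subgroupOf_self]
    refine Inv.sup (inv_subgroupOf_iff.2 fun α _ x hx hx' => ⟨afn_mem α hx, fun z hz => ?_⟩)
      (inv_top ⊤).phi
    have a := iY α⁻¹ z hz
    have := congrArg (afn α) (hx'.2 _ a)
    rwa [(homOn_afn α).map_mul a.1 hx, (homOn_afn α).map_mul hx a.1, Fus2.afn_afn_inv] at this
  · intro x hx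
    obtain ⟨c, hc⟩ := h.exists_rp x
    refine ⟨hx.1, hphi (((n (by decide)).dl r hc).mem_B_of_lt ((key hc hx.1).2.2 ?_))⟩
    exact ((hc.mul r (g (i := 8) (by decide))).eq_iff r ((g (i := 8) (by decide)).mul r hc)).1
      (hx.2 _ y8).symm

end Cfsg.Agent.ThS
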