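import Cfsg.Agent.Lib.ThS.Tab
import Cfsg.Agent.Lib.U5.QF

/-!
Commutator structure of the group of order `3 ^ 10`.
-/

set_option autoImplicit false
set_option linter.style.haveILetI false

namespace Cfsg.Agent.ThS

open Subgroup Cfsg.Agent.Fus2

variable {G : Type*} [Group G] {y : ℕ → G}

/-- The commutator `x⁻¹ * (g * x * g⁻¹)`. -/
def icj (g x : G) : G := x⁻¹ * (g * x * g⁻¹)

theorem icj_eq_one {g x : G} : icj g x = 1 ↔ g * x = x * g := by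
  rw [icj, inv_mul_eq_one, eq_mul_inv_iff_mul_eq, eq_comm]

theorem HomOn.icj {H : Subgroup G} {f : G → G} (hf : HomOn H f) {g x : G} (hg : g ∈ H)
    (hx : x ∈ H) : f (icj g x) = icj (f g) (f x) := by
  rw [ThS.icj, hf.map_mul (inv_mem hx) (mul_mem (mul_mem hg hx) (inv_mem hg)), hf.map_inv hx,
    hf.map_conj hg hx, ThS.icj]

theorem icj_mem {H : Subgroup G} {g x : G} (hg : g ∈ H) (hx : x ∈ H) : icj g x ∈ H :=
  mul_mem (inv_mem hx) (mul_mem (mul_mem hg hx) (inv_mem hg))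

theorem icj_mem_iff {N : Subgroup G} [N.Normal] {g x : G} :
    icj g x ∈ N ↔ Commute (g : G ⧸ N) (x : G ⧸ N) := by
  rw [← QuotientGroup.eq_one_iff, commute_iff_eq, ← icj_eq_one]; rfl

/-- The code of `icj`. -/
noncomputable def ic (g x : ℕ) : ℕ := mul (inv x) (mul (mul g x) (inv g))

theorem Rp.icj (h : Rel y) {a b : ℕ} {g x : G} (ha : Rp y a g) (hb : Rp y b x) :
    Rp y (ic a b) (icj g x) := (hb.inv h).mul h ((ha.mul h hb).mul h (ha.inv h))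

theorem Rp.of_eq {a b : ℕ} {x : G} (ha : Rp y a x) (e : a = b) : Rp y b x := e ▸ ha

theorem Rp.gp (h : Rel y) {i k : ℕ} (hi : i < 10) (hk : k < 3) :
    Rp y (k * 3 ^ (9 - i)) (y i ^ k) := by
  have e : ∀ i < 10, ThS.mul (3 ^ (9 - i)) (3 ^ (9 - i)) = 2 * 3 ^ (9 - i) := by decide +kernel
  rcases (show k = 0 ∨ k = 1 ∨ k = 2 by omega) with rfl | rfl | rfl
  · simpa using Rp.one
  · simpa using Rp.gen hi
  · rw [sq, ← e i hi]; exact (Rp.gen hi).mul h (Rp.gen hi)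

/-- `H` is generated by the generators with index in `A`. -/
structure Gen (y : ℕ → G) (A : List ℕ) (H : Subgroup G) : Prop where
  lt : ∀ i ∈ A, i < 10
  mem : ∀ i ∈ A, y i ∈ H
  le : ∀ K : Subgroup G, (∀ i ∈ A, y i ∈ K) → H ≤ K

theorem gen_B (l : ℕ) (hl : l ≤ 10 := by decide) : Gen y (List.range' (10 - l) l) (B y l) :=
  ⟨fun i hi => by rw [List.mem_range'_1] at hi; omega,
    fun i hi => by rw [List.mem_range'_1] at hi; exact gen_mem_B (by omega) (by omega),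
    fun K hK => B_le_iff.2 fun i hi h' => hK i (by rw [List.mem_range'_1]; omega)⟩

theorem PC.gen_top (h : PC y) : Gen y (List.range' 0 10) ⊤ := h.B_ten ▸ gen_B 10

/-- The subgroup generated by a generator and a coordinate subgroup. -/
def X (y : ℕ → G) (i l : ℕ) : Subgroup G := closure {y i} ⊔ B y l

theorem gen_X (i l : ℕ) (hi : i < 10 := by decide) (hl : l ≤ 10 := by decide) :
    Gen y (i :: List.range' (10 - l) l) (X y i l) :=
  ⟨List.forall_mem_cons.2 ⟨hi, (gen_B (y := y) l hl).lt⟩,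
    List.forall_mem_cons.2 ⟨mem_sup_left (subset_closure rfl),
      fun j hj => mem_sup_right ((gen_B l hl).mem j hj)⟩,
    fun K hK => sup_le ((closure_le _).2 (Set.singleton_subset_iff.2 (hK i List.mem_cons_self)))
      ((gen_B l hl).le K fun j hj => hK j (List.mem_cons_of_mem _ hj))⟩

theorem E2_eq : E2 y = X y 0 8 := rfl

theorem Gen.mem_of {C : List ℕ} {N : Subgroup G} (hN : Gen y C N) {c : ℕ} {x : G} (hc : Rp y c x)
    (h : ∀ k ∈ W c, k ∈ C) : x ∈ N := hc.2 ▸ nf_mem fun k hk => hN.mem k (h k hk)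

/-- The check of a commutator relation between coordinate subgroups. -/
def Ck (A A' C : List ℕ) : Prop := ∀ i ∈ A, ∀ j ∈ A', ∀ k ∈ W (ic (3 ^ (9 - i)) (3 ^ (9 - j))), k ∈ C

noncomputable instance (A A' C : List ℕ) : Decidable (Ck A A' C) := by unfold Ck; infer_instance

theorem PC.normal_of (h : PC y) {C : List ℕ} {N : Subgroup G} (hN : Gen y C N)
    (hc : Ck (List.range' 0 10) C C) : N.Normal := by
  haveI := h.finite
  refine normalizer_eq_top_iff.1 (eq_top_iff.2 (h.gen_top.le _ fun i hi =>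
    Fus.mem_normalizer_of_conj_mem fun x hx => ?_))
  refine hN.le (N.comap (MulAut.conj (y i)).toMonoidHom) (fun j hj => ?_) hx
  have := mul_mem (hN.mem j hj) (hN.mem_of ((Rp.gen (h.gen_top.lt i hi)).icj h.toRel
    (Rp.gen (hN.lt j hj))) (hc i hi j hj))
  simpa [icj] using this

theorem PC.cm (h : PC y) {A A' C : List ℕ} {H H' N : Subgroup G} [N.Normal] (hH : Gen y A H)
    (hH' : Gen y A' H') (hN : Gen y C N) (hc : Ck A A' C) {g x : G} (hg : g ∈ H) (hx : x ∈ H') :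
    icj g x ∈ N := by
  rw [icj_mem_iff]
  refine mem_centralizer_singleton_iff.1 (hH.le ((centralizer {(x : G ⧸ N)}).comap
    (QuotientGroup.mk' N)) (fun i hi => mem_centralizer_singleton_iff.2 ?_) hg)
  refine (mem_centralizer_singleton_iff.1 (hH'.le ((centralizer {(y i : G ⧸ N)}).comap
    (QuotientGroup.mk' N)) (fun j hj => mem_centralizer_singleton_iff.2 ?_) hx)).symm
  exact (icj_mem_iff.1 (hN.mem_of ((Rp.gen (hH.lt i hi)).icj h.toRel (Rp.gen (hH'.lt j hj)))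
    (hc i hi j hj))).symm

theorem PC.nB (h : PC y) (l : ℕ) (hl : l ≤ 10 := by decide) : (B y l).Normal := by
  have : ∀ l ≤ 10, Ck (List.range' 0 10) (List.range' (10 - l) l) (List.range' (10 - l) l) := by
    decide +kernel
  exact h.normal_of (gen_B l hl) (this l hl)

theorem PC.nE1 (h : PC y) : (E1 y).Normal := h.nB 9
theorem PC.nE2 (h : PC y) : (E2 y).Normal := h.normal_of (gen_X 0 8) (by decide +kernel)
theorem PC.nX (h : PC y) : (X y 4 4).Normal := h.normal_of (gen_X 4 4) (by decide +kernel)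

theorem PC.cBB (h : PC y) (k l m : ℕ) {g x : G} (hg : g ∈ B y k) (hx : x ∈ B y l)
    (hc : k ≤ 10 ∧ l ≤ 10 ∧ m ≤ 10 ∧ Ck (List.range' (10 - k) k) (List.range' (10 - l) l)
      (List.range' (10 - m) m) := by decide +kernel) : icj g x ∈ B y m :=
  haveI := h.nB m hc.2.2.1
  h.cm (gen_B k hc.1) (gen_B l hc.2.1) (gen_B m hc.2.2.1) hc.2.2.2 hg hx

theorem PC.top_B (h : PC y) (g : G) : g ∈ B y 10 := h.B_ten ▸ mem_top g

theorem PC.c10 (h : PC y) (g x : G) : icj g x ∈ B y 7 := h.cBB 10 10 7 (h.top_B g) (h.top_B x)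
theorem PC.c7 (h : PC y) (g : G) {x : G} (hx : x ∈ B y 7) : icj g x ∈ B y 6 :=
  h.cBB 10 7 6 (h.top_B g) hx
theorem PC.c6 (h : PC y) (g : G) {x : G} (hx : x ∈ B y 6) : icj g x ∈ B y 4 :=
  h.cBB 10 6 4 (h.top_B g) hx
theorem PC.c4 (h : PC y) (g : G) {x : G} (hx : x ∈ B y 4) : icj g x ∈ B y 3 :=
  h.cBB 10 4 3 (h.top_B g) hx
theorem PC.c3 (h : PC y) (g : G) {x : G} (hx : x ∈ B y 3) : icj g x ∈ B y 2 :=
  h.cBB 10 3 2 (h.top_B g) hx
theorem PC.c2 (h : PC y) (g : G) {x : G} (hx : x ∈ B y 2) : icj g x ∈ B y 1 :=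
  h.cBB 10 2 1 (h.top_B g) hx
theorem PC.c1 (h : PC y) (g : G) {x : G} (hx : x ∈ B y 1) : g * x = x * g :=
  icj_eq_one.1 (mem_bot.1 (h.B_zero ▸ h.cBB 10 1 0 (h.top_B g) hx))
theorem PC.d9 (h : PC y) {g x : G} (hg : g ∈ E1 y) (hx : x ∈ E1 y) : icj g x ∈ B y 5 :=
  h.cBB 9 9 5 hg hx
theorem PC.d5 (h : PC y) {g x : G} (hg : g ∈ E1 y) (hx : x ∈ B y 5) : icj g x ∈ B y 2 :=
  h.cBB 9 5 2 hg hx
theorem PC.d2 (h : PC y) {g x : G} (hg : g ∈ E1 y) (hx : x ∈ B y 2) : g * x = x * g :=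
  icj_eq_one.1 (mem_bot.1 (h.B_zero ▸ h.cBB 9 2 0 hg hx))
theorem PC.v5 (h : PC y) {g x : G} (hg : g ∈ B y 5) (hx : x ∈ B y 5) : g * x = x * g :=
  icj_eq_one.1 (mem_bot.1 (h.B_zero ▸ h.cBB 5 5 0 hg hx))
theorem PC.e9 (h : PC y) {g x : G} (hg : g ∈ E2 y) (hx : x ∈ E2 y) : icj g x ∈ X y 4 4 :=
  haveI := h.nX
  h.cm (gen_X 0 8) (gen_X 0 8) (gen_X 4 4) (by decide +kernel) hg hx
theorem PC.e5 (h : PC y) {g x : G} (hg : g ∈ E2 y) (hx : x ∈ X y 4 4) : icj g x ∈ B y 3 :=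
  haveI := h.nB 3
  h.cm (gen_X 0 8) (gen_X 4 4) (gen_B 3) (by decide +kernel) hg hx
theorem PC.e3 (h : PC y) {g x : G} (hg : g ∈ E2 y) (hx : x ∈ B y 3) : icj g x ∈ B y 1 :=
  haveI := h.nB 1
  h.cm (gen_X 0 8) (gen_B 3) (gen_B 1) (by decide +kernel) hg hx
theorem PC.f8 (h : PC y) {g x : G} (hg : g ∈ B y 8) (hx : x ∈ X y 2 5) : icj g x ∈ B y 4 :=
  haveI := h.nB 4
  h.cm (gen_B 8) (gen_X 2 5) (gen_B 4) (by decide +kernel) hg hx
theorem PC.f4 (h : PC y) {g x : G} (hg : g ∈ X y 2 5) (hx : x ∈ B y 4) : g * x = x * g :=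
  haveI := h.nB 0
  icj_eq_one.1 (mem_bot.1 (h.B_zero ▸
    h.cm (gen_X 2 5) (gen_B 4) (gen_B 0) (by decide +kernel) hg hx))

theorem dec_of {N : Subgroup G} [N.Normal] {z x : G} (hz : z ^ 3 ∈ N) (hx : x ∈ closure {z} ⊔ N) :
    ∃ i < 3, (z ^ i)⁻¹ * x ∈ N := by
  have h₁ : closure {z} ⊔ N ≤ (zpowers (z : G ⧸ N)).comap (QuotientGroup.mk' N) :=
    sup_le ((closure_le _).2 (Set.singleton_subset_iff.2 (mem_zpowers _))) fun n hn => by
      rw [mem_comap, QuotientGroup.mk'_apply, (QuotientGroup.eq_one_iff n).2 hn]; exact one_mem _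
  obtain ⟨n, e⟩ := h₁ hx
  have h3 : (z : G ⧸ N) ^ (3 : ℤ) = 1 := by
    rw [zpow_ofNat, ← QuotientGroup.mk_pow, QuotientGroup.eq_one_iff]; exact hz
  refine ⟨(n % 3).toNat, by omega, QuotientGroup.eq.1 ?_⟩
  rw [QuotientGroup.mk_pow, ← zpow_natCast, Int.toNat_of_nonneg (by omega),
    ← zpow_eq_zpow_emod n h3]
  exact e

theorem PC.cube_mem (h : PC y) {i l : ℕ} (hi : i < 10) (hc : cube i < 3 ^ l) : y i ^ 3 ∈ B y l := by
  have : ∀ i < 10, cube i < 59049 := by decide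
  rw [h.cube i hi]
  exact (rp_nf (this i hi)).mem_B_of_lt hc

theorem PC.decX (h : PC y) (i l : ℕ) {x : G} (hx : x ∈ X y i l)
    (hc : i < 10 ∧ l ≤ 10 ∧ cube i < 3 ^ l := by decide) : ∃ k < 3, (y i ^ k)⁻¹ * x ∈ B y l :=
  haveI := h.nB l hc.2.1
  dec_of (h.cube_mem hc.1 hc.2.2) hx

theorem B_succ_le_X {l : ℕ} (hl : l < 10) : B y (l + 1) ≤ X y (9 - l) l :=
  B_le_iff.2 fun i hi h' => by
    rcases (show i = 9 - l ∨ 10 ≤ i + l by omega) with rfl | e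
    exacts [mem_sup_left (subset_closure rfl), mem_sup_right (gen_mem_B e hi)]

theorem PC.decB (h : PC y) (l : ℕ) {x : G} (hx : x ∈ B y (l + 1)) (hl : l < 10 := by decide) :
    ∃ k < 3, (y (9 - l) ^ k)⁻¹ * x ∈ B y l := by
  have : ∀ l < 10, cube (9 - l) < 3 ^ l := by decide
  exact h.decX _ l (B_succ_le_X hl hx) ⟨by omega, hl.le, this l hl⟩

theorem X_le_of (h : PC y) {i l : ℕ} (hc : i < 10 ∧ l ≤ 10 ∧ cube i < 3 ^ l) {K : Subgroup G}
    (hK : B y l ≤ K) {z : G} (hz : z ∈ K) (h₁ : z ∈ X y i l) (h₂ : z ∉ B y l) : X y i l ≤ K := by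
  obtain ⟨k, hk, e⟩ := h.decX i l h₁ hc
  have hp : y i ^ k ∈ K := by simpa using inv_mem (mul_mem (hK e) (inv_mem hz))
  refine sup_le ((closure_le _).2 (Set.singleton_subset_iff.2 ?_)) hK
  rcases (show k = 0 ∨ k = 1 ∨ k = 2 by omega) with rfl | rfl | rfl
  · exact absurd (by simpa using e) h₂
  · simpa using hp
  · have := mul_mem (mul_mem hp hp) (inv_mem (hK (h.cube_mem hc.1 hc.2.2)))
    rwa [← pow_add, show 2 + 2 = 1 + 3 from rfl, pow_add, mul_inv_cancel_right, pow_one] at this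

theorem PC.succ_le (h : PC y) (l : ℕ) {K : Subgroup G} (hK : B y l ≤ K) {z : G} (hz : z ∈ K) {c : ℕ}
    (hc : Rp y c z) (hl : l < 10 ∧ 3 ^ l ≤ c ∧ c < 3 ^ (l + 1) := by decide +kernel) :
    B y (l + 1) ≤ K := by
  have : ∀ l < 10, cube (9 - l) < 3 ^ l := by decide
  exact (B_succ_le_X hl.1).trans (X_le_of h ⟨by omega, hl.1.le, this l hl.1⟩ hK hz
    (B_succ_le_X hl.1 (hc.mem_B_of_lt hl.2.2)) fun e => absurd ((h.mem_B hc).1 e) (by omega))

theorem PC.mem_E1_of (h : PC y) {x : G} (hx : x * y 8 = y 8 * x) : x ∈ E1 y := by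
  have k : allC (fun c => Nat.blt c 19683 || Nat.blt 0 (ic c 3)) = true := by decide +kernel
  obtain ⟨c, hc⟩ := h.exists_rp x
  have := allC_iff.1 k c hc.1
  rw [show ic c 3 = 0 from
    (hc.icj h.toRel (Rp.gen (i := 8) (by decide))).inj h.toRel (icj_eq_one.2 hx ▸ Rp.one)] at this
  exact hc.mem_B_of_lt (l := 9) (by simpa [Nat.blt_eq] using this)

theorem PC.mem_E2_of (h : PC y) {x : G} (hx : icj x (y 7) ∈ B y 1) : x ∈ E2 y := by
  have k : allC (fun c => Nat.beq (c / 6561 % 3) 0 || Nat.blt 2 (ic c 9)) = true := by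
    decide +kernel
  obtain ⟨c, hc⟩ := h.exists_rp x
  have := allC_iff.1 k c hc.1
  have h₂ := (h.mem_B (hc.icj h.toRel (Rp.gen (i := 7) (by decide)))).1 hx
  simp only [Bool.or_eq_true, Nat.beq_eq, Nat.blt_eq] at this
  exact (h.mem_E2 hc).2 (this.resolve_right (by simpa using Nat.le_of_lt_succ h₂))

theorem PC.mem_C_of (h : PC y) {x : G} (hx : ∀ z ∈ B y 4, x * z = z * x) : x ∈ X y 2 5 := by
  have k : allC (fun c => (Nat.blt c 6561 && Nat.beq (c / 243 % 9) 0) || Nat.blt 0 (ic c 27) ||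
      Nat.blt 0 (ic c 9) || Nat.blt 0 (ic c 3)) = true := by decide +kernel
  obtain ⟨c, hc⟩ := h.exists_rp x
  have := allC_iff.1 k c hc.1
  have e : ∀ i, 6 ≤ i → i < 10 → ic c (3 ^ (9 - i)) = 0 := fun i h₁ h₂ =>
    (hc.icj h.toRel (Rp.gen h₂)).inj h.toRel
      (icj_eq_one.2 (hx _ (gen_mem_B (by omega) h₂)) ▸ Rp.one)
  rw [show ic c 27 = 0 from e 6 (by decide) (by decide),
    show ic c 9 = 0 from e 7 (by decide) (by decide),
    show ic c 3 = 0 from e 8 (by decide) (by decide)] at this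
  simp only [Bool.or_eq_true, Nat.beq_eq, Nat.blt_eq, Bool.and_eq_true, lt_self_iff_false,
    or_false] at this
  refine (gen_X 2 5).mem_of hc fun i hi => ?_
  obtain ⟨h₁, h₂⟩ := mem_W hc.1 hi
  interval_cases i <;> first | decide | (exfalso; omega)

theorem PC.inf_le (h : PC y) {x : G} (h₁ : x ∈ E1 y) (h₂ : x ∈ E2 y) : x ∈ B y 8 := by
  obtain ⟨c, hc⟩ := h.exists_rp x
  have a := (h.mem_B (l := 9) hc).1 h₁
  have b := (h.mem_E2 hc).1 h₂
  exact hc.mem_B_of_lt (by omega)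

/-- The elements of `H` mapped into `N`. -/
def pre {H : Subgroup G} {f : G → G} (hf : HomOn H f) (N : Subgroup G) : Subgroup G where
  carrier := {x | x ∈ H ∧ f x ∈ N}
  one_mem' := ⟨one_mem _, by rw [hf.map_one]; exact one_mem _⟩
  mul_mem' hx hz := ⟨mul_mem hx.1 hz.1, by rw [hf.map_mul hx.1 hz.1]; exact mul_mem hx.2 hz.2⟩
  inv_mem' hx := ⟨inv_mem hx.1, by rw [hf.map_inv hx.1]; exact inv_mem hx.2⟩

theorem PC.g (_ : PC y) (i : ℕ) (hi : i < 10 := by decide) : Rp y (3 ^ (9 - i)) (y i) := Rp.gen hi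

theorem PC.B0_le (h : PC y) (K : Subgroup G) : B y 0 ≤ K := h.B_zero ▸ bot_le

theorem m1 (i : ℕ) (hi : 10 ≤ i + 9 ∧ i < 10 := by decide) : y i ∈ E1 y := gen_mem_B hi.1 hi.2

theorem m2 (i : ℕ) (hi : i ∈ 0 :: List.range' (10 - 8) 8 := by decide) : y i ∈ E2 y :=
  (gen_X 0 8).mem i hi

theorem mB (i l : ℕ) (hi : 10 ≤ i + l ∧ i < 10 := by decide) : y i ∈ B y l := gen_mem_B hi.1 hi.2

variable {f : G → G}

/-- Endomorphisms of `E1` preserve `B 2`. -/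
theorem PC.inv_E1 (h : PC y) (hf : HomOn (E1 y) f) (hm : ∀ x ∈ E1 y, f x ∈ E1 y) :
    ∀ x ∈ B y 2, f x ∈ B y 2 := by
  have r := h.toRel
  have a : icj (y 1) (y 2) ∈ E1 y := icj_mem (m1 1) (m1 2)
  have k : ∀ g ∈ E1 y, icj g (icj (y 1) (y 2)) ∈ pre hf (B y 2) := fun g hg =>
    ⟨icj_mem hg a, by
      rw [HomOn.icj hf hg a, HomOn.icj hf (m1 1) (m1 2)]
      exact h.d5 (hm g hg) (h.d9 (hm _ (m1 1)) (hm _ (m1 2)))⟩
  exact fun x hx => (h.succ_le 1 (h.succ_le 0 (h.B0_le _) (k _ (m1 2))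
    ((h.g 2).icj r ((h.g 1).icj r (h.g 2)))) (k _ (m1 1))
    ((h.g 1).icj r ((h.g 1).icj r (h.g 2))) (by decide +kernel) hx).2

/-- Endomorphisms of `E2` preserve `B 1` and `B 3`. -/
theorem PC.inv_E2 (h : PC y) (hf : HomOn (E2 y) f) (hm : ∀ x ∈ E2 y, f x ∈ E2 y) :
    (∀ x ∈ B y 1, f x ∈ B y 1) ∧ ∀ x ∈ B y 3, f x ∈ B y 3 := by
  have r := h.toRel
  have a : icj (y 2) (y 3) ∈ E2 y := icj_mem (m2 2) (m2 3)
  have k : ∀ g ∈ E2 y, icj g (icj (y 2) (y 3)) ∈ pre hf (B y 3) := fun g hg =>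
    ⟨icj_mem hg a, by
      rw [HomOn.icj hf hg a, HomOn.icj hf (m2 2) (m2 3)]
      exact h.e5 (hm g hg) (h.e9 (hm _ (m2 2)) (hm _ (m2 3)))⟩
  have k1 : B y 1 ≤ pre hf (B y 1) := h.succ_le 0 (h.B0_le _)
    (z := icj (y 0) (icj (y 3) (icj (y 2) (y 3)))) ⟨icj_mem (m2 0) (k _ (m2 3)).1, by
      rw [HomOn.icj hf (m2 0) (k _ (m2 3)).1]
      exact h.e3 (hm _ (m2 0)) (k _ (m2 3)).2⟩
    ((h.g 0).icj r ((h.g 3).icj r ((h.g 2).icj r (h.g 3))))
  have k1' : B y 1 ≤ pre hf (B y 3) := fun z hz => ⟨(k1 hz).1, B_mono (by decide) (k1 hz).2⟩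
  exact ⟨fun x hx => (k1 hx).2, fun x hx => (h.succ_le 2 (h.succ_le 1 k1' (k _ (m2 3))
    ((h.g 3).icj r ((h.g 2).icj r (h.g 3)))) (k _ (m2 0))
    ((h.g 0).icj r ((h.g 2).icj r (h.g 3))) (by decide +kernel) hx).2⟩

/-- Endomorphisms of the whole group preserve `B 1, …, B 4`. -/
theorem PC.inv_top (h : PC y) (hf : HomOn ⊤ f) :
    (∀ x ∈ B y 1, f x ∈ B y 1) ∧ (∀ x ∈ B y 2, f x ∈ B y 2) ∧ (∀ x ∈ B y 3, f x ∈ B y 3) ∧
      ∀ x ∈ B y 4, f x ∈ B y 4 := by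
  have r := h.toRel
  have e : ∀ g x, f (icj g x) = icj (f g) (f x) := fun g x => HomOn.icj hf trivial trivial
  have r4 := (h.g 0).icj r ((h.g 1).icj r ((h.g 0).icj r (h.g 1)))
  have r5 := (h.g 0).icj r r4
  have r6 := (h.g 1).icj r r5
  have r7 := (h.g 0).icj r r6
  have z4 : f (icj (y 0) (icj (y 1) (icj (y 0) (y 1)))) ∈ B y 4 := by
    rw [e, e, e]; exact h.c6 _ (h.c7 _ (h.c10 _ _))
  have z5 := h.c4 (f (y 0)) z4
  rw [← e] at z5
  have z6 := h.c3 (f (y 1)) z5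
  rw [← e] at z6
  have z7 := h.c2 (f (y 0)) z6
  rw [← e] at z7
  have up : ∀ l, B y l ≤ pre hf (B y l) → B y l ≤ pre hf (B y (l + 1)) := fun l hl z hz =>
    ⟨trivial, B_mono l.le_succ (hl hz).2⟩
  have k1 : B y 1 ≤ pre hf (B y 1) := h.succ_le 0 (h.B0_le _) ⟨trivial, z7⟩ r7
  have k2 : B y 2 ≤ pre hf (B y 2) := h.succ_le 1 (up 1 k1) ⟨trivial, z6⟩ r6
  have k3 : B y 3 ≤ pre hf (B y 3) := h.succ_le 2 (up 2 k2) ⟨trivial, z5⟩ r5
  have k4 : B y 4 ≤ pre hf (B y 4) := h.succ_le 3 (up 3 k3) ⟨trivial, z4⟩ r4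
  exact ⟨fun x hx => (k1 hx).2, fun x hx => (k2 hx).2, fun x hx => (k3 hx).2, fun x hx => (k4 hx).2⟩

end Cfsg.Agent.ThS
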