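import Cfsg.Agent.Lib.ThS.All
import Cfsg.Agent.Lib.ThS.Sp34
import Cfsg.Agent.Lib.ThS.Str

/-!
The list of the possible essential subgroups.
-/

set_option autoImplicit false
set_option linter.style.haveILetI false

namespace Cfsg.Agent.ThS

open Cfsg.Agent.Fus Cfsg.Agent.Ess Subgroup

variable {G : Type*} [Group G] {y : ℕ → G}

theorem node (h : PC y) {j : ℕ} (hj : j < 1467) : ∃ d : ND, Bd (nd j) ∧
    3 ^ rk (nd j) ≤ Nat.card (Pn y (nd j)) ∧ len (allL (nd j) (frL (nd j) d.hs)) = rk (nd j) ∧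
    ckAll nd 1467 (nd j) (allL (nd j) (frL (nd j) d.hs)) d.w = true ∧
    kill (nd j) (frL (nd j) d.hs) (allL (nd j) (frL (nd j) d.hs)) d = true := by
  obtain ⟨d, H⟩ := all_ok j hj
  rw [ok, Bool.and_eq_true, Bool.and_eq_true, Bool.and_eq_true, Bool.and_eq_true, Nat.beq_eq] at H
  obtain ⟨⟨⟨⟨h1, h2⟩, h3⟩, h4⟩, h5⟩ := H
  have hb := bd_of h1
  exact ⟨d, hb, h3 ▸ card_ge h h2 (allL_val0 h.toRel hb (frL_val h.toRel hb _)).mem, h3, h4, h5⟩

theorem rk0 : rk (nd 0) = 10 := by decide +kernel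

theorem PC.eq_top (h : PC y) {E : Subgroup G} (hE : 3 ^ 10 ≤ Nat.card E) : E = ⊤ :=
  haveI := h.finite
  eq_of_le_of_card_ge le_top (by rwa [card_top, h.card])

theorem cover (h : PC y) (m : ℕ) : ∀ k, k + m = 10 → ∀ E : Subgroup G,
    centralizer (E : Set G) ≤ E → Nat.card E = 3 ^ k →
    ∃ j < 1467, ∃ g, rk (nd j) = k ∧ E = Pn (yc g y) (nd j) := by
  haveI := h.finite
  haveI : Fact (Nat.Prime 3) := ⟨by norm_num⟩
  induction m with
  | zero =>
    rintro _ rfl E _ hE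
    obtain ⟨d, -, hc, -⟩ := node h (j := 0) (by decide)
    rw [rk0] at hc
    exact ⟨0, by decide, 1, rk0, by rw [yc_one, h.eq_top hc, h.eq_top hE.ge]⟩
  | succ m ih =>
    intro k hk E hc hE
    obtain ⟨K, hK, hEK⟩ := Sylow.exists_subgroup_card_pow_succ (p := 3) (n := k)
      (h.card ▸ pow_dvd_pow 3 (by omega)) hE
    obtain ⟨j, hj, g, e, rfl⟩ := ih (k + 1) (by omega) K
      ((centralizer_le (SetLike.coe_subset_coe.2 hEK)).trans (hc.trans hEK)) hK
    obtain ⟨d, hb, -, hl, H, -⟩ := node (h.yc g) hj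
    obtain ⟨i, hi, g', e', hle⟩ := ckAll_sound (h.yc g) hb (frL_val (h.yc g).toRel hb _) hl
      (e ▸ hK) hEK (by rw [hE, e, pow_succ']) hc H
    rw [yc_yc] at hle
    obtain ⟨d', -, hc', -⟩ := node (h.yc (g' * g)) hi
    have ek : rk (nd i) = k := by omega
    exact ⟨i, hi, g' * g, ek, (eq_of_le_of_card_ge hle (by rwa [hE, ← ek])).symm⟩

theorem Pn_yc (g : G) (N : ℕ) : Pn (yc g y) N = (Pn y N).map (MulAut.conj g).toMonoidHom := by
  rw [Pn, Pn, MonoidHom.map_closure]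
  congr 1
  ext x
  exact ⟨fun ⟨j, hj, e⟩ => ⟨_, ⟨j, hj, rfl⟩, (nf_yc g _).symm.trans e⟩,
    fun ⟨_, ⟨j, hj, rfl⟩, e⟩ => ⟨j, hj, (nf_yc g _).trans e⟩⟩

theorem nf3 : nf y 3 = y 8 := (Rp.gen (i := 8) (by decide)).2
theorem nf1 : nf y 1 = y 9 := (Rp.gen (i := 9) (by decide)).2

theorem Pn_E3 : Pn y 295161422166083348805 = E3 y := by
  rw [Pn, E3, ← nf3 (y := y), ← nf1 (y := y)]
  congr 1
  ext x
  refine ⟨fun ⟨j, hj, e⟩ => ?_, ?_⟩
  · interval_cases j
    exacts [Or.inl e.symm, Or.inr (Or.inl e.symm), Or.inr (Or.inr (Or.inl e.symm)),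
      Or.inr (Or.inr (Or.inr (Or.inl e.symm))), Or.inr (Or.inr (Or.inr (Or.inr e.symm)))]
  · rintro (rfl | rfl | rfl | rfl | rfl)
    exacts [⟨0, by decide, rfl⟩, ⟨1, by decide, rfl⟩, ⟨2, by decide, rfl⟩, ⟨3, by decide, rfl⟩,
      ⟨4, by decide, rfl⟩]

theorem Pn_N3 (h : PC y) : Pn y 2656452749373487556935 = N3 y := by
  have r := h.toRel
  refine le_antisymm (Pn_le fun j hj _ => ?_) ?_
  · interval_cases j
    exacts [mem_sup_left (subset_closure (Or.inl rfl)),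
      mem_sup_left (subset_closure (Or.inr (Or.inl rfl))),
      mem_sup_right ((rp_nf (by decide)).mem_B_of_lt (by decide)),
      mem_sup_right ((rp_nf (by decide)).mem_B_of_lt (by decide)),
      mem_sup_right ((rp_nf (by decide)).mem_B_of_lt (by decide))]
  set P := Pn y 2656452749373487556935
  have p0 : nf y 6804 ∈ P := sl_mem (N := 2656452749373487556935) (j := 0) (by decide)
  have p1 : nf y 2952 ∈ P := sl_mem (N := 2656452749373487556935) (j := 1) (by decide)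
  have p5 : nf y 81 ∈ P := sl_mem (N := 2656452749373487556935) (j := 2) (by decide)
  have p6 : nf y 27 ∈ P := sl_mem (N := 2656452749373487556935) (j := 3) (by decide)
  have p7 : nf y 9 ∈ P := sl_mem (N := 2656452749373487556935) (j := 4) (by decide)
  have c : ∀ {a k : ℕ}, a < 59049 → nf y a ∈ P → cm a 6804 = k → nf y k ∈ P := fun ha pa e =>
    (e ▸ (rp_nf ha).cm r (rp_nf (c := 6804) (by decide))).2 ▸
      phi_le (comm_mem_phi (p := 3) pa p0)
  have p8 : nf y 3 ∈ P := c (by decide) p7 (by decide +kernel)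
  have p9 : nf y 1 ∈ P := c (by decide) p6 (by decide +kernel)
  have hB : B y 5 ≤ P := B_le_iff.2 fun i hi hi' => by
    have : 5 ≤ i := by omega
    rw [← (Rp.gen (y := y) hi).2]
    interval_cases i
    exacts [p5, p6, p7, p8, p9]
  refine sup_le ((closure_le _).2 ?_) hB
  rintro _ (rfl | rfl | rfl | rfl | rfl)
  exacts [p0, p1, hB ((rp_nf (by decide)).mem_B_of_lt (by decide)), nf3 (y := y) ▸ p8,
    nf1 (y := y) ▸ p9]

theorem PC.card_E2 (h : PC y) : Nat.card (E2 y) ≤ 3 ^ 9 := by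
  haveI := h.finite
  haveI : Fact (Nat.Prime 3) := ⟨by norm_num⟩
  obtain ⟨i, hi⟩ := IsPGroup.iff_card.1 (h.pg.to_subgroup (E2 y))
  rw [hi]
  refine Nat.pow_le_pow_right (by decide) (Nat.le_of_not_lt fun hl => ?_)
  have := h.eq_top (hi ▸ Nat.pow_le_pow_right (by decide) hl)
  exact absurd ((h.mem_E2 (Rp.gen (i := 1) (by decide))).1 (this ▸ mem_top _)) (by decide)

theorem ess (h : PC y) (F : FusionSystem (⊤ : Subgroup G)) (hF : F.IsSaturated 3) (E : Subgroup G)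
    (hE : F.IsEssential 3 E) :
    E = E1 y ∨ E = E2 y ∨ (∃ g, E = (E3 y).map (MulAut.conj g).toMonoidHom) ∨
      ∃ g, E = (N3 y).map (MulAut.conj g).toMonoidHom := by
  haveI := h.finite
  haveI : Fact (Nat.Prime 3) := ⟨by norm_num⟩
  obtain ⟨k, hk⟩ := IsPGroup.iff_card.1 (h.pg.to_subgroup E)
  have k10 : k ≤ 10 := (Nat.pow_le_pow_iff_right (by decide)).1
    (hk ▸ h.card ▸ Nat.card_le_card_of_injective _ E.subtype_injective)
  obtain ⟨j, hj, g, e, rfl⟩ := cover h (10 - k) k (by omega) E (fun x hx =>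
    IsCentric_centralizerIn_le hE.1 (Fus.mem_centralizerIn.2 ⟨mem_top _, hx⟩)) hk
  obtain ⟨d, hb, -, hl, -, H⟩ := node (h.yc g) hj
  rw [← e] at hk
  have nm : ∀ {N : ℕ} (K : Subgroup G) [K.Normal], (∀ j < 5, nf y (sl N j) ∈ K) →
      Pn (yc g y) N ≤ K := fun K hK H => Pn_le fun j hj _ => nf_yc g _ ▸ hK.conj_mem _ (H j hj) g
  rcases kill_sound (h.yc g) hF hb (frL_val (h.yc g).toRel hb _) hl hk hE H with
    e | e | e | e | e | e
  · rw [e] at hk
    rw [h.eq_top hk.ge] at hE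
    exact absurd hE (not_isEssential_top h.pg_top hF)
  · rw [e] at hk ⊢
    haveI := h.nE1
    have : ∀ j < 5, sl 1094424808242911769 j < 3 ^ 9 := by decide +kernel
    exact Or.inl (eq_of_le_of_card_ge (nm _ fun j hj =>
      (rp_nf ((this j hj).trans (by decide))).mem_B_of_lt (this j hj))
      ((h.card_B (by decide)).trans hk.symm).le)
  · rw [e] at hk ⊢
    haveI := h.nE2
    have : ∀ j < 5, sl 364841668609101369 j < 59049 ∧ sl 364841668609101369 j / 6561 % 3 = 0 := by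
      decide +kernel
    exact Or.inr (Or.inl (eq_of_le_of_card_ge (nm _ fun j hj =>
      (h.mem_E2 (rp_nf (this j hj).1)).2 (this j hj).2) (h.card_E2.trans hk.ge)))
  · exact Or.inr (Or.inr (Or.inl ⟨g, by rw [e, Pn_yc, Pn_E3]⟩))
  · exact Or.inr (Or.inr (Or.inr ⟨g, by rw [e, Pn_yc, Pn_N3 h]⟩))
  · exact absurd (e ▸ hE) (not_ess34 (h.yc g) hF)

end Cfsg.Agent.ThS
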