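import Cfsg.Agent.Lib.ThS.Fus

/-!
The case of an essential elementary abelian subgroup, and the end of the proof.
-/

set_option autoImplicit false
set_option linter.style.haveILetI false
set_option linter.unusedVariables false
set_option linter.unusedSectionVars false

namespace Cfsg.Agent.ThS

open Subgroup Cfsg.Agent.Fus2 Cfsg.Agent.Ess
open Cfsg.Agent.Fus (conjAut)
open L (K T M2 ap fm)

variable {G : Type*} [Group G] {y : ℕ → G}

/-- The facts on essential subgroups. -/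
structure Hyp (y : ℕ → G) : Prop where
  ess : ∀ F : FusionSystem (⊤ : Subgroup G), F.IsSaturated 3 → ¬ F.IsEssential 3 (E3 y) →
    ∀ E, F.IsEssential 3 E → E = E1 y ∨ E = E2 y
  e3a : ∀ F : FusionSystem (⊤ : Subgroup G), F.IsSaturated 3 → F.IsEssential 3 (E3 y) →
    ∀ K : Subgroup (MulAut (E3 y)), autInducedBy ⊤ (E3 y) ≤ K →
      (∀ γ ∈ F.autGroup (E3 y), ∀ β ∈ K, γ * β * γ⁻¹ ∈ K) →
      ∃ k ∈ K, ∀ w, afn k (jz y w) = jz y (fm (1, 1) w)
  e3b : ∀ F : FusionSystem (⊤ : Subgroup G), F.IsSaturated 3 → F.IsEssential 3 (E3 y) →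
    ∀ R, F.StronglyClosed R → B y 2 ≤ R → E1 y ≤ R
  aut : autInducedBy ⊤ (E3 y) ≤ autInducedBy (E1 y) (E3 y)
  le : E3 y ≤ E1 y

/-- The action `φ` on `B 2` is induced by a map of the system. -/
def Az (y : ℕ → G) {S : Subgroup G} (D : FusionSystem S) (φ : T → T) : Prop :=
  ∃ β ∈ D.autGroup (B y 2), ∀ w, afn β (jz y w) = jz y (φ w)

theorem Az.mul {S : Subgroup G} {D : FusionSystem S} {φ ψ : T → T} (h₁ : Az y D φ)
    (h₂ : Az y D ψ) : Az y D fun w => φ (ψ w) := by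
  obtain ⟨α, hα, e₁⟩ := h₁
  obtain ⟨β, hβ, e₂⟩ := h₂
  exact ⟨α * β, mul_mem hα hβ, fun w => by rw [afn_mul, e₂, e₁]⟩

theorem B2_le_E3 : B y 2 ≤ E3 y := B_le_iff.2 fun i hi h' => subset_closure (by
  rcases (show i = 8 ∨ i = 9 by omega) with rfl | rfl <;> simp)

variable [Finite G] (h : PC y) {F : FusionSystem (⊤ : Subgroup G)}
  (hF : F.IsSaturated 3)
include h

theorem PC.jz_mem (w : T) : jz y w ∈ B y 2 := haveI := h.nB 0; h.sec1.mem w

theorem PC.exists_jz {x : G} (hx : x ∈ B y 2) : ∃ w, x = jz y w :=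
  haveI := h.nB 0
  (h.sec1.surj x hx).imp fun _ => h.eq0

theorem PC.conj_jz (r : K) (w : T) : y 0 ^ r.val * jz y w * (y 0 ^ r.val)⁻¹ = jz y (tvz r w) := by
  have k : ∀ r : K, ∀ w : T, mul (mul (r.val * 3 ^ (9 - 0)) (cj 8 w)) (inv (r.val * 3 ^ (9 - 0))) =
    cj 8 (tvz r w) := by decide +kernel
  have p := Rp.gp h.toRel (i := 0) (by decide) (ZMod.val_lt r)
  exact (((p.mul h.toRel (h.rj (by decide) w)).mul h.toRel (p.inv h.toRel)).of_eq (k r w)).eq
    (h.rj (i := 8) (by decide) _)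

theorem PC.nB2 (g : G) : g ∈ normalizer (B y 2 : Set G) :=
  haveI := h.nB 2
  (normalizer_eq_top _).ge trivial

theorem PC.az_of {S : Subgroup G} {D : FusionSystem S} (hS : E3 y ≤ S) {k : MulAut (E3 y)}
    (hk : k ∈ D.autGroup (E3 y)) {φ : T → T} (e : ∀ w, afn k (jz y w) = jz y (φ w)) : Az y D φ := by
  haveI := finite_of_le (le_top (a := S))
  obtain ⟨β, hβ, e'⟩ := ((Fus.M_afn hS hk).mono B2_le_E3).exists_aut' fun x hx => by
    obtain ⟨w, rfl⟩ := h.exists_jz hx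
    rw [e]; exact h.jz_mem _
  exact ⟨β, hβ, fun w => (e' _ (h.jz_mem w)).trans (e w)⟩

theorem PC.c0 (w : T) : afn (conjAut (B y 2) (y 0) (h.nB2 _)) (jz y w) = jz y (tvz 1 w) := by
  rw [afn_conjAut _ (h.jz_mem w), ← h.conj_jz, ZMod.val_one, pow_one]

include hF

theorem PC.ext_az {φ : T → T} (hφ : Az y F φ) (e : ∀ r, ∃ r', ∀ w, φ (tvz r w) = tvz r' (φ w))
    {b : K} (hb : φ (0, 1) = (0, b)) : ∃ β ∈ F.autGroup ⊤, Ty y (toA β) (φ (1, 0)).1.val b.val := by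
  haveI := h.nB 0
  obtain ⟨β, hβ, eβ⟩ := hφ
  obtain ⟨τ, hτ, eτ⟩ := receptive_ext (Fus.sat_receptive h.pg_top hF
    (Fus.isFullyNormalized_of_normal le_top fun g _ => h.nB2 g)) (Fus.M_afn le_top hβ) (img_afn β)
    (R := ⊤) (fun g _ => ⟨trivial, h.nB2 g⟩) fun g _ => by
      obtain ⟨r, hr, -⟩ := h.sec1.act g
      obtain ⟨r', hr'⟩ := e r
      refine ⟨y 0 ^ r'.val, trivial, fun x hx => ?_⟩
      obtain ⟨w, rfl⟩ := h.exists_jz hx
      rw [show g * jz y w * g⁻¹ = _ from h.eq0 (hr w), eβ, eβ, h.conj_jz, hr']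
  rw [sup_top_eq] at hτ
  obtain ⟨σ, hσ, eσ⟩ := h.exists_toA hτ
  exact ⟨σ, hσ, h.ty_of_ac (fun w => by rw [eσ, eτ _ (h.jz_mem w), eβ]) hb⟩

theorem PC.types (H : Hyp y) (hc : F.core = ⊥) :
    (∃ β ∈ F.autGroup ⊤, Ty y (toA β) 2 2) ∧ ∃ β ∈ F.autGroup ⊤, Ty y (toA β) 2 1 := by
  by_cases h3 : F.IsEssential 3 (E3 y)
  · obtain ⟨k, hk, e⟩ := H.e3a F hF h3 _ (Fus.autInducedBy_le_autGroup le_top)
      fun γ hγ β hβ => mul_mem (mul_mem hγ hβ) (inv_mem hγ)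
    have a := h.az_of le_top hk e
    have t : Az y F (tvz 1) := ⟨_, Fus.conjAut_mem_autGroup le_top trivial _, h.c0⟩
    exact ⟨h.ext_az hF (a.mul (a.mul (a.mul a))) (b := 2) (by decide +kernel) (by decide),
      h.ext_az hF (a.mul (a.mul (t.mul (t.mul a)))) (b := 1) (by decide +kernel) (by decide)⟩
  · have n₁ : ¬ ⊤ ≤ E1 y := fun e => absurd ((h.mem_B (l := 9) (h.g 0)).1 (e trivial)) (by decide)
    have n₂ : ¬ ⊤ ≤ E2 y := fun e => absurd ((h.mem_E2 (h.g 1)).1 (e trivial)) (by decide)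
    exact ⟨(h.twist1 hF hc (H.ess F hF h3) (sc_top F) n₁).2,
      (h.twist2 hF hc (H.ess F hF h3) (sc_top F) n₂).2⟩

theorem PC.sub_top (H : Hyp y) (hc : F.core = ⊥) {R : Subgroup G} {D : FusionSystem R}
    (hD : D.IsSaturated 3) (hi : InvM D F) (hR : R ≠ ⊥) : R = ⊤ := by
  by_cases h3 : F.IsEssential 3 (E3 y)
  · haveI := normal_of_sc hi.sc
    obtain ⟨k, hk, e⟩ := H.e3a F hF h3 _ (Fus.autInducedBy_le_autGroup le_top)
      fun γ hγ β hβ => mul_mem (mul_mem hγ hβ) (inv_mem hγ)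
    have b1 := h.y9_mem hR
    have b2 : B y 2 ≤ R := h.succ_le 1 b1 (e _ ▸ (Fus.M_afn le_top hk).mem_of_sc hi.sc
      (B2_le_E3 (h.jz_mem (0, 1))) (jz9 (y := y) ▸ b1 (mB 9 1))) (h.rj (i := 8) (by decide) _)
    have e1 := H.e3b F hF h3 R hi.sc b2
    by_contra hn
    have e1' : R ≤ E1 y := by
      by_contra hn'
      exact hn ((sup_eq_left.2 e1).symm.trans (h.sup1 hn'))
    have e3 := H.le.trans e1
    obtain ⟨k, hk, e⟩ := H.e3a F hF h3 (D.autGroup _) (H.aut.trans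
      ((Fus.autInducedBy_mono e1 _).trans (Fus.autInducedBy_le_autGroup e3)))
      fun γ hγ β hβ => hi.conj_mem_autGroup e3 hγ hβ
    obtain ⟨β, hβ, eβ⟩ := h.az_of e3 hk e
    have hc' := Fus.conjAut_mem_autGroup (F := F) le_top (mem_top (y 0)) (h.nB2 _)
    have key : β * (conjAut (B y 2) (y 0) (h.nB2 _) * β * (conjAut (B y 2) (y 0) (h.nB2 _))⁻¹) =
        conjAut (B y 2) (y 0) (h.nB2 _) := by
      rw [← mul_assoc, mul_inv_eq_iff_eq_mul]
      refine aut_ext fun x hx => ?_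
      obtain ⟨w, rfl⟩ := h.exists_jz hx
      have : ∀ w, fm (1, 1) (tvz 1 (fm (1, 1) w)) = tvz 1 (tvz 1 w) := by decide +kernel
      simp only [afn_mul, eβ, h.c0, this]
    have hm := mul_mem hβ (hi.conj_mem_autGroup b2 hc' hβ)
    rw [key] at hm
    obtain ⟨γ, -, hγ⟩ := (Fus.sat_sylow (h.pg.to_subgroup R) hD
      (Fus.isFullyNormalized_of_normal b2 fun g _ => h.nB2 g)).exists_conj_mem_of_pow hm (k := 1) (by
        refine aut_ext fun x hx => ?_
        obtain ⟨w, rfl⟩ := h.exists_jz hx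
        have : ∀ w, tvz 1 (tvz 1 (tvz 1 w)) = w := by decide +kernel
        simp only [pow_one, pow_three', afn_mul, h.c0, this, afn_one])
    obtain ⟨g, hg, eg⟩ := mem_autInducedBy_iff.1 hγ
    have : γ * conjAut (B y 2) (y 0) (h.nB2 _) * γ⁻¹ = 1 := aut_ext fun x hx => by
      rw [eg x hx, h.d2 (e1' hg) hx, mul_inv_cancel_right, afn_one]
    rw [mul_inv_eq_one, mul_eq_left] at this
    have e₀ := h.c0 (1, 0)
    rw [this, afn_one] at e₀
    haveI := h.nB 0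
    exact absurd (h.sec1.inj _ _ (congrArg _ e₀)) (by decide)
  · have he := H.ess F hF h3
    by_cases n₁ : R ≤ E1 y
    · by_cases n₂ : R ≤ E2 y
      · refine absurd (eq_bot_iff.2 (hc ▸ le_core (Fus.isNormal_of_sc_of_le_essential h.pg_top hF
          hi.sc fun E hE => ?_))) hR
        rcases he E hE with rfl | rfl
        exacts [n₁, n₂]
      · exact (h.twist2 hF hc he hi.sc n₂).1
    · exact (h.twist1 hF hc he hi.sc n₁).1

theorem PC.simple_of (H : Hyp y) (hc : F.core = ⊥) : F.IsSimple 3 := by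
  refine ⟨hF, fun e => h.y9_ne (e ▸ mem_top _), fun R D hD => ?_⟩
  have hi := invM_of_isNormalIn hD
  by_cases hR : R = ⊥
  · exact Or.inl hR
  obtain rfl := h.sub_top hF H hc hD.1.1 hi hR
  have t := h.types hD.1.1 H (eq_bot_iff.2 (hc ▸ hi.core_le_core h.pg_top hF))
  rw [Fus.eq_of_isInvariantIn_top hD.1.2.2
    (h.aut_le hF (Fus.autGroup_mono hi.isSubsystemOf _) t.1 t.2)]
  exact Or.inr ⟨rfl, fun _ => rfl⟩

end Cfsg.Agent.ThS
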