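import Cfsg.Agent.Lib.ThS.Wt
import Cfsg.Agent.Lib.Fus.Simple
import Cfsg.Agent.Lib.Fus2.Comp
import Cfsg.Agent.Lib.Fit.Fitting

/-!
Simplicity of the fusion systems with trivial core, given the essential subgroups.
-/

set_option autoImplicit false
set_option linter.style.haveILetI false
set_option linter.unusedVariables false
set_option linter.unusedSectionVars false

namespace Cfsg.Agent.ThS

open Subgroup Cfsg.Agent.Fus2 Cfsg.Agent.Ess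
open Cfsg.Agent.Fus (conjAut)
open L (K T M2 ap fm)

variable {G : Type*} [Group G] {y : ℕ → G}

/-- The type of an automorphism. -/
def Ty (y : ℕ → G) (f : G → G) (a b : ℕ) : Prop :=
  (y 8 ^ a)⁻¹ * f (y 8) ∈ B y 1 ∧ (y 9 ^ b)⁻¹ * f (y 9) ∈ B y 0

/-- Automorphisms of the top subgroup as automorphisms of the group. -/
noncomputable def toA : MulAut (⊤ : Subgroup G) ≃* MulAut G := MulAut.congr topEquiv

theorem toA_apply (β : MulAut (⊤ : Subgroup G)) (x : G) : toA β x = afn β x := by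
  rw [afn_apply β (mem_top x)]; rfl

theorem PC.eq0 (h : PC y) {x z : G} (e : (x : G ⧸ B y 0) = z) : x = z := by
  rw [QuotientGroup.eq, h.B_zero, mem_bot] at e
  exact inv_mul_eq_one.1 e

theorem jz8 : jz y (1, 0) = y 8 := by simp [jz, ZMod.val_one]
theorem jz9 : jz y (0, 1) = y 9 := by simp [jz, ZMod.val_one]
theorem j38 : j3 y (0, 1) = y 8 := by simp [j3, ZMod.val_one]

theorem tv_neg : ∀ r : K, (tvz r (-(1, 0))).1.val = 2 ∧ tvz r (-(0, 1)) = (0, 2) := by decide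

theorem PC.ty_of_ac (h : PC y) {f : G → G} {φ : T → T} (e : Ac (B y 0) (jz y) f φ) {b : K}
    (hb : φ (0, 1) = (0, b)) : Ty y f (φ (1, 0)).1.val b.val := by
  have e₁ := h.eq0 (e (1, 0))
  have e₂ := h.eq0 (e (0, 1))
  rw [jz8] at e₁
  rw [jz9, hb] at e₂
  exact ⟨by rw [e₁, jz, inv_mul_cancel_left]; exact pow_mem (mB 9 1) _, by simp [e₂, jz]⟩

theorem PC.ty_comp (h : PC y) (σ : MulAut G) {f : G → G} {a b a' b' : ℕ} (h₁ : Ty y σ a b)
    (h₂ : Ty y f a' b') : Ty y (fun x => σ (f x)) (a * a' % 3) (b * b' % 3) := by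
  have k : ∀ l ≤ 10, (∀ x ∈ B y l, σ x ∈ B y l) → ∀ i < 10, cube i = 0 → ∀ a a' : ℕ,
      (y i ^ a)⁻¹ * σ (y i) ∈ B y l → (y i ^ a')⁻¹ * f (y i) ∈ B y l →
      (y i ^ (a * a' % 3))⁻¹ * σ (f (y i)) ∈ B y l := fun l hl hσ i hi hc a a' e e' => by
    haveI := h.nB l hl
    have := hσ _ e'
    rw [map_mul, map_inv, map_pow, ← QuotientGroup.eq, QuotientGroup.mk_pow,
      ← QuotientGroup.eq.2 e, ← QuotientGroup.mk_pow, ← pow_mul] at this
    rwa [← pow_eq_pow_mod _ (by rw [h.cube i hi, hc, nf_zero]), ← QuotientGroup.eq]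
  exact ⟨k 1 (by decide) (h.aut σ).1 8 (by decide) rfl _ _ h₁.1 h₂.1,
    k 0 (by decide) (by simp [h.B_zero]) 9 (by decide) rfl _ _ h₁.2 h₂.2⟩

theorem PC.exists_ty (h : PC y) (σ : MulAut G) :
    ∃ a b, (a = 1 ∨ a = 2) ∧ (b = 1 ∨ b = 2) ∧ Ty y σ a b := by
  obtain ⟨a, ha, h8⟩ := h.decB 1 ((h.aut σ).2.1 _ (mB 8 2))
  obtain ⟨b, hb, h9⟩ := h.decB 0 ((h.aut σ).1 _ (mB 9 1))
  obtain ⟨-, -, -, h₁, h₂⟩ := h.weights σ ha hb h8 h9
  exact ⟨a, b, by omega, by omega, h8, h9⟩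

theorem sup_top {E R : Subgroup G} {s : G} (h₂ : ∀ g, ∃ k < 3, (s ^ k)⁻¹ * g ∈ E) (h₃ : s ^ 3 ∈ E)
    (hR : ¬ R ≤ E) : R ⊔ E = ⊤ := by
  obtain ⟨t, ht, htE⟩ := SetLike.not_le_iff_exists.1 hR
  obtain ⟨k, hk, e⟩ := h₂ t
  have hp : s ^ k ∈ R ⊔ E := by
    simpa using inv_mem (mul_mem (mem_sup_right e) (inv_mem (mem_sup_left ht)) : _ ∈ R ⊔ E)
  have hs : s ∈ R ⊔ E := by
    rcases (show k = 0 ∨ k = 1 ∨ k = 2 by omega) with rfl | rfl | rfl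
    · exact absurd (by simpa using e) htE
    · simpa using hp
    · have := mul_mem (mul_mem hp hp) (inv_mem (mem_sup_right h₃))
      rwa [← pow_add, show 2 + 2 = 1 + 3 from rfl, pow_add, mul_inv_cancel_right, pow_one] at this
  refine eq_top_iff.2 fun g _ => ?_
  obtain ⟨k, -, e⟩ := h₂ g
  simpa using mul_mem (pow_mem hs k) (mem_sup_right e)

theorem PC.sup1 (h : PC y) {R : Subgroup G} (hR : ¬ R ≤ E1 y) : R ⊔ E1 y = ⊤ :=
  sup_top (fun g => h.decB 9 (h.top_B g)) (h.cube_mem (by decide) (by decide)) hR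

theorem PC.sup2 (h : PC y) {R : Subgroup G} (hR : ¬ R ≤ E2 y) : R ⊔ E2 y = ⊤ :=
  sup_top h.dec2 (B8_le_E2 (h.cube_mem (by decide) (by decide))) hR

theorem mem_of_inv {X : Subgroup G} {x z : G} (h₁ : x⁻¹ * z ∈ X) (h₂ : (x ^ 2)⁻¹ * z ∈ X) :
    x ∈ X := by
  simpa [sq] using mul_mem h₁ (inv_mem h₂)

theorem PC.y9_mem (h : PC y) {R : Subgroup G} [R.Normal] (hR : R ≠ ⊥) : B y 1 ≤ R := by
  have k : allC (fun c => Nat.blt c 3 || Nat.blt 0 (ic 19683 c) || Nat.blt 0 (ic 6561 c) ||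
      Nat.blt 0 (ic 2187 c)) = true := by decide +kernel
  haveI := h.finite
  haveI : Fact (Nat.Prime 3) := ⟨Nat.prime_three⟩
  haveI := h.pg.isNilpotent
  obtain ⟨⟨x, hx, hz⟩, h1⟩ := ne_bot_iff_exists_ne_one.1 (Fit.inf_center_ne_bot R hR)
  obtain ⟨c, hc⟩ := h.exists_rp x
  have e : ∀ i < 10, ic (3 ^ (9 - i)) c = 0 := fun i hi => ((h.g i hi).icj h.toRel hc).inj h.toRel
    (icj_eq_one.2 (mem_center_iff.1 hz _) ▸ Rp.one)
  have := allC_iff.1 k c hc.1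
  rw [show ic 19683 c = 0 from e 0 (by decide), show ic 6561 c = 0 from e 1 (by decide),
    show ic 2187 c = 0 from e 2 (by decide)] at this
  refine h.succ_le 0 (h.B0_le _) hx hc ⟨by decide, Nat.one_le_iff_ne_zero.2 fun e0 => h1 ?_,
    by simpa [Nat.blt_eq] using this⟩
  exact Subtype.ext (hc.eq (e0 ▸ Rp.one))

section Fusion

variable [Finite G] [Fact (Nat.Prime 3)] (h : PC y) {F : FusionSystem (⊤ : Subgroup G)}
  (hF : F.IsSaturated 3)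
include h

theorem PC.hB1 {S : Subgroup G} (F : FusionSystem S) : ∀ β ∈ F.autGroup (E1 y),
    (∀ x ∈ B y 2, afn β x ∈ B y 2) ∧ ∀ x ∈ B y 0, afn β x ∈ B y 0 := fun β _ =>
  ⟨h.inv_E1 (homOn_afn β) fun x hx => afn_mem β hx, by simp [h.B_zero, (homOn_afn β).map_one]⟩

theorem PC.hB2 {S : Subgroup G} (F : FusionSystem S) : ∀ β ∈ F.autGroup (E2 y),
    (∀ x ∈ B y 3, afn β x ∈ B y 3) ∧ ∀ x ∈ B y 1, afn β x ∈ B y 1 := fun β _ =>
  (h.inv_E2 (homOn_afn β) fun x hx => afn_mem β hx).symm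

theorem PC.exists_toA {τ : G → G} (hτ : M F ⊤ τ) : ∃ β ∈ F.autGroup ⊤, ∀ x, toA β x = τ x := by
  obtain ⟨β, hβ, e⟩ := hτ.exists_aut' fun _ _ => trivial
  exact ⟨β, hβ, fun x => (toA_apply β x).trans (e x trivial)⟩

theorem PC.y9_ne : y 9 ∉ (⊥ : Subgroup G) := fun e => h.ne (mem_bot.1 e)

include hF

theorem PC.twist1 (hc : F.core = ⊥) (he : ∀ E, F.IsEssential 3 E → E = E1 y ∨ E = E2 y)
    {R : Subgroup G} (hR : F.StronglyClosed R) (hRE : ¬ R ≤ E1 y) :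
    R = ⊤ ∧ ∃ β ∈ F.autGroup ⊤, Ty y (toA β) 2 2 := by
  haveI := h.nB 0
  haveI := h.nE1
  obtain ⟨α, hα, hmv⟩ : ∃ α ∈ F.autGroup (E1 y),
      ∀ m, Ac (B y 0) (jz y) (afn α) (ap m) → m.2.1 ≠ 0 := by
    by_contra hn
    push Not at hn
    refine h.y9_ne (hc ▸ le_core (Fus.isNormal_of_essential h.pg_top hF (Q := B y 1) ?_) (mB 9 1))
    rintro E (rfl | hE)
    · exact ⟨le_top, fun α _ x hx => toA_apply α x ▸ (h.aut _).1 x hx⟩
    rcases he E hE with rfl | rfl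
    · refine ⟨B_mono (by decide), fun α hα x hx => (h.succ_le 0 (K := pre (homOn_afn α) (B y 1))
        (h.B0_le _) ⟨m1 9, ?_⟩ (h.g 9) (by decide) hx).2⟩
      obtain ⟨m, hm, e⟩ := hn α hα
      have := h.eq0 (hm (0, 1))
      rw [jz9] at this
      simpa [this, jz, ap, e] using pow_mem (mB 9 1) _
    · exact ⟨(B_mono (by decide)).trans B8_le_E2, fun α hα => (h.hB2 F α hα).2⟩
  obtain ⟨τ, hτ, h₁, -, r, h₂⟩ := h.sec1.twist h.pg_top hF (h.hB1 F) hα hmv hR hRE (h.sup1 hRE)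
  obtain ⟨β, hβ, e⟩ := h.exists_toA hτ
  have ht : Ty y (toA β) 2 2 := by
    have := h.ty_of_ac h₂ (tv_neg r).2
    rw [(tv_neg r).1] at this
    simpa only [Ty, e, show (2 : K).val = 2 from rfl] using this
  refine ⟨?_, β, hβ, ht⟩
  obtain ⟨-, w₁, w₂, -⟩ := h.weights _ (by decide) (by decide) ht.1 ht.2
  have hX : R ⊔ phi 3 (E1 y) ≤ R ⊔ B y 7 := sup_le_sup_left (h.phi_le _) R
  have y2 : y 2 ∈ R ⊔ B y 7 := mem_of_inv (hX (h₁ _ (m1 2)))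
    (mem_sup_right (B_mono (l := 5) (by decide) (e _ ▸ w₂)))
  have b8 : B y 8 ≤ R ⊔ B y 7 := h.succ_le 7 le_sup_right y2 (h.g 2)
  have y1 : y 1 ∈ R ⊔ B y 7 := mem_of_inv (hX (h₁ _ (m1 1))) (b8 (e _ ▸ w₁))
  exact h.top_of ((sup_le le_sup_left (h.succ_le 8 b8 y1 (h.g 1)) : R ⊔ E1 y ≤ _)
    ((h.sup1 hRE).ge trivial)) y1 y2

theorem PC.twist2 (hc : F.core = ⊥) (he : ∀ E, F.IsEssential 3 E → E = E1 y ∨ E = E2 y)
    {R : Subgroup G} (hR : F.StronglyClosed R) (hRE : ¬ R ≤ E2 y) :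
    R = ⊤ ∧ ∃ β ∈ F.autGroup ⊤, Ty y (toA β) 2 1 := by
  haveI := h.nB 1
  haveI := h.nE2
  obtain ⟨α, hα, hmv⟩ : ∃ α ∈ F.autGroup (E2 y),
      ∀ m, Ac (B y 1) (j3 y) (afn α) (ap m) → m.2.1 ≠ 0 := by
    by_contra hn
    push Not at hn
    refine h.y9_ne (hc ▸ le_core (Fus.isNormal_of_essential h.pg_top hF (Q := B y 2) ?_) (mB 9 2))
    rintro E (rfl | hE)
    · exact ⟨le_top, fun α _ x hx => toA_apply α x ▸ (h.aut _).2.1 x hx⟩
    rcases he E hE with rfl | rfl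
    · exact ⟨B_mono (by decide), fun α hα => (h.hB1 F α hα).1⟩
    · have h1 : B y 1 ≤ E2 y := (B_mono (by decide)).trans B8_le_E2
      refine ⟨(B_mono (by decide)).trans B8_le_E2, fun α hα x hx => (h.succ_le 1
        (K := pre (homOn_afn α) (B y 2)) (fun z hz => ⟨h1 hz, B_mono (by decide)
          ((h.hB2 F α hα).2 z hz)⟩) ⟨m2 8, ?_⟩ (h.g 8) (by decide) hx).2⟩
      obtain ⟨m, hm, e⟩ := hn α hα
      have := QuotientGroup.eq.1 (hm (0, 1)).symm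
      rw [j38] at this
      have k : j3 y (ap m (0, 1)) ∈ B y 2 := by simpa [j3, ap, e] using pow_mem (mB 8 2) _
      simpa using mul_mem k (B_mono (by decide) this)
  obtain ⟨τ, hτ, h₁, h₃, r, h₂⟩ := h.sec2.twist h.pg_top hF (h.hB2 F) hα hmv hR hRE (h.sup2 hRE)
  obtain ⟨β, hβ, e⟩ := h.exists_toA hτ
  have ht : Ty y (toA β) 2 1 := by
    have := QuotientGroup.eq.1 (h₂ (0, 1)).symm
    beta_reduce at this
    rw [j38, (tv_neg r).2, j3] at this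
    exact ⟨by rw [e]; simpa [show (2 : K).val = 2 from rfl] using this, by simp [e, h₃ _ (mB 9 1)]⟩
  refine ⟨?_, β, hβ, ht⟩
  obtain ⟨w₀, -, w₂, -⟩ := h.weights _ (by decide) (by decide) ht.1 ht.2
  have hX : R ⊔ phi 3 (E2 y) ≤ R ⊔ B y 7 := sup_le_sup_left (h.phi_le _) R
  have y2 : y 2 ∈ R ⊔ B y 7 := mem_of_inv (hX (h₁ _ (m2 2)))
    (mem_sup_right (B_mono (l := 5) (by decide) (e _ ▸ w₂)))
  have b8 : B y 8 ≤ R ⊔ B y 7 := h.succ_le 7 le_sup_right y2 (h.g 2)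
  have y0 : y 0 ∈ R ⊔ B y 7 := mem_of_inv (hX (h₁ _ (m2 0))) (b8 (e _ ▸ w₀))
  exact h.top_of y0 ((sup_le le_sup_left (sup_le ((closure_le _).2
    (Set.singleton_subset_iff.2 y0)) b8) : R ⊔ E2 y ≤ _) ((h.sup2 hRE).ge trivial)) y2

/-- A subsystem containing automorphisms of all types contains all automorphisms. -/
theorem PC.aut_le {D : FusionSystem (⊤ : Subgroup G)} (hD : D.autGroup ⊤ ≤ F.autGroup ⊤)
    (h₁ : ∃ β ∈ D.autGroup ⊤, Ty y (toA β) 2 2) (h₂ : ∃ β ∈ D.autGroup ⊤, Ty y (toA β) 2 1) :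
    F.autGroup ⊤ ≤ D.autGroup ⊤ := fun α hα => by
  obtain ⟨a, b, ha, hb, t⟩ := h.exists_ty (toA α)
  obtain ⟨β, hβ, t'⟩ : ∃ β ∈ D.autGroup ⊤, Ty y (toA β) a b := by
    obtain ⟨β₁, m₁, t₁⟩ := h₁
    obtain ⟨β₂, m₂, t₂⟩ := h₂
    rcases ha with rfl | rfl <;> rcases hb with rfl | rfl
    · exact ⟨1, one_mem _, by simp [Ty]⟩
    · exact ⟨β₁ * β₂, mul_mem m₁ m₂, by rw [map_mul]; exact h.ty_comp _ t₁ t₂⟩
    exacts [⟨_, m₂, t₂⟩, ⟨_, m₁, t₁⟩]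
  have t₃ := h.ty_comp _ t' t
  rw [show a * a % 3 = 1 by rcases ha with rfl | rfl <;> rfl,
    show b * b % 3 = 1 by rcases hb with rfl | rfl <;> rfl, Ty, pow_one, pow_one] at t₃
  obtain ⟨k, hk⟩ := h.pow_eq_one (toA (β * α)) (by rw [map_mul]; exact t₃.1)
    (by rw [map_mul]; exact t₃.2)
  rw [← map_pow, map_eq_one_iff _ toA.injective] at hk
  obtain ⟨g, -, hg⟩ := (Fus.sat_sylow_top h.pg_top hF).exists_conj_mem_of_pow
    (mul_mem (hD hβ) hα) hk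
  rw [← Fus.congr_self, Fus.congr_mem_Inn_iff] at hg
  simpa using mul_mem (inv_mem hβ) (Fus.Inn_le_autGroup (F := D) le_rfl hg)

end Fusion

end Cfsg.Agent.ThS
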