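import Cfsg.Agent.Lib.ThS.Fin
import Cfsg.Agent.Lib.ThS.E3
import Cfsg.Agent.Lib.Ess.Conj

/-!
Collecting the facts on essential subgroups.
-/

set_option autoImplicit false
set_option linter.style.haveILetI false

namespace Cfsg.Agent.ThS

open Subgroup Cfsg.Agent.Fus2 Cfsg.Agent.Ess

variable {G : Type*} [Group G] {y : ℕ → G}

theorem PC.ess_of_conj (h : PC y) {F : FusionSystem (⊤ : Subgroup G)} {E : Subgroup G} {g : G}
    (hE : F.IsEssential 3 (E.map (MulAut.conj g).toMonoidHom)) : F.IsEssential 3 E := by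
  haveI := h.finite
  have := isEssential_img hE (M_conj F le_rfl (mem_top g⁻¹))
  rwa [show img (E.map (MulAut.conj g).toMonoidHom) (fun x => g⁻¹ * x * g⁻¹⁻¹) = E from
    (img_hom _ (MulAut.conj g⁻¹).toMonoidHom).trans (by
      rw [map_map]
      convert E.map_id
      ext x
      simp [mul_assoc])] at this

theorem PC.hyp (h : PC y)
    (ess : ∀ F : FusionSystem (⊤ : Subgroup G), F.IsSaturated 3 → ∀ E, F.IsEssential 3 E →
      E = E1 y ∨ E = E2 y ∨ (∃ g, E = (E3 y).map (MulAut.conj g).toMonoidHom) ∨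
        ∃ g, E = (N3 y).map (MulAut.conj g).toMonoidHom)
    (n3 : ∀ F : FusionSystem (⊤ : Subgroup G), F.IsSaturated 3 → ¬ F.IsEssential 3 (N3 y)) :
    Hyp y where
  ess F hF h3 E hE := by
    rcases ess F hF E hE with e | e | ⟨g, rfl⟩ | ⟨g, rfl⟩
    exacts [Or.inl e, Or.inr e, absurd (h.ess_of_conj hE) h3, absurd (h.ess_of_conj hE) (n3 F hF)]
  e3a _ hF hE := h.e3a hF hE
  e3b _ hF hE _ := h.e3b hF hE
  aut := h.autE3
  le := E3_le_E1

end Cfsg.Agent.ThS
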