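import Cfsg.Agent.Lib.ThS.Str
import Cfsg.Agent.Lib.Solv.Coprime2

/-!
The normaliser of the elementary abelian subgroup of order `3 ^ 5` is not essential.
-/

set_option autoImplicit false
set_option linter.style.haveILetI false
set_option Elab.async false

namespace Cfsg.Agent.ThS

open Subgroup Cfsg.Agent.Fus2
open Cfsg.Agent.U5 (SEd)

/-- A subgroup normalised by `T` and meeting `T` in `I` lies in `Mx` if `T / I` is abelian and not
cyclic. -/
theorem sed_le_of_noncyclic {Γ : Type*} [Group Γ] [Finite Γ] {p : ℕ} [Fact p.Prime]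
    {A T I Mx K : Subgroup Γ} [hI : I.Normal] (h : SEd p A T I Mx) (hIT : I ≤ T) (hK : K ≤ A)
    (hn : ∀ t ∈ T, ∀ k ∈ K, t * k * t⁻¹ ∈ K) (hTK : T ⊓ K ≤ I)
    (hc : ∀ s ∈ T, ∀ t ∈ T, (s * t)⁻¹ * (t * s) ∈ I)
    (hnc : ∀ s ∈ T, ∃ t ∈ T, ∀ n : ℕ, (s ^ n)⁻¹ * t ∉ I) : K ≤ Mx := by
  let π := QuotientGroup.mk' I
  have hn' : T ≤ normalizer (K : Set Γ) := fun t ht => Fus.mem_normalizer_of_conj_mem (hn t ht)
  have hs : Fus.IsSylowIn p (T ⊓ K) K :=
    (h.syl.of_le le_sup_left (sup_le h.syl.le hK)).inf_of_normal le_sup_right fun g hg n hn =>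
      ((sup_le hn' le_normalizer : T ⊔ K ≤ normalizer (K : Set Γ)) hg n).1 hn
  have hb : (T ⊓ K).map π = ⊥ := (Subgroup.map_eq_bot_iff _).2 (by rwa [QuotientGroup.ker_mk'])
  have hd := (hs.map π).not_dvd_relIndex
  rw [hb, relIndex_bot_left] at hd
  obtain ⟨m, hm⟩ := IsPGroup.iff_card.1 (h.syl.isPGroup.map π)
  haveI : IsMulCommutative (T.map π) := ⟨⟨by
    rintro ⟨_, s, hs, rfl⟩ ⟨_, t, ht, rfl⟩
    exact Subtype.ext (QuotientGroup.eq.2 (hc s hs t ht))⟩⟩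
  have hcy : ¬ IsCyclic (T.map π) := fun hcy => by
    obtain ⟨⟨_, s, hs, rfl⟩, H⟩ := IsCyclic.exists_monoid_generator (α := T.map π)
    obtain ⟨t, ht, H'⟩ := hnc s hs
    obtain ⟨n, e⟩ := H ⟨π t, t, ht, rfl⟩
    exact H' n (QuotientGroup.eq.1 (by
      have := congrArg Subtype.val e
      simpa [π] using this))
  have hg := Solv.generated_by_centralizers (A := T.map π) (K := K.map π) hcy
    (by
      rintro _ ⟨t, ht, rfl⟩
      refine Fus.mem_normalizer_of_conj_mem ?_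
      rintro _ ⟨k, hk, rfl⟩
      exact ⟨_, hn t ht k hk, by simp⟩)
    (by
      rw [hm]
      exact ((Nat.Prime.coprime_iff_not_dvd Fact.out).2 hd).pow_left m)
  have hle : K.map π ≤ Mx.map π := by
    rw [← hg]
    refine iSup₂_le ?_
    rintro _ ⟨⟨t, ht, rfl⟩, h1⟩ _ ⟨⟨k, hk, rfl⟩, hk'⟩
    refine ⟨k, ?_, rfl⟩
    by_contra hM
    refine h.conj_notMem (hK hk) hM ht (fun e => h1 ((QuotientGroup.eq_one_iff t).2 e)) (h.le ?_)
    have e : (t * k)⁻¹ * (k * t) ∈ I := QuotientGroup.eq.1 (by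
      simpa [π] using (mem_centralizer_singleton_iff.1 hk').symm)
    have := T.mul_mem ht (hIT (hI.conj_mem _ e k))
    simpa [mul_assoc] using this
  intro k hk
  have : k ∈ (Mx.map π).comap π := hle ⟨k, hk, rfl⟩
  rwa [comap_map_eq, QuotientGroup.ker_mk', sup_eq_left.2 (hIT.trans h.le)] at this

variable {G : Type*} [Group G] {y : ℕ → G}

theorem r1 : Rp y 6804 (nf y 6804) := rp_nf (by decide)
theorem r2 : Rp y 2952 (nf y 2952) := rp_nf (by decide)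
theorem r3 : Rp y 90 (nf y 90) := rp_nf (by decide)

theorem e3_mem_B : nf y 90 ∈ B y 5 := r3.mem_B_of_lt (by decide)
theorem B5_le_N3 : B y 5 ≤ N3 y := le_sup_right
theorem e1_mem_N3 : nf y 6804 ∈ N3 y := mem_sup_left (subset_closure (by simp))
theorem e2_mem_N3 : nf y 2952 ∈ N3 y := mem_sup_left (subset_closure (by simp))
theorem e3_mem_N3 : nf y 90 ∈ N3 y := B5_le_N3 e3_mem_B
theorem B2_le_N3 : B y 2 ≤ N3 y := (B_mono (by decide)).trans B5_le_N3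

theorem N3_le {K : Subgroup G} (h₁ : nf y 6804 ∈ K) (h₂ : nf y 2952 ∈ K) (h₅ : B y 5 ≤ K) :
    N3 y ≤ K := by
  refine sup_le ((closure_le _).2 ?_) h₅
  rintro _ (rfl | rfl | rfl | rfl | rfl)
  exacts [h₁, h₂, h₅ e3_mem_B, h₅ (mB 8 5), h₅ (mB 9 5)]

theorem N3leE1 : N3 y ≤ E1 y :=
  N3_le (r1.mem_B_of_lt (by decide)) (r2.mem_B_of_lt (by decide)) (B_mono (by decide))

theorem Rp.comm (h : Rel y) {a b : ℕ} {g x : G} (ha : Rp y a g) (hb : Rp y b x) :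
    g * x = x * g ↔ ic a b = 0 := by
  rw [← icj_eq_one, (ha.icj h hb).eq_iff h Rp.one]

theorem PC.comm_e3 (h : PC y) {x : G} (hx : x ∈ N3 y) : x * nf y 90 = nf y 90 * x :=
  mem_centralizer_singleton_iff.1 (N3_le (K := centralizer {nf y 90})
    (mem_centralizer_singleton_iff.2 ((r1.comm h.toRel r3).2 (by decide +kernel)))
    (mem_centralizer_singleton_iff.2 ((r2.comm h.toRel r3).2 (by decide +kernel)))
    (fun _ hz => mem_centralizer_singleton_iff.2 (h.v5 hz e3_mem_B)) hx)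

theorem PC.cN3 (h : PC y) {g x : G} (hg : g ∈ N3 y) (hx : x ∈ N3 y) : icj g x ∈ B y 2 := by
  haveI := h.nB 2
  have k : ∀ {a b : G}, icj a b ∈ B y 2 ↔
      a ∈ (centralizer {(b : G ⧸ B y 2)}).comap (QuotientGroup.mk' (B y 2)) := fun {a b} => by
    rw [icj_mem_iff, mem_comap, mem_centralizer_singleton_iff]; rfl
  have sy : ∀ {a b : G}, icj a b ∈ B y 2 → icj b a ∈ B y 2 := fun e =>
    icj_mem_iff.2 (icj_mem_iff.1 e).symm
  have rf : ∀ a : G, icj a a ∈ B y 2 := fun a => icj_mem_iff.2 (Commute.refl _)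
  have e12 : icj (nf y 6804) (nf y 2952) ∈ B y 2 :=
    (r1.icj h.toRel r2).mem_B_of_lt (by decide +kernel)
  refine k.2 (N3_le (k.1 (sy (k.2 (N3_le (k.1 (rf _)) (k.1 (sy e12)) (fun z hz => k.1 (sy ?_)) hx))))
    (k.1 (sy (k.2 (N3_le (k.1 e12) (k.1 (rf _)) (fun z hz => k.1 (sy ?_)) hx))))
    (fun z hz => k.1 (sy (h.d5 (N3leE1 hx) hz))) hg)
  exacts [h.d5 (N3leE1 e1_mem_N3) hz, h.d5 (N3leE1 e2_mem_N3) hz]

theorem PC.conj_N3 (h : PC y) {g x : G} (hg : g ∈ E1 y) (hx : x ∈ N3 y) : g * x * g⁻¹ ∈ N3 y := by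
  simpa [icj] using mul_mem hx (B5_le_N3 (h.d9 hg (N3leE1 hx)))

theorem PC.E1_le_norm (h : PC y) : E1 y ≤ normalizer (N3 y : Set G) :=
  haveI := h.finite
  fun _ hg => Fus.mem_normalizer_of_conj_mem fun _ hx => h.conj_N3 hg hx

theorem PC.norm_N3 (h : PC y) : normalizer (N3 y : Set G) ≤ E1 y := fun g hg => by
  by_contra hn
  obtain ⟨c, hc⟩ := h.exists_rp g
  have h0 := h.succ_le 9 h.E1_le_norm hg hc ⟨by decide,
    Nat.le_of_not_lt fun e => hn (hc.mem_B_of_lt e), hc.1⟩ (h.top_B (y 0))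
  have r := ((h.g 0).mul h.toRel r1).mul h.toRel ((h.g 0).inv h.toRel)
  exact absurd ((r.comm h.toRel r3).1 (h.comm_e3 ((h0 _).1 e1_mem_N3))) (by decide +kernel)

/-- Codes of representatives of `N3` modulo `B 5`. -/
noncomputable def cN (i : ℕ) : ℕ :=
  mul (nth [0, 6804, mul 6804 6804] (i / 3)) (nth [0, 2952, mul 2952 2952] (i % 3))

theorem ckN3 : allC (fun c => bif' (Nat.blt c 19683) (bif' (Nat.beq (ic c 90) 0)
    (anyLt 9 fun i => Nat.blt (mul (cN i) c) 243) true) true) = true := by decide +kernel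

theorem PC.mem_N3_of (h : PC y) {g : G} (hg : g ∈ E1 y) (hc : g * nf y 90 = nf y 90 * g) :
    g ∈ N3 y := by
  have r := h.toRel
  have a : ∀ c, Rp y c (nf y c) → nf y c ∈ N3 y → ∀ j < 3,
      ∃ x ∈ N3 y, Rp y (nth [0, c, mul c c] j) x := fun c hc hm j hj => by
    interval_cases j
    exacts [⟨1, one_mem _, Rp.one⟩, ⟨_, hm, hc⟩, ⟨_, mul_mem hm hm, hc.mul r hc⟩]
  obtain ⟨c, hc'⟩ := h.exists_rp g
  have := allC_iff.1 ckN3 c hc'.1
  simp only [bif'_eq, Nat.blt_eq, Nat.beq_eq] at this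
  rw [if_pos (show c < 19683 from (h.mem_B (l := 9) hc').1 hg), if_pos ((hc'.comm r r3).1 hc), anyLt_iff] at this
  obtain ⟨i, hi, e⟩ := this
  obtain ⟨u, hu, ru⟩ := a _ r1 e1_mem_N3 (i / 3) (by omega)
  obtain ⟨v, hv, rv⟩ := a _ r2 e2_mem_N3 (i % 3) (by omega)
  have := B5_le_N3 (((ru.mul r rv).mul r hc').mem_B_of_lt (l := 5) (Nat.blt_eq ▸ e))
  exact (mul_mem_cancel_left (mul_mem hu hv)).1 this

theorem ckCV : allC (fun c => Nat.blt c 243 || Nat.blt 0 (ic c 3) || Nat.blt 0 (ic c 9) ||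
    Nat.blt 0 (ic c 27) || Nat.blt 0 (ic c 81)) = true := by decide +kernel

theorem PC.mem_V_of (h : PC y) {x : G} (hx : ∀ z ∈ B y 5, x * z = z * x) : x ∈ B y 5 := by
  obtain ⟨c, hc⟩ := h.exists_rp x
  have := allC_iff.1 ckCV c hc.1
  have e : ∀ i, 5 ≤ i → i < 10 → ic c (3 ^ (9 - i)) = 0 := fun i h₁ h₂ =>
    (hc.comm h.toRel (Rp.gen h₂)).1 (hx _ (gen_mem_B (by omega) h₂))
  rw [show ic c 81 = 0 from e 5 (by decide) (by decide),
    show ic c 27 = 0 from e 6 (by decide) (by decide),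
    show ic c 9 = 0 from e 7 (by decide) (by decide),
    show ic c 3 = 0 from e 8 (by decide) (by decide)] at this
  exact hc.mem_B_of_lt (by simpa [Nat.blt_eq] using this)

theorem PC.inv_N3 (h : PC y) {f : G → G} (hf : HomOn (N3 y) f) (hm : ∀ x ∈ N3 y, f x ∈ N3 y) :
    ∀ x ∈ B y 2, f x ∈ B y 2 := by
  have r := h.toRel
  have k : ∀ g ∈ N3 y, icj (nf y 6804) g ∈ pre hf (B y 2) := fun g hg =>
    ⟨icj_mem e1_mem_N3 hg, by
      rw [HomOn.icj hf e1_mem_N3 hg]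
      exact h.cN3 (hm _ e1_mem_N3) (hm g hg)⟩
  exact fun x hx => (h.succ_le 1 (h.succ_le 0 (h.B0_le _) (k _ (B5_le_N3 (mB 6 5)))
    (r1.icj r (h.g 6))) (k _ (B5_le_N3 (mB 7 5))) (r1.icj r (h.g 7)) (by decide +kernel) hx).2

theorem PC.exists_icj (h : PC y) {w : G} (hw : w ∈ B y 2) : ∃ g ∈ E1 y, icj g (nf y 90) = w := by
  have k : allLt 9 (fun w => anyLt 81 fun q => Nat.beq (ic (243 * q) 90) w) = true := by
    decide +kernel
  obtain ⟨c, hc⟩ := h.exists_rp w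
  obtain ⟨q, hq, e⟩ := anyLt_iff.1 (allLt_iff.1 k c ((h.mem_B (l := 2) hc).1 hw))
  have rq : Rp y (243 * q) (nf y (243 * q)) := rp_nf (by omega)
  exact ⟨_, rq.mem_B_of_lt (l := 9) (by omega),
    ((rq.icj h.toRel r3).eq_iff h.toRel hc).2 (Nat.beq_eq ▸ e)⟩

theorem PC.exists_not_pow (h : PC y) {w : G} (hw : w ∈ B y 2) : ∃ z ∈ B y 2, ∀ n : ℕ, w ^ n ≠ z := by
  have k : ∀ w < 9, mul (mul w w) w = 0 ∧ ∃ z < 9, z ≠ 0 ∧ z ≠ w ∧ z ≠ mul w w := by decide +kernel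
  have r := h.toRel
  obtain ⟨c, hc⟩ := h.exists_rp w
  obtain ⟨k₁, z, hz, k₂, k₃, k₄⟩ := k c ((h.mem_B (l := 2) hc).1 hw)
  have rz : Rp y z (nf y z) := rp_nf (by omega)
  have h3 : w ^ 3 = 1 := by
    rw [pow_succ, sq]; exact (((hc.mul r hc).mul r hc).eq_iff r Rp.one).2 k₁
  refine ⟨_, rz.mem_B_of_lt (l := 2) hz, fun n e => ?_⟩
  rw [pow_eq_pow_mod n h3] at e
  rcases (show n % 3 = 0 ∨ n % 3 = 1 ∨ n % 3 = 2 by omega) with e' | e' | e' <;> rw [e'] at e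
  · exact k₂ ((rz.eq_iff r Rp.one).1 (by rw [← e, pow_zero]))
  · exact k₃ ((rz.eq_iff r hc).1 (by rw [← e, pow_one]))
  · exact k₄ ((rz.eq_iff r (hc.mul r hc)).1 (by rw [← e, sq]))

/-- Automorphisms fixing `B 2` and the third generator of `E3`. -/
def K3 (y : ℕ → G) : Subgroup (MulAut (N3 y)) where
  carrier := {α | (∀ x ∈ B y 2, afn α x = x) ∧ afn α (nf y 90) = nf y 90}
  one_mem' := ⟨fun x _ => afn_one x, afn_one _⟩
  mul_mem' ha hb := ⟨fun x hx => by rw [afn_mul, hb.1 x hx, ha.1 x hx], by rw [afn_mul, hb.2, ha.2]⟩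
  inv_mem' {α} ha := ⟨fun x hx => by rw [← ha.1 x hx, afn_inv_afn, ha.1 x hx],
    by rw [← ha.2, afn_inv_afn, ha.2]⟩

theorem PC.n3 (h : PC y) {F : FusionSystem (⊤ : Subgroup G)} (hF : F.IsSaturated 3) :
    ¬ F.IsEssential 3 (N3 y) := fun hE => by
  haveI := h.finite
  haveI : Fact (Nat.Prime 3) := ⟨Nat.prime_three⟩
  haveI : (Inn (N3 y)).Normal := inferInstance
  obtain ⟨Mx, s⟩ := U5.sed_of_ess h.pg_top hF hE
  have hT : ∀ t ∈ autInducedBy ⊤ (N3 y), ∃ g ∈ E1 y, ∀ x ∈ N3 y, afn t x = g * x * g⁻¹ :=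
    fun t ht => by
      obtain ⟨g, -, e⟩ := mem_autInducedBy_iff.1 ht
      exact ⟨g, h.norm_N3 (mem_normalizer_of_afn e), e⟩
  have hB : ∀ α : MulAut (N3 y), ∀ x ∈ B y 2, afn α x ∈ B y 2 := fun α =>
    h.inv_N3 (homOn_afn α) fun _ => afn_mem α
  have t2 : ∀ t ∈ autInducedBy ⊤ (N3 y), ∀ x ∈ B y 2, afn t x = x := fun t ht x hx => by
    obtain ⟨g, hg, e⟩ := hT t ht
    rw [e x (B2_le_N3 hx), h.d2 hg hx, mul_inv_cancel_right]
  have t5 : ∀ t ∈ autInducedBy ⊤ (N3 y), ∀ x ∈ B y 5, x⁻¹ * afn t x ∈ B y 2 := fun t ht x hx => by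
    obtain ⟨g, hg, e⟩ := hT t ht
    rw [e x (B5_le_N3 hx)]
    exact h.d5 hg hx
  have ex : ∀ w ∈ B y 2, ∃ t ∈ autInducedBy ⊤ (N3 y), afn t (nf y 90) = nf y 90 * w := fun w hw => by
    obtain ⟨g, hg, e⟩ := h.exists_icj hw
    refine ⟨_, Fus.conjAut_mem_autInducedBy (mem_top g) (h.E1_le_norm hg), ?_⟩
    rw [afn_conjAut _ e3_mem_N3, ← e, icj, mul_inv_cancel_left]
  have mu : ∀ (α : MulAut (N3 y)) {w}, w ∈ B y 2 →
      afn α (nf y 90 * w) = afn α (nf y 90) * afn α w := fun α _ hw =>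
    (homOn_afn α).map_mul e3_mem_N3 (B2_le_N3 hw)
  have hK : F.autGroup (N3 y) ⊓ K3 y ≤ Mx := by
    refine sed_le_of_noncyclic s (Fus.Inn_le_autInducedBy le_top) inf_le_left
      (fun t ht k hk => ⟨mul_mem (mul_mem (s.syl.le ht) hk.1) (Subgroup.inv_mem _ (s.syl.le ht)),
        fun x hx => ?_, ?_⟩) (fun t ht => ?_) (fun a ha b hb => ?_) fun a ha => ?_
    · rw [afn_mul, afn_mul, t2 _ (inv_mem ht) x hx, hk.2.1 x hx, t2 t ht x hx]
    · have hw := t5 _ (inv_mem ht) _ e3_mem_B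
      have e : afn k (afn t⁻¹ (nf y 90)) = afn t⁻¹ (nf y 90) := by
        rw [← mul_inv_cancel_left (nf y 90) (afn t⁻¹ (nf y 90)), mu k hw, hk.2.2, hk.2.1 _ hw]
      rw [afn_mul, afn_mul, e, afn_afn_inv]
    · obtain ⟨g, hg, e⟩ := hT t ht.1
      refine mem_Inn_iff.2 ⟨g, h.mem_N3_of hg ?_, e⟩
      rw [← mul_inv_eq_iff_eq_mul, ← e _ e3_mem_N3, ht.2.2.2]
    · obtain ⟨g, hg, e⟩ := hT a ha
      obtain ⟨g', hg', e'⟩ := hT b hb
      refine mem_Inn_iff.2 ⟨g'⁻¹ * g⁻¹ * g' * g, B5_le_N3 ?_, fun x hx => ?_⟩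
      · simpa [icj, mul_assoc] using h.d9 (inv_mem hg) hg'
      · apply afn_injective (a * b)
        have m := h.conj_N3 (mul_mem (mul_mem (mul_mem (inv_mem hg') (inv_mem hg)) hg') hg) hx
        rw [← afn_mul, mul_inv_cancel_left, afn_mul, afn_mul, e x hx, e' _ (h.conj_N3 hg hx),
          e' _ m, e _ (h.conj_N3 hg' m)]
        group
    · have hw := t5 a ha _ e3_mem_B
      obtain ⟨z, hz, H⟩ := h.exists_not_pow hw
      obtain ⟨t, ht, e⟩ := ex z hz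
      refine ⟨t, ht, fun n hn => H n ?_⟩
      have pw : ∀ n : ℕ, afn (a ^ n) (nf y 90) = nf y 90 * ((nf y 90)⁻¹ * afn a (nf y 90)) ^ n := by
        intro n
        induction n with
        | zero => simp
        | succ n ih =>
          rw [pow_succ', afn_mul, ih, mu a (pow_mem hw n), t2 a ha _ (pow_mem hw n), pow_succ',
            ← mul_assoc, mul_inv_cancel_left]
      obtain ⟨g, hg, e'⟩ := mem_Inn_iff.1 hn
      have := e' _ e3_mem_N3
      rw [h.comm_e3 hg, mul_inv_cancel_right] at this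
      have := congrArg (afn (a ^ n)) this
      rw [← afn_mul, mul_inv_cancel_left, e, pw] at this
      exact (mul_left_cancel this).symm
  obtain ⟨γ, hγ, hγ'⟩ := s.exists_notMem
  obtain ⟨t, ht, e⟩ := ex _ (mB 9 2)
  refine s.conj_notMem hγ hγ' ht (fun hn => ?_) ?_
  · obtain ⟨g, hg, e'⟩ := mem_Inn_iff.1 hn
    rw [e' _ e3_mem_N3, h.comm_e3 hg, mul_inv_cancel_right, left_eq_mul] at e
    exact h.ne e
  have hz : afn γ⁻¹ (nf y 90) ∈ B y 5 := h.mem_V_of fun z hz => by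
    have hz' := B5_le_N3 hz
    have := congrArg (afn γ⁻¹) (h.comm_e3 (afn_mem γ hz'))
    rw [(homOn_afn _).map_mul (afn_mem γ hz') e3_mem_N3,
      (homOn_afn _).map_mul e3_mem_N3 (afn_mem γ hz'), afn_inv_afn] at this
    exact this.symm
  have hw := hB γ _ (t5 t ht _ hz)
  have hz' := B5_le_N3 hz
  rw [(homOn_afn γ).map_mul (inv_mem hz') (afn_mem t hz'), (homOn_afn γ).map_inv hz', afn_afn_inv,
    ← afn_mul, ← afn_mul] at hw
  obtain ⟨u, hu, eu⟩ := ex _ hw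
  have : u⁻¹ * (γ * t * γ⁻¹) ∈ Mx := hK ⟨mul_mem (Subgroup.inv_mem _ (s.syl.le hu))
    (mul_mem (mul_mem hγ (s.syl.le ht)) (Subgroup.inv_mem _ hγ)), fun x hx => by
      rw [afn_mul, afn_mul, afn_mul, t2 t ht _ (hB _ x hx), afn_afn_inv, t2 _ (inv_mem hu) x hx], by
      rw [mul_inv_cancel_left] at eu
      rw [afn_mul, ← eu, afn_inv_afn]⟩
  exact (mul_mem_cancel_left (inv_mem (s.le hu))).1 this

theorem nf_equiv {H : Type*} [Group H] (e : G ≃* H) (c : ℕ) :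
    nf (fun i => e (y i)) c = e (nf y c) := nf_map e.toMonoidHom y c

theorem B_map {H : Type*} [Group H] (e : G ≃* H) (l : ℕ) :
    B (fun i => e (y i)) l = (B y l).map e.toMonoidHom := by
  rw [B, B, MonoidHom.map_closure, Set.image_image]; rfl

theorem E3_map {H : Type*} [Group H] (e : G ≃* H) :
    E3 (fun i => e (y i)) = (E3 y).map e.toMonoidHom := by
  rw [E3, E3, MonoidHom.map_closure]
  simp only [Set.image_insert_eq, Set.image_singleton, nf_equiv]; rfl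

theorem N3_map {H : Type*} [Group H] (e : G ≃* H) :
    N3 (fun i => e (y i)) = (N3 y).map e.toMonoidHom := by
  rw [N3, N3, Subgroup.map_sup, E3_map, B_map]

/-- No conjugate of `N3` is essential. -/
theorem n3 (h : PC y) (F : FusionSystem (⊤ : Subgroup G)) (hF : F.IsSaturated 3) (g : G) :
    ¬ F.IsEssential 3 ((N3 y).map (MulAut.conj g).toMonoidHom) :=
  N3_map (y := y) (MulAut.conj g) ▸ (h.map (MulAut.conj g)).n3 hF

end Cfsg.Agent.ThS
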