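import Cfsg.Agent.Lib.ThS.CkS

/-!
What the check of one node proves.
-/

set_option autoImplicit false
set_option linter.style.haveILetI false

namespace Cfsg.Agent.ThS

open Cfsg.Agent.Fus Cfsg.Agent.Ess Subgroup
open Cfsg.Agent.Fus2 (afn homOn_afn afn_mem)
open scoped commutatorElement

variable {G : Type*} [Group G] {y : ℕ → G} {N : ℕ} {K M : Subgroup G} {lam : G → ZMod 3} {l : ℕ}
  {L : EL}

/-- The subgroup described by a node. -/
def Pn (y : ℕ → G) (N : ℕ) : Subgroup G := closure {x | ∃ j < 5, nf y (sl N j) = x}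

/-- Conjugated generators. -/
def yc (g : G) (y : ℕ → G) : ℕ → G := fun i => MulAut.conj g (y i)

theorem PC.yc (h : PC y) (g : G) : PC (yc g y) := h.map (MulAut.conj g)

theorem nf_yc (g : G) (c : ℕ) : nf (yc g y) c = g * nf y c * g⁻¹ :=
  nf_map (MulAut.conj g).toMonoidHom y c

theorem yc_yc (g k : G) : yc g (yc k y) = yc (g * k) y := funext fun i => by simp [yc, mul_assoc]

theorem yc_one : yc 1 y = y := funext fun i => by simp [yc]

theorem sl_mem {j : ℕ} (hj : j < 5) : nf y (sl N j) ∈ Pn y N := subset_closure ⟨j, hj, rfl⟩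

theorem Pn_le (h : ∀ j < 5, sl N j ≠ 0 → nf y (sl N j) ∈ K) : Pn y N ≤ K := (closure_le _).2 (by
  rintro _ ⟨j, hj, rfl⟩
  by_cases e : sl N j = 0
  · rw [e, nf_zero]; exact K.one_mem
  · exact h j hj e)

/-- All generator codes are in range. -/
def Bd (N : ℕ) : Prop := ∀ j < 5, sl N j < 59049

theorem bd_of (h : allS N (fun x => Nat.blt x 59049) = true) : Bd N := fun j hj => by
  by_cases e : sl N j = 0
  · omega
  · simpa using allS_iff.1 h j hj e

theorem frL_val (h : Rel y) (hb : Bd N) (hs : List ℕ) : ValZ y (phi 3 (Pn y N)) (frL N hs) :=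
  bld_sound h hs _ _ (by
    simp only [List.forall_mem_cons, List.not_mem_nil, false_imp_iff, implies_true, and_true]
    refine ⟨?_, ?_, ?_, ?_, ?_⟩ <;> exact ⟨hb _ (by decide), sl_mem (by decide)⟩)
    fun _ _ _ _ _ => trivial

theorem allL_val (h : Rel y) (hb : Bd N) (hF : ValZ y (phi 3 (Pn y N)) L) (hl : Hm (Pn y N) lam)
    (e : ∀ j < 5, lam (nf y (sl N j)) = (l / 3 ^ j % 3 : ℕ)) : Val y (Pn y N) lam l (allL N L) := by
  have key : ∀ n ≤ 5, Val y (Pn y N) lam l (@Nat.rec (fun _ => EL) L (fun j ih =>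
      bif' (Nat.beq (sl N j) 0) ih (insE (sl N j) (Nat.pow 3 j) ih)) n) := by
    intro n
    induction n with
    | zero => exact fun _ => hF _ _ _ phi_le fun x hx => (hl.phi hx).2
    | succ n ih =>
      intro hn
      change Val _ _ _ _ (bif' _ _ _)
      rw [bif'_eq]
      split_ifs
      · exact ih (by omega)
      · exact (ih (by omega)).insE h (sl_mem hn) (rp_nf (hb n hn)) (e n hn)
  exact key 5 le_rfl

theorem allL_val0 (h : Rel y) (hb : Bd N) (hF : ValZ y (phi 3 (Pn y N)) L) :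
    Val y (Pn y N) 0 0 (allL N L) := allL_val h hb hF hm_zero fun j _ => by simp

theorem ckW_sound (h : PC y) {nd : ℕ → ℕ} {n k t0 u0 w : ℕ} {P : Subgroup G} (hl : Hm P lam)
    (hL : Val y P lam l L) (hL0 : Val y P 0 0 L) {x : G} (hx : x ∈ P) (hu : Rp y u0 x)
    (e : lam x = 1) (hk : len L = k) (hP : Nat.card P = 3 ^ k) (hM : 3 * Nat.card hl.ker = 3 ^ k)
    (hc : centralizer (hl.ker : Set G) ≤ hl.ker)
    (H : ckW nd n L k l t0 u0 (mul u0 u0) w = true) :
    ∃ j < n, ∃ g, rk (nd j) + 1 = k ∧ Pn (yc g y) (nd j) ≤ hl.ker := by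
  generalize hc' : Nat.land (Nat.shiftRight w 1) 65535 = c at H
  change (Nat.blt (Nat.land (Nat.shiftRight w 1) 65535) 59049 && bif' _ _ _) = true at H
  simp only [hc', Bool.and_eq_true, Nat.blt_eq, bif'_eq] at H
  obtain ⟨h1, H⟩ := H
  have hz : Rp y c (nf y c) := rp_nf h1
  split_ifs at H
  · simp only [Bool.and_eq_true, Bool.or_eq_true, Nat.beq_eq] at H
    obtain ⟨⟨⟨a1, a2⟩, a3⟩, a4⟩ := H
    have m1 := ml_sound h.toRel hl hL (t0 := t0) hx hu e
    have hc2 : Nat.card hl.ker = 3 ^ len (ml L l t0 u0 (mul u0 u0)) := by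
      rw [← a2, pow_succ] at hM; omega
    have hm : nf y c ∈ hl.ker := hc fun z hz' =>
      mem_centralizer_singleton_iff.1
        ((allE_sound h.toRel m1 hz a3).pr z (mem_Pr h a1 m1 hc2 hz'))
    exfalso
    rcases a4 with (a4 | a4) | a4
    · exact notIn_sound h hL0 (hk ▸ hP) hz a4 hm.1
    all_goals
      have := (sift_lt h.toRel hl hL hz (by omega)).2
      rw [hm.2, a4] at this
      exact absurd this (by decide)
  · simp only [Bool.and_eq_true, Nat.blt_eq, Nat.beq_eq, allS_iff] at H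
    obtain ⟨⟨a1, a2⟩, a3⟩ := H
    refine ⟨_, a1, nf y c, a2, Pn_le fun j hj hne => ?_⟩
    obtain ⟨b1, b2⟩ := a3 j hj hne
    have := sift_lt h.toRel hl hL (hz.mul3 h.toRel (rp_nf b1) (hz.inv h.toRel)) (by omega)
    rw [nf_yc]
    exact ⟨this.1, by rw [this.2, b2]; rfl⟩

theorem exists_lam [Finite G] {P : Subgroup G} (hG : IsPGroup 3 G) (hMP : M ≤ P)
    (hc : Nat.card P = 3 * Nat.card M) : ∃ (lam : G → ZMod 3) (hl : Hm P lam), hl.ker = M := by
  classical
  haveI : Fact (Nat.Prime 3) := ⟨by norm_num⟩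
  have hi : (M.subgroupOf P).index = 3 := by
    have := (M.subgroupOf P).index_mul_card
    rw [Nat.card_congr (subgroupOfEquivOfLe hMP).toEquiv, hc] at this
    exact Nat.eq_of_mul_eq_mul_right Nat.card_pos this
  haveI := Fit.normal_of_index_eq_prime (hG.to_subgroup P) hi
  let e : (P ⧸ M.subgroupOf P) ≃* Multiplicative (ZMod 3) :=
    mulEquivOfPrimeCardEq (p := 3) hi (by simp)
  refine ⟨fun x => if hx : x ∈ P then (e (QuotientGroup.mk ⟨x, hx⟩)).toAdd else 0,
    fun a ha b hb => ?_, Subgroup.ext fun x => ⟨fun ⟨h1, h2⟩ => ?_, fun hx => ⟨hMP hx, ?_⟩⟩⟩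
  · simp only [dif_pos ha, dif_pos hb, dif_pos (P.mul_mem ha hb)]
    rw [← toAdd_mul, ← map_mul]; rfl
  · simp only [dif_pos h1, toAdd_eq_zero, EmbeddingLike.map_eq_one_iff,
      QuotientGroup.eq_one_iff] at h2
    exact h2
  · simp only [dif_pos (hMP hx), toAdd_eq_zero, EmbeddingLike.map_eq_one_iff,
      QuotientGroup.eq_one_iff]
    exact hx

theorem ckAll_sound (h : PC y) {nd : ℕ → ℕ} {n W : ℕ} (hb : Bd N)
    (hF : ValZ y (phi 3 (Pn y N)) L) (hk : len (allL N L) = rk N)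
    (hP : Nat.card (Pn y N) = 3 ^ rk N) (hMP : M ≤ Pn y N) (hM : 3 * Nat.card M = 3 ^ rk N)
    (hc : centralizer (M : Set G) ≤ M) (H : ckAll nd n N (allL N L) W = true) :
    ∃ j < n, ∃ g, rk (nd j) + 1 = rk N ∧ Pn (yc g y) (nd j) ≤ M := by
  haveI := h.finite
  obtain ⟨lam, hl, rfl⟩ := exists_lam h.pg hMP (hP.trans hM.symm)
  have ex : ∃ j < 5, lam (nf y (sl N j)) ≠ 0 := by
    by_contra hn
    push Not at hn
    have := card_le_of_le (Pn_le (K := hl.ker) fun j hj _ => ⟨sl_mem hj, hn j hj⟩)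
    have := Nat.card_pos (α := hl.ker)
    omega
  obtain ⟨j, hj, h1, h2⟩ : ∃ j < 5, lam (nf y (sl N j)) ≠ 0 ∧
      ∀ i < 5, j < i → lam (nf y (sl N i)) = 0 := by
    classical
    obtain ⟨j, hj, hne⟩ := ex
    refine ⟨Nat.findGreatest (fun j => lam (nf y (sl N j)) ≠ 0) 4,
      Nat.lt_succ_of_le (Nat.findGreatest_le 4),
      Nat.findGreatest_spec (P := fun j => lam (nf y (sl N j)) ≠ 0) (Nat.le_of_lt_succ hj) hne,
      fun i hi hi' => not_not.1 (Nat.findGreatest_is_greatest hi' (Nat.le_of_lt_succ hi))⟩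
  wlog h3 : lam (nf y (sl N j)) = 1 generalizing lam
  · have hl' : Hm (Pn y N) (-lam) := fun a ha b hb => by simp [hl a ha b hb, add_comm]
    have e : hl'.ker = hl.ker := Subgroup.ext fun x => and_congr_right fun _ => neg_eq_zero
    have t : ∀ a : ZMod 3, a ≠ 0 → a ≠ 1 → -a = 1 := by decide
    rw [← e] at hMP hM hc ⊢
    exact this (-lam) hl' hMP hM hc ⟨j, hj, neg_ne_zero.2 h1⟩ (neg_ne_zero.2 h1)
      (fun i hi hi' => neg_eq_zero.2 (h2 i hi hi')) (t _ h1 h3)
  obtain ⟨l, l1, l2, l3⟩ : ∃ l, 3 ^ j ≤ l ∧ l < 2 * 3 ^ j ∧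
      ∀ i < 5, lam (nf y (sl N i)) = (l / 3 ^ i % 3 : ℕ) := by
    let a := fun i => (lam (nf y (sl N i))).val
    have a1 : ∀ i, a i < 3 := fun i => ZMod.val_lt _
    have a2 : a j = 1 := by simp only [a, h3]; rfl
    have a3 : ∀ i < 5, j < i → a i = 0 := fun i hi hi' => by simp only [a, h2 i hi hi']; rfl
    have := a1 0; have := a1 1; have := a1 2; have := a1 3; have := a1 4
    have := a3 1; have := a3 2; have := a3 3; have := a3 4
    refine ⟨a 0 + 3 * a 1 + 9 * a 2 + 27 * a 3 + 81 * a 4, ?_, ?_, fun i hi => ?_⟩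
    · interval_cases j <;> omega
    · interval_cases j <;> omega
    · rw [← ZMod.natCast_zmod_val (lam _)]
      congr 1
      change a i = _
      interval_cases i <;> omega
  have hne : sl N j ≠ 0 := fun e => h1 (by rw [e, nf_zero, hl.one])
  have H := allLt_iff.1 H j hj
  change bif' (Nat.beq (sl N j) 0) true (allLt (3 ^ j) _) = true at H
  simp only [bif'_eq, Nat.beq_eq, if_neg hne] at H
  have H := allLt_iff.1 H (l - 3 ^ j) (by omega)
  change ckW nd n _ _ (3 ^ j + (l - 3 ^ j)) _ _ _ _ = true at H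
  rw [Nat.add_sub_cancel' l1] at H
  exact ckW_sound h hl (allL_val h.toRel hb hF hl l3) (allL_val0 h.toRel hb hF) (sl_mem hj)
    (rp_nf (hb j hj)) h3 hk hP hM hc H

theorem mem_ucs_succ {P : Subgroup G} {k : ℕ} {x : G} (hx : x ∈ P) :
    x ∈ ucs P (k + 1) ↔ ∀ z ∈ P, ⁅x, z⁆ ∈ ucs P k := by
  refine ⟨fun h z hz => ucs_commutator k (commutator_mem_commutator h hz), fun h => ?_⟩
  refine ⟨⟨x, hx⟩, Subgroup.mem_upperCentralSeries_succ_iff.2 fun z => ?_, rfl⟩
  obtain ⟨w, hw, e⟩ := h z z.2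
  exact (Subtype.ext e : w = ⁅(⟨x, hx⟩ : P), z⁆) ▸ hw

theorem le_normalizer_ucs {P : Subgroup G} (k : ℕ) : P ≤ normalizer (ucs P k : Set G) :=
  le_normalizer_iff.2 (by
    rintro g hg _ ⟨x, hx, rfl⟩
    exact ⟨_, (inferInstance : (Subgroup.upperCentralSeries P k).Normal).conj_mem x hx ⟨g, hg⟩, rfl⟩)

theorem zk_iff (h : Rel y) (hb : Bd N) (k : ℕ) : ∀ {c : ℕ} {x : G}, Rp y c x → x ∈ Pn y N →
    (zk N k c = true ↔ x ∈ ucs (Pn y N) k) := by
  induction k with
  | zero =>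
    intro c x hc _
    rw [ucs_zero, mem_bot, hc.eq_iff h Rp.one]
    exact Nat.beq_eq ▸ Iff.rfl
  | succ k ih =>
    intro c x hc hx
    change allS N (fun d => zk N k (cm c d)) = true ↔ _
    rw [allS_iff, mem_ucs_succ hx]
    have i := fun j (hj : j < 5) =>
      ih (hc.cm h (rp_nf (hb j hj))) (comm_mem_of_mem hx (sl_mem hj))
    refine ⟨fun H z hz => ?_, fun H j hj _ => (i j hj).2 (H _ (sl_mem hj))⟩
    have := Pn_le (K := dS (Pn y N) (ucs (Pn y N) k) x (le_normalizer_ucs k)) (y := y) (N := N)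
      (fun j hj hne => ⟨sl_mem hj, by
        have := (le_normalizer_ucs k (inv_mem (sl_mem hj)) _).1 ((i j hj).1 (H j hj hne))
        simpa [commutatorElement_def, mul_assoc] using this⟩) hz
    have := (le_normalizer_ucs k hz _).1 this.2
    simpa [commutatorElement_def, mul_assoc] using this

/-- The invariant properties. -/
def QP (q : ℕ) (P : Subgroup G) (x : G) : Prop :=
  if q = 0 then x ^ 3 = 1 else if q = 1 then x ^ 3 ≠ 1 else x ∈ ucs P (q - 1)

theorem qq_iff (h : Rel y) (hb : Bd N) (q : ℕ) {c : ℕ} {x : G} (hc : Rp y c x) (hx : x ∈ Pn y N) :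
    qq N q c = true ↔ QP q (Pn y N) x := by
  simp only [qq, QP, bif'_eq, Nat.beq_eq]
  split_ifs
  · rw [(hc.cb h).eq_iff h Rp.one, Nat.beq_eq]
  · rw [Ne, (hc.cb h).eq_iff h Rp.one, ← Nat.beq_eq, Bool.not_eq_true', Bool.not_eq_true]
  · exact zk_iff h hb _ hc hx

theorem QP.aut {q : ℕ} {P : Subgroup G} (α : MulAut P) {x : G} (hx : x ∈ P) (h : QP q P x) :
    QP q P (afn α x) := by
  have e : afn α x ^ 3 = 1 ↔ x ^ 3 = 1 := by
    rw [← (homOn_afn α).map_pow hx, ← (homOn_afn α).map_one, (Fus2.afn_injective α).eq_iff,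
      (homOn_afn α).map_one]
  unfold QP at h ⊢
  split_ifs at h ⊢
  exacts [e.2 h, fun e' => h (e.1 e'), mem_of_char (ucs_characteristic _) α hx h]

/-- The elements that do not influence the property. -/
def SK (q : ℕ) (P : Subgroup G) : Subgroup G :=
  if q ≤ 1 then
    { carrier := {x | x ^ 3 = 1 ∧ x ∈ P ∧ ∀ z ∈ P, Commute x z}
      one_mem' := ⟨one_pow 3, P.one_mem, fun z _ => Commute.one_left z⟩
      mul_mem' := fun ha hb => ⟨by rw [(ha.2.2 _ hb.2.1).mul_pow, ha.1, hb.1, one_mul],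
        P.mul_mem ha.2.1 hb.2.1, fun z hz => (ha.2.2 z hz).mul_left (hb.2.2 z hz)⟩
      inv_mem' := fun ha => ⟨by rw [inv_pow, ha.1, inv_one], P.inv_mem ha.2.1,
        fun z hz => (ha.2.2 z hz).inv_left⟩ }
  else ucs P (q - 1)

theorem le_normalizer_SK (q : ℕ) (P : Subgroup G) : P ≤ normalizer (SK q P : Set G) := by
  unfold SK
  split_ifs
  · exact le_normalizer_iff.2 fun g hg x hx => by
      rw [← (hx.2.2 g hg).eq, mul_inv_cancel_right]; exact hx
  · exact le_normalizer_ucs _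

theorem QP.of_SK {q : ℕ} {P : Subgroup G} {w x : G} (hw : w ∈ P) (h : w⁻¹ * x ∈ SK q P)
    (hx : QP q P x) : QP q P w := by
  unfold SK at h
  unfold QP at hx ⊢
  have e : q ≤ 1 → x ^ 3 = w ^ 3 := fun hq => by
    rw [if_pos hq] at h
    have := (h.2.2 w hw).symm.mul_pow 3
    rwa [h.1, mul_one, mul_inv_cancel_left] at this
  split_ifs at hx ⊢
  · rwa [← e (by omega)]
  · rwa [← e (by omega)]
  · rw [if_neg (by omega)] at h
    simpa using mul_mem hx (inv_mem h)

theorem sk_sound (h : Rel y) (hb : Bd N) (q : ℕ) {c : ℕ} {x : G} (hc : Rp y c x) (hx : x ∈ Pn y N)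
    (e : sk N q c = true) : x ∈ SK q (Pn y N) := by
  simp only [sk, bif'_eq, Nat.ble_eq] at e
  unfold SK
  split_ifs at e ⊢
  · simp only [Bool.and_eq_true, Nat.beq_eq] at e
    refine ⟨((hc.cb h).eq_iff h Rp.one).2 e.1, hx, fun z hz => ?_⟩
    have := (mem_ucs_succ hx).1 ((zk_iff h hb 1 hc hx).1 e.2) z hz
    rwa [ucs_zero, mem_bot, commutatorElement_eq_one_iff_commute] at this
  · exact (zk_iff h hb _ hc hx).1 e

theorem delta_all [Finite G] {P R : Subgroup G} (h₂ : R ≤ P) {g : G}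
    {hn : P ≤ normalizer (R : Set G)} (h : P ≤ dS P R g hn) : g ∈ normalizer (P : Set G) :=
  mem_normalizer_of_conj_mem fun x hx => by simpa using P.mul_mem hx (h₂ (h hx).2)

theorem phi_le_dS {P : Subgroup G} {g : G}
    (hg : g ∈ normalizer (P : Set G)) :
    phi 3 P ≤ dS P (phi 3 P) g (le_normalizer_of_phi_le le_rfl phi_le) := fun x hx =>
  ⟨phi_le hx, mul_mem (inv_mem hx) ((normalizer_le_normalizer_phi hg x).1 hx)⟩

theorem kill_sound (h : PC y) {F : FusionSystem (⊤ : Subgroup G)} (hF : F.IsSaturated 3)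
    (hb : Bd N) (hL : ValZ y (phi 3 (Pn y N)) L) (hk : len (allL N L) = rk N)
    (hP : Nat.card (Pn y N) = 3 ^ rk N) (hE : F.IsEssential 3 (Pn y N)) {d : ND}
    (H : kill N L (allL N L) d = true) : rk N = 10 ∨ N = 1094424808242911769 ∨
      N = 364841668609101369 ∨ N = 295161422166083348805 ∨ N = 2656452749373487556935 ∨
      N = 364808270943407672 := by
  haveI := h.finite
  have r := h.toRel
  have hA := allL_val0 r hb hL
  rw [kill, bif'_eq] at H
  split_ifs at H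
  · simpa only [Bool.or_eq_true, Nat.beq_eq, or_assoc] using H
  exfalso
  change (Nat.blt d.g 59049 && notIn _ d.g && bif' _ _ (bif' _ _ _)) = true at H
  simp only [Bool.and_eq_true, Nat.blt_eq, bif'_eq] at H
  obtain ⟨⟨g1, g2⟩, H⟩ := H
  have hg : Rp y d.g (nf y d.g) := rp_nf g1
  have ni : ∀ {c : ℕ} {z : G}, Rp y c z → notIn (allL N L) c = true → z ∉ Pn y N :=
    fun hz e => notIn_sound h hA (hk ▸ hP) hz e
  have gen : ∀ {R : Subgroup G} {L' : EL} (h₁ : phi 3 (Pn y N) ≤ R) (h₂ : R ≤ Pn y N),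
      ValZ y R L' → allS N (fun x => isIn L' (dl d.g (inv d.g) x)) = true →
      Pn y N ≤ dS (Pn y N) R (nf y d.g) (le_normalizer_of_phi_le h₁ h₂) := fun h₁ h₂ hv e =>
    Pn_le fun j hj hne => ⟨sl_mem hj, isIn_sound r hv.val (hg.dl r (rp_nf (hb j hj)))
      (allS_iff.1 e j hj hne)⟩
  have iphi : ∀ α : MulAut (Pn y N), ∀ x ∈ phi 3 (Pn y N), afn α x ∈ phi 3 (Pn y N) :=
    fun α x hx => mem_of_char (by
      rw [phi_subgroupOf le_rfl, subgroupOf_self, phi_top (h.pg.to_subgroup _)]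
      infer_instance) α (phi_le hx) hx
  split_ifs at H
  · have a := gen le_rfl phi_le hL H
    exact ni hg g2 (mem_of_chain h.pg_top hF hE iphi (mem_top _) (delta_all phi_le a)
      (fun x hx => (a hx).2) le_rfl fun x hx => (a (phi_le hx)).2)
  · simp only [Bool.and_eq_true, allN_iff, Nat.blt_eq, Nat.beq_eq] at H
    obtain ⟨⟨⟨⟨⟨a1, a2⟩, a3⟩, a4⟩, a5⟩, a6⟩ := H
    let R := closure {x | x ∈ Pn y N ∧ QP d.a (Pn y N) x} ⊔ phi 3 (Pn y N)
    have hR : R ≤ Pn y N := sup_le ((closure_le _).2 fun x hx => hx.1) phi_le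
    have a := gen le_sup_right hR (ext_sound r d.qs L (fun q hq => by
      obtain ⟨⟨b1, b2⟩, b3⟩ := a1 q hq
      have := isIn_sound r hA (rp_nf b1) b2
      exact ⟨b1, mem_sup_left (subset_closure ⟨this, (qq_iff r hb _ (rp_nf b1) this).1 b3⟩)⟩)
      (hL.mono le_sup_right)) a2
    have hN := delta_all hR a
    let A := dS (Pn y N) (phi 3 (Pn y N)) (nf y d.g) (le_normalizer_of_phi_le le_rfl phi_le)
    have hA1 : phi 3 (Pn y N) ≤ A := phi_le_dS hN
    obtain ⟨v1, v2⟩ := mkL_sound r (P := Pn y N) (K := SK d.a (Pn y N) ⊓ A) (ls := d.ls)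
      fun q hq => by
        obtain ⟨⟨b1, b2⟩, b3⟩ := a3 q hq
        have := isIn_sound r hA (rp_nf b1) b2
        refine ⟨b1, this, fun e => ?_⟩
        rw [if_pos (show q.mod 2 = 1 from e), Bool.and_eq_true] at b3
        exact ⟨sk_sound r hb _ (rp_nf b1) this b3.1, this,
          isIn_sound r hL.val (hg.dl r (rp_nf b1)) b3.2⟩
    refine ni hg g2 (mem_of_chain (R := R) h.pg_top hF hE (fun α x hx => ?_) (mem_top _) hN
      (fun x hx => (a hx).2) le_sup_right fun x hx => (show R ≤ A from sup_le ((closure_le _).2 ?_)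
        hA1) hx |>.2)
    · have : R ≤ (R.comap ((Pn y N).subtype.comp α.toMonoidHom)).map (Pn y N).subtype :=
        sup_le ((closure_le _).2 fun x hx => ⟨⟨x, hx.1⟩, by
          have := QP.aut α hx.1 hx.2
          rw [Fus2.afn_apply α hx.1] at this
          exact mem_sup_left (subset_closure ⟨(α _).2, this⟩), rfl⟩)
          fun x hx => ⟨⟨x, phi_le hx⟩, by
            have := iphi α x hx
            rw [Fus2.afn_apply α (phi_le hx)] at this
            exact mem_sup_right this, rfl⟩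
      obtain ⟨z, hz, rfl⟩ := this hx
      exact (Fus2.afn_coe α z).symm ▸ hz
    · rintro x ⟨hx, hq⟩
      obtain ⟨c, w, hw, c1, c2, c3⟩ := enum_sound r (fun g hg => mem_normalizer_inf
        (le_normalizer_SK _ _ hg) (le_normalizer_of_phi_le hA1 (fun x hx => hx.1) hg)) v1 v2 Rp.one
        a6 x (mem_Pr h a4 v1.mem (a5 ▸ hP) hx)
      rw [one_mul] at c1
      rw [if_pos ((qq_iff r hb _ c1 hw).2 (hq.of_SK hw c3.1))] at c2
      have : w ∈ A := ⟨hw, isIn_sound r hL.val (hg.dl r c1) c2⟩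
      simpa using A.mul_mem this c3.2
  · simp only [Bool.and_eq_true, Nat.blt_eq] at H
    obtain ⟨⟨⟨⟨⟨⟨⟨⟨a1, a2⟩, a3⟩, a4⟩, a5⟩, a6⟩, a7⟩, a8⟩, a9⟩ := H
    have ht : Rp y d.a (nf y d.a) := rp_nf a1
    have hc := isIn_sound r hA (rp_nf a2) a3
    have a := gen (R := zpowers (nf y d.b) ⊔ phi 3 (Pn y N)) le_sup_right
      (sup_le (zpowers_le.2 hc) phi_le) (ext_sound r [d.b] L (fun q hq => by
        rw [List.mem_singleton.1 hq]
        exact ⟨a2, mem_sup_left (mem_zpowers _)⟩) (hL.mono le_sup_right)) a4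
    refine tv h.pg_top hF hE (mem_top _) (mem_top (nf y d.a))
      (delta_all (sup_le (zpowers_le.2 hc) phi_le) a)
      (mem_normalizer_of_conj_mem fun x hx => ?_) hc (fun x hx => (a hx).2)
      (isIn_sound r hL.val (hg.dl r (rp_nf a2)) a5) (ni hg g2) fun k hk => ?_
    · exact Pn_le (K := (Pn y N).comap (MulAut.conj (nf y d.a)).toMonoidHom) (fun j hj hne =>
        isIn_sound r hA (ht.mul3 r (rp_nf (hb j hj)) (ht.inv r)) (allS_iff.1 a6 j hj hne)) hx
    · interval_cases k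
      · simpa using ni ht a7
      · simpa using ni (hg.mul r ht) a8
      · simpa [sq] using ni (hg.mul3 r hg ht) a9

end Cfsg.Agent.ThS
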