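import Cfsg.Agent.Lib.ThS.E3L
import Cfsg.Agent.Lib.ThS.Str
import Cfsg.Agent.Lib.Fus2.SatFn

/-!
Two-dimensional sections and the automorphisms inverting them.
-/

set_option autoImplicit false
set_option linter.style.haveILetI false
set_option linter.unusedSectionVars false
set_option linter.unusedVariables false

namespace Cfsg.Agent.ThS

open Subgroup Cfsg.Agent.Fus2 Cfsg.Agent.Ess
open Cfsg.Agent.Fus (IsSylowIn conjAut)
open L (K T M2 ap)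

variable {G : Type*} [Group G]

/-- Transvections. -/
def tvz (r : K) (w : T) : T := (w.1, w.2 - r * w.1)

theorem tv_tv : ∀ (r s : K) (w : T), tvz r (tvz s w) = tvz (r + s) w := by decide +kernel
theorem tv_zero : ∀ w : T, tvz 0 w = w := by decide +kernel
theorem neg_tv : ∀ (r : K) (w : T), -tvz r (-w) = tvz r w := by decide +kernel

set_option synthInstance.maxSize 1024 in
theorem two_tv : ∀ m m' : M2, (∀ w, ap m (ap m' w) = w) → m.2.1 ≠ 0 → ∀ i ≠ 0, ∃ k,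
    (k = i ∨ k = i + i) ∧ ∀ w, tvz i (ap m (tvz k (ap m' (tvz i (ap m (tvz k (ap m' w))))))) = -w := by
  decide +kernel

/-- `f` acts on the section as `φ`. -/
def Ac (N : Subgroup G) (j : T → G) (f : G → G) (φ : T → T) : Prop :=
  ∀ w, ((f (j w) : G) : G ⧸ N) = j (φ w)

/-- Coordinates on the section `A / N`, centralized by `E`. -/
structure Sec (E A N : Subgroup G) [N.Normal] (j : T → G) : Prop where
  AE : A ≤ E
  NA : N ≤ A
  mem : ∀ w, j w ∈ A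
  add : ∀ w w', ((j (w + w') : G) : G ⧸ N) = (j w : G ⧸ N) * j w'
  inj : ∀ w w', ((j w : G) : G ⧸ N) = j w' → w = w'
  surj : ∀ x ∈ A, ∃ w, (x : G ⧸ N) = j w
  cen : ∀ g, ∀ x ∈ N, g * x = x * g
  act : ∀ g : G, ∃ r, Ac N j (fun x => g * x * g⁻¹) (tvz r) ∧ (r = 0 → g ∈ E)

theorem Ac.congr {N : Subgroup G} {j : T → G} {f : G → G} {φ ψ : T → T} (h : Ac N j f φ)
    (e : ∀ w, φ w = ψ w) : Ac N j f ψ := fun w => e w ▸ h w

namespace Sec

variable {E A N : Subgroup G} [N.Normal] {j : T → G} (s : Sec E A N j) {f g : G → G}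
  {φ ψ : T → T}
include s

theorem cong (hf : HomOn A f) (hN : ∀ x ∈ N, f x ∈ N) {x z : G} (hx : x ∈ A) (hz : z ∈ A)
    (e : (x : G ⧸ N) = z) : ((f x : G) : G ⧸ N) = f z := by
  rw [QuotientGroup.eq] at e ⊢
  rw [← hf.map_inv hx, ← hf.map_mul (inv_mem hx) hz]
  exact hN _ e

theorem comp (hf : HomOn A f) (hN : ∀ x ∈ N, f x ∈ N) (hg : ∀ x ∈ A, g x ∈ A) (h₁ : Ac N j f φ)
    (h₂ : Ac N j g ψ) : Ac N j (fun x => f (g x)) fun w => φ (ψ w) := fun w =>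
  (s.cong hf hN (hg _ (s.mem w)) (s.mem _) (h₂ w)).trans (h₁ _)

theorem uniq (h₁ : Ac N j f φ) (h₂ : Ac N j f ψ) (w : T) : φ w = ψ w :=
  s.inj _ _ ((h₁ w).symm.trans (h₂ w))

theorem of_eq (h : Ac N j f φ) (e : ∀ x ∈ A, g x = f x) : Ac N j g φ := fun w =>
  e _ (s.mem w) ▸ h w

theorem exists_ac (hf : HomOn A f) (hN : ∀ x ∈ N, f x ∈ N) (hA : ∀ x ∈ A, f x ∈ A) :
    ∃ m, Ac N j f (ap m) := by
  choose φ hφ using fun w => s.surj _ (hA _ (s.mem w))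
  let χ : T →+ T := AddMonoidHom.mk' φ fun w w' => s.inj _ _ (by
    rw [← hφ, s.add, ← hφ, ← hφ, ← QuotientGroup.mk_mul, ← hf.map_mul (s.mem _) (s.mem _)]
    exact s.cong hf hN (s.mem _) (mul_mem (s.mem _) (s.mem _)) (s.add w w'))
  refine ⟨(φ (1, 0), φ (0, 1)), fun w => (hφ w).trans ?_⟩
  have e : φ w = χ.toZModLinearMap 3 (w.1 • (1, 0) + w.2 • (0, 1)) := by rw [← L.T_dec]; rfl
  rw [L.ap_eq, e, map_add, map_smul, map_smul]; rfl

variable {B : Subgroup (MulAut E)}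
  (hB : ∀ β ∈ B, (∀ x ∈ A, afn β x ∈ A) ∧ ∀ x ∈ N, afn β x ∈ N) {α β : MulAut E}
include hB

theorem mul (hα : α ∈ B) (hβ : β ∈ B) (h₁ : Ac N j (afn α) φ) (h₂ : Ac N j (afn β) ψ) :
    Ac N j (afn (α * β)) fun w => φ (ψ w) :=
  s.of_eq (s.comp ((homOn_afn α).mono s.AE) (hB α hα).2 (hB β hβ).1 h₁ h₂) fun x _ => afn_mul α β x

theorem inv (hα : α ∈ B) (h : Ac N j (afn α) φ) (e : ∀ w, φ (ψ w) = w) : Ac N j (afn α⁻¹) ψ :=
  fun w => by
    have := s.cong ((homOn_afn α⁻¹).mono s.AE) (hB _ (inv_mem hα)).2 ((hB α hα).1 _ (s.mem _))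
      (s.mem _) (h (ψ w))
    rw [afn_inv_afn, e] at this
    exact this.symm

theorem exists_ac' (hα : α ∈ B) : ∃ m, Ac N j (afn α) (ap m) :=
  s.exists_ac ((homOn_afn α).mono s.AE) (hB α hα).2 (hB α hα).1

end Sec

/-- The automorphisms in `B` which are trivial modulo `X` and on `N`. -/
def trv {E : Subgroup G} (B : Subgroup (MulAut E)) (X N : Subgroup G) (hX : X ≤ E)
    (hB : ∀ β ∈ B, ∀ x ∈ X, afn β x ∈ X) : Subgroup (MulAut E) where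
  carrier := {β | β ∈ B ∧ (∀ x ∈ E, x⁻¹ * afn β x ∈ X) ∧ ∀ x ∈ N, afn β x = x}
  one_mem' := ⟨one_mem _, fun x _ => by simp [afn_one], fun x _ => afn_one x⟩
  mul_mem' {α β} hα hβ := ⟨mul_mem hα.1 hβ.1, fun x hx => by
    have := mul_mem (hα.2.1 x hx) (hB α hα.1 _ (hβ.2.1 x hx))
    rwa [(homOn_afn α).map_mul (inv_mem hx) (afn_mem β hx), (homOn_afn α).map_inv hx, mul_assoc,
      mul_inv_cancel_left, ← afn_mul] at this, fun x hx => by
    rw [afn_mul, hβ.2.2 x hx, hα.2.2 x hx]⟩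
  inv_mem' {α} hα := ⟨inv_mem hα.1, fun x hx => by
    have := inv_mem (hα.2.1 _ (afn_mem α⁻¹ hx))
    rwa [afn_afn_inv, mul_inv_rev, inv_inv] at this, fun x hx => by
    conv_lhs => rw [← hα.2.2 x hx, afn_inv_afn]⟩

theorem trv_conj {E : Subgroup G} {B : Subgroup (MulAut E)} {X N : Subgroup G} {hX : X ≤ E}
    {hB : ∀ β ∈ B, ∀ x ∈ X, afn β x ∈ X} (hN : ∀ β ∈ B, ∀ x ∈ N, afn β x ∈ N) {α β : MulAut E}
    (hα : α ∈ B) (hβ : β ∈ trv B X N hX hB) : α * β * α⁻¹ ∈ trv B X N hX hB :=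
  ⟨mul_mem (mul_mem hα hβ.1) (inv_mem hα), fun x hx => by
    have := hB α hα _ (hβ.2.1 _ (afn_mem α⁻¹ hx))
    rwa [(homOn_afn α).map_mul (inv_mem (afn_mem _ hx)) (afn_mem β (afn_mem _ hx)),
      (homOn_afn α).map_inv (afn_mem _ hx), afn_afn_inv, ← afn_mul, ← afn_mul] at this,
    fun x hx => by rw [afn_mul, afn_mul, hβ.2.2 _ (hN _ (inv_mem hα) x hx), afn_afn_inv]⟩

theorem normal_of_sc {F : FusionSystem (⊤ : Subgroup G)} {R : Subgroup G}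
    (hR : F.StronglyClosed R) : R.Normal :=
  normalizer_eq_top_iff.1 (eq_top_iff.2 (sc_le_normalizer hR))

theorem phi_inv {E : Subgroup G} (β : MulAut E) : ∀ x ∈ phi 3 E, afn β x ∈ phi 3 E := fun _ hx =>
  ((phi_le_iff (D := pre (homOn_afn β) (phi 3 E))).2 ⟨fun z hz => ⟨pow_mem hz 3, by
    rw [(homOn_afn β).map_pow hz]; exact pow_mem_phi (afn_mem β hz)⟩, fun z hz w hw =>
      ⟨comm_mem_of_mem hz hw, by
        rw [(homOn_afn β).map_comm hz hw]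
        exact comm_mem_phi (afn_mem β hz) (afn_mem β hw)⟩⟩ hx).2

theorem icj_mem_phi {E : Subgroup G} {g x : G} (hg : g ∈ E) (hx : x ∈ E) : icj g x ∈ phi 3 E := by
  have := comm_mem_phi (p := 3) (inv_mem hx) hg
  rwa [commutatorElement_def, inv_inv, mul_assoc, mul_assoc, ← mul_assoc g] at this

/-- An automorphism of the whole group inverting the section. -/
theorem Sec.twist [Finite G] [Fact (Nat.Prime 3)] (hG : IsPGroup 3 (⊤ : Subgroup G))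
    {F : FusionSystem (⊤ : Subgroup G)} (hF : F.IsSaturated 3) {E A N : Subgroup G} [E.Normal]
    [N.Normal] {j : T → G} (s : Sec E A N j)
    (hB : ∀ β ∈ F.autGroup E, (∀ x ∈ A, afn β x ∈ A) ∧ ∀ x ∈ N, afn β x ∈ N) {α : MulAut E}
    (hα : α ∈ F.autGroup E) (hmv : ∀ m, Ac N j (afn α) (ap m) → m.2.1 ≠ 0) {R : Subgroup G}
    (hR : F.StronglyClosed R) (hRE : ¬ R ≤ E) (hs : R ⊔ E = ⊤) :
    ∃ τ, M F ⊤ τ ∧ (∀ x ∈ E, x⁻¹ * τ x ∈ R ⊔ phi 3 E) ∧ (∀ x ∈ N, τ x = x) ∧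
      ∃ r, Ac N j τ fun w => tvz r (-w) := by
  haveI := normal_of_sc hR
  haveI : (phi 3 E).Normal := normal_phi
  have nE : ∀ g : G, g ∈ normalizer (E : Set G) := fun g => (normalizer_eq_top E).ge trivial
  have hfn : F.IsFullyNormalized E := Fus.isFullyNormalized_of_normal le_top fun g _ => nE g
  have hX : R ⊓ E ⊔ phi 3 E ≤ E := sup_le inf_le_right phi_le
  have iX : ∀ β ∈ F.autGroup E, ∀ x ∈ R ⊓ E ⊔ phi 3 E, afn β x ∈ R ⊓ E ⊔ phi 3 E := fun β hβ x hx =>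
    ((sup_le (fun z (hz : z ∈ R ⊓ E) => ⟨hz.2, mem_sup_left ⟨(Fus.M_afn le_top hβ).mem_of_sc hR
      hz.2 hz.1, afn_mem β hz.2⟩⟩) (fun z hz => ⟨phi_le hz, mem_sup_right (phi_inv β z hz)⟩) :
        R ⊓ E ⊔ phi 3 E ≤ pre (homOn_afn β) (R ⊓ E ⊔ phi 3 E)) hx).2
  have cK : ∀ g, conjAut E g (nE g) ∈ trv (F.autGroup E) _ N hX iX := fun g =>
    ⟨Fus.conjAut_mem_autGroup le_top trivial _, fun x hx => by
      rw [afn_conjAut _ hx]
      refine icj_mem_iff.2 (mem_centralizer_singleton_iff.1 ((sup_le (fun t ht => ?_) fun t ht => ?_ :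
        R ⊔ E ≤ (centralizer {(x : G ⧸ (R ⊓ E ⊔ phi 3 E))}).comap (QuotientGroup.mk' _))
          (hs.ge trivial)))
      · refine mem_centralizer_singleton_iff.2 (icj_mem_iff.1 (mem_sup_left ⟨?_, ?_⟩))
        · have := R.mul_mem (‹R.Normal›.conj_mem t ht x⁻¹) (R.inv_mem ht)
          rw [inv_inv, mul_assoc, mul_assoc, ← mul_assoc t] at this
          exact this
        · exact E.mul_mem (E.inv_mem hx) (‹E.Normal›.conj_mem x hx t)
      · exact mem_centralizer_singleton_iff.2 (icj_mem_iff.1 (mem_sup_right (icj_mem_phi ht hx))),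
      fun x hx => by rw [afn_conjAut _ (s.AE (s.NA hx)), s.cen g x hx, mul_inv_cancel_right]⟩
  have cA : ∀ g, ∃ r, Ac N j (afn (conjAut E g (nE g))) (tvz r) ∧ (r = 0 → g ∈ E) := fun g =>
    (s.act g).imp fun r hr => ⟨s.of_eq hr.1 fun x hx => afn_conjAut _ (s.AE hx), hr.2⟩
  let H : Subgroup (MulAut E) :=
    { carrier := {β | β ∈ trv (F.autGroup E) _ N hX iX ∧ ∃ r, Ac N j (afn β) (tvz r)}
      one_mem' := ⟨one_mem _, 0, fun w => by rw [afn_one, tv_zero]⟩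
      mul_mem' := fun ⟨h₁, r, e₁⟩ ⟨h₂, r', e₂⟩ => ⟨mul_mem h₁ h₂, r + r',
        (s.mul hB h₁.1 h₂.1 e₁ e₂).congr (tv_tv r r')⟩
      inv_mem' := fun ⟨h₁, r, e₁⟩ => ⟨inv_mem h₁, -r, s.inv hB h₁.1 e₁ fun w => by
        rw [tv_tv, add_neg_cancel, tv_zero]⟩ }
  obtain ⟨t, ht, htE⟩ := SetLike.not_le_iff_exists.1 hRE
  obtain ⟨i, hi, hi0⟩ := cA t
  obtain ⟨m, hm⟩ := s.exists_ac' hB hα
  obtain ⟨m', hm'⟩ := s.exists_ac' hB (inv_mem hα)
  obtain ⟨k, hk, ek⟩ := two_tv m m' (s.uniq (s.mul hB hα (inv_mem hα) hm hm') (φ := _)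
    (ψ := fun w => w) fun w => by rw [mul_inv_cancel, afn_one]) (hmv m hm) i (mt hi0 htE)
  obtain ⟨d, hd, ed⟩ : ∃ d ∈ trv (F.autGroup E) _ N hX iX, Ac N j (afn d) (tvz k) := by
    rcases hk with rfl | rfl
    exacts [⟨_, cK t, hi⟩, ⟨_, mul_mem (cK t) (cK t),
      (s.mul hB (cK t).1 (cK t).1 hi hi).congr (tv_tv i i)⟩]
  have hN := fun β hβ => (hB β hβ).2
  have p₁ := mul_mem (cK t) (trv_conj hN hα hd)
  have a₁ := s.mul hB (cK t).1 (trv_conj hN hα hd).1 hi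
    (s.mul hB (mul_mem hα hd.1) (inv_mem hα) (s.mul hB hα hd.1 hm ed) hm')
  have p₂ := mul_mem p₁ p₁
  have a₂ := (s.mul hB p₁.1 p₁.1 a₁ a₁).congr ek
  generalize conjAut E t (nE t) * (α * d * α⁻¹) * (conjAut E t (nE t) * (α * d * α⁻¹)) = κ at p₂ a₂
  have hTH : autInducedBy ⊤ E ≤ H := fun β hβ => by
    obtain ⟨g, hg, rfl⟩ := Fus.mem_autInducedBy_iff'.1 hβ
    exact ⟨cK g, (cA g).imp fun _ h => h.1⟩
  have hκ : κ ∈ normalizer (H : Set (MulAut E)) :=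
    Fus.mem_normalizer_of_conj_mem fun β ⟨h₁, r, e⟩ => ⟨trv_conj hN p₂.1 h₁, r,
      (s.mul hB (mul_mem p₂.1 h₁.1) (inv_mem p₂.1) (s.mul hB p₂.1 h₁.1 a₂ e)
        (s.inv hB p₂.1 a₂ neg_neg)).congr (neg_tv r)⟩
  obtain ⟨n, ⟨hn, r, er⟩, hnκ⟩ :=
    ((Fus.sat_sylow hG hF hfn).of_le hTH fun β hβ => hβ.1.1).frattini hκ
  obtain ⟨τ, hτ, eτ⟩ := ext_of_normalizes (Fus.sat_receptive hG hF hfn) le_rfl
    (mul_mem hn.1 p₂.1) (fun a ha => (hnκ a).1 ha) (N := ⊤) (fun g _ => ⟨trivial, nE g⟩)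
    fun g _ => Fus.conjAut_mem_autInducedBy (mem_top g) _
  rw [sup_top_eq] at hτ
  have p₃ := mul_mem hn p₂
  have hle : R ⊓ E ⊔ phi 3 E ≤ R ⊔ phi 3 E := sup_le_sup_right inf_le_left _
  exact ⟨τ, hτ, fun x hx => eτ x hx ▸ hle (p₃.2.1 x hx),
    fun x hx => (eτ x (s.AE (s.NA hx))).trans (p₃.2.2 x hx), r,
    s.of_eq (s.mul hB hn.1 p₂.1 er a₂) fun x hx => eτ x (s.AE hx)⟩

end Cfsg.Agent.ThS
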