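import Cfsg.Agent.Lib.ThS.Data0
import Cfsg.Agent.Lib.ThS.Defs

/-!
Arithmetic of codes by table lookup, and the consistency checks of the tables.
-/

set_option autoImplicit false
set_option Elab.async false

namespace Cfsg.Agent.ThS

/-- List access. -/
noncomputable def nth (l : List ℕ) : ℕ → ℕ :=
  List.rec (fun _ => 0) (fun a _ ih i => Nat.rec a (fun j _ => ih j) i) l

noncomputable def rT (i : ℕ) : ℕ := nth tabT i
noncomputable def rA (i : ℕ) : ℕ := nth tabA i
noncomputable def rD (i : ℕ) : ℕ := nth tabD i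

noncomputable def lT (q r : ℕ) : ℕ :=
  @Nat.rec (fun _ => ℕ) 0 (fun r _ => Nat.land (Nat.shiftRight (rT r) (Nat.mul 16 q)) 65535) (Nat.succ r)
noncomputable def lA (q v : ℕ) : ℕ :=
  @Nat.rec (fun _ => ℕ) 0 (fun q _ => Nat.land (Nat.shiftRight (rA q) (Nat.mul 8 v)) 255) (Nat.succ q)
noncomputable def lD (v w : ℕ) : ℕ :=
  @Nat.rec (fun _ => ℕ) 0 (fun w _ => Nat.land (Nat.shiftRight (rD w) (Nat.mul 8 v)) 255) (Nat.succ w)
noncomputable def lI (q : ℕ) : ℕ := Nat.land (Nat.shiftRight tabI (Nat.mul 16 q)) 65535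

/-- The product of codes. -/
noncomputable def mul (a b : ℕ) : ℕ :=
  @Nat.rec (fun _ => ℕ) 0 (fun qb _ =>
  @Nat.rec (fun _ => ℕ) 0 (fun t _ =>
  @Nat.rec (fun _ => ℕ) 0 (fun vb _ =>
  @Nat.rec (fun _ => ℕ) 0 (fun vt _ =>
    Nat.add (Nat.sub t vt) (Nat.land (Nat.shiftRight (rD vt) (Nat.mul 8
      (Nat.land (Nat.shiftRight (rD vb) (Nat.mul 8
        (Nat.land (Nat.shiftRight (rA qb) (Nat.mul 8 (Nat.mod a 243))) 255))) 255))) 255))
  (Nat.succ (Nat.mod t 243)))
  (Nat.succ (Nat.mod b 243)))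
  (Nat.succ (Nat.land (Nat.shiftRight (rT qb) (Nat.mul 16 (Nat.div a 243))) 65535)))
  (Nat.succ (Nat.div b 243))

theorem mul_eq (a b : ℕ) : mul a b = lT (a / 243) (b / 243) - lT (a / 243) (b / 243) % 243 +
    lD (lD (lA (b / 243) (a % 243)) (b % 243)) (lT (a / 243) (b / 243) % 243) := rfl

/-- The inverse of a code. -/
noncomputable def inv (a : ℕ) : ℕ :=
  @Nat.rec (fun _ => ℕ) 0 (fun w _ =>
  @Nat.rec (fun _ => ℕ) 0 (fun r _ => mul w r) (Nat.succ (lI (Nat.div a 243))))
  (Nat.succ (lD (Nat.mod a 243) (Nat.mod a 243)))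

theorem inv_eq (a : ℕ) : inv a = mul (lD (a % 243) (a % 243)) (lI (a / 243)) := rfl

/-- Lazy conditional. -/
noncomputable def bif' {α : Type} (c : Bool) (a b : α) : α := Bool.rec b a c

theorem bif'_eq {α : Type} (c : Bool) (a b : α) : bif' c a b = if c = true then a else b := by
  cases c <;> rfl

/-- Bounded universal quantifier. -/
noncomputable def allLt (n : ℕ) (f : ℕ → Bool) : Bool :=
  Nat.rec true (fun m ih => Bool.rec false ih (f m)) n

theorem allLt_iff {n : ℕ} {f : ℕ → Bool} : allLt n f = true ↔ ∀ i < n, f i = true := by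
  induction n with
  | zero => simp [allLt]
  | succ n ih =>
    have : allLt (n + 1) f = Bool.rec false (allLt n f) (f n) := rfl
    rw [this, Nat.forall_lt_succ_right, ← ih]
    cases f n <;> simp

/-- Bounded existential quantifier. -/
noncomputable def anyLt (n : ℕ) (f : ℕ → Bool) : Bool :=
  Nat.rec false (fun m ih => Bool.rec ih true (f m)) n

theorem anyLt_iff {n : ℕ} {f : ℕ → Bool} : anyLt n f = true ↔ ∃ i < n, f i = true := by
  induction n with
  | zero => simp [anyLt]
  | succ n ih =>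
    have : anyLt (n + 1) f = Bool.rec (anyLt n f) true (f n) := rfl
    rw [this, Nat.exists_lt_succ_right, ← ih]
    cases f n <;> simp

/-- A check for all codes. -/
noncomputable def allC (f : ℕ → Bool) : Bool := allLt 243 fun i => allLt 243 fun j =>
  @Nat.rec (fun _ => Bool) true (fun c _ => f c) (Nat.succ (Nat.add (Nat.mul 243 i) j))

theorem allC_iff {f : ℕ → Bool} : allC f = true ↔ ∀ c < 59049, f c = true := by
  simp only [allC, allLt_iff]
  refine ⟨fun h c hc => ?_, fun h i hi j hj => h (243 * i + j) (by omega)⟩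
  have := h (c / 243) (by omega) (c % 243) (by omega)
  change f (243 * (c / 243) + c % 243) = true at this
  rwa [Nat.div_add_mod] at this

/-- The index of the last nonzero digit. -/
noncomputable def li (n : ℕ) : ℕ :=
  bif' (Nat.beq (Nat.mod n 3) 0) (bif' (Nat.beq (Nat.mod n 9) 0) (bif' (Nat.beq (Nat.mod n 27) 0)
    (bif' (Nat.beq (Nat.mod n 81) 0) 0 1) 2) 3) 4

/-- The place value of the last nonzero digit. -/
noncomputable def lu (n : ℕ) : ℕ :=
  bif' (Nat.beq (Nat.mod n 3) 0) (bif' (Nat.beq (Nat.mod n 9) 0) (bif' (Nat.beq (Nat.mod n 27) 0)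
    (bif' (Nat.beq (Nat.mod n 81) 0) 81 27) 9) 3) 1

theorem lu_spec : ∀ n < 243, n ≠ 0 → li n < 5 ∧ 0 < lu n ∧ lu n ≤ n ∧ lu (lu n) = lu n ∧
    li (lu n) = li n ∧ Wd 0 n = Wd 0 (n - lu n) ++ [li n] ∧
    Wd 5 n = Wd 5 (n - lu n) ++ [5 + li n] := by decide +kernel

theorem li_of_lu : ∀ n < 243, ∀ m < 243, lu n = lu m → li n = li m := by
  intro n _ m _
  simp only [li, lu, bif'_eq]
  split_ifs <;> simp

/-- The check of one entry of a multiplication table. -/
noncomputable def ckM (s k M : ℕ) (τ μ : ℕ → ℕ → ℕ) (v w : ℕ) : Bool :=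
  @Nat.rec (fun _ => Bool) true (fun t _ =>
  @Nat.rec (fun _ => Bool) true (fun u _ =>
  bif' (Nat.blt t M)
  (bif' (Nat.beq w 0) (Nat.beq t (s * v))
  (bif' (Nat.beq w u)
    (bif' (Nat.blt (v + u) 243 && Nat.beq (lu (v + u)) u) (Nat.beq t (s * (v + u)))
    (bif' (Nat.beq (lu v) u)
      (Nat.blt u v && Nat.beq (lu (v - u)) u && Nat.blt (cube (k + li u) / s) u &&
        Nat.blt (cube (k + li u)) M && Nat.beq t (μ (s * (v - u - u)) (cube (k + li u))))
      (Nat.blt 0 v && Nat.blt (li u) (li v) && Nat.blt (cjg (k + li v) (k + li u) / s) u &&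
        Nat.blt (cjg (k + li v) (k + li u)) M &&
        Nat.beq t (μ (τ (v - lu v) u) (cjg (k + li v) (k + li u))))))
    (Nat.beq t (μ (τ (Nat.add v 0) (Nat.sub w u)) (Nat.mul s u)))))
  false) (Nat.succ (lu w))) (Nat.succ (τ v w))

/-- The check of one entry of the action table. -/
noncomputable def ckA (q v : ℕ) : Bool :=
  @Nat.rec (fun _ => Bool) true (fun t _ =>
  @Nat.rec (fun _ => Bool) true (fun u _ =>
  bif' (Nat.blt t 243)
  (bif' (Nat.beq v 0) (Nat.beq t 0)
  (bif' (Nat.beq v u)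
    (bif' (Nat.beq q 0) (Nat.beq t u)
    (bif' (Nat.beq q (lu q)) (Nat.beq t (cjg (5 + li u) (li q)))
      (Nat.beq t (lA (lu q) (lA (q - lu q) u)))))
    (Nat.beq t (lD (lA q (Nat.sub v u)) (lA q u)))))
  false) (Nat.succ (lu v))) (Nat.succ (lA q v))

theorem ckD_all : allLt 243 (fun w => allLt 243 fun v => ckM 1 5 243 lD lD v w) = true := by
  decide +kernel

theorem ckA_all : allLt 243 (fun q => allLt 243 fun v => ckA q v) = true := by decide +kernel

theorem ckT_all : allLt 243 (fun w => allLt 243 fun v => ckM 243 0 59049 lT mul v w) = true := by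
  decide +kernel

theorem ckI_all : allLt 243 (fun q => Nat.blt (lI q) 59049 && Nat.beq (mul (243 * q) (lI q)) 0 &&
    Nat.beq (lD (lD q q) q) 0) = true := by decide +kernel

theorem ckV_all : allLt 243 (fun v => Nat.blt v 3 || anyLt 5 fun i =>
    Nat.blt 0 (lD (lD v v) (lA (3 ^ i) v)) && Nat.blt (lD (lD v v) (lA (3 ^ i) v)) v) = true := by
  decide +kernel

theorem ckV2_all : allLt 243 (fun v => allLt 243 fun w =>
    bif' (Nat.beq (lD (lD v v) w) 0) (Nat.beq v w) true) = true := by decide +kernel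

theorem ckQ_all : allLt 243 (fun q => allLt 243 fun r =>
    bif' (allLt 5 fun i => Nat.beq (lA q (Nat.pow 3 i)) (lA r (Nat.pow 3 i))) (Nat.beq q r) true) =
      true := by decide +kernel

theorem ckB_all : allLt 5 (fun l => allLt (3 ^ l) fun v => allLt (3 ^ l) fun w =>
    Nat.blt (lD v w) (3 ^ l) && Nat.blt (lT v w) (243 * 3 ^ l)) = true := by decide +kernel

theorem ckE_all : allLt 243 (fun q => allLt 243 fun r => bif' (Nat.beq (q / 27 % 3) 0)
    (bif' (Nat.beq (r / 27 % 3) 0) (Nat.beq (lT q r / 6561 % 3) 0) true) true) = true := by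
  decide +kernel

end Cfsg.Agent.ThS
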