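import Cfsg.Agent.Lib.ThS.Glue
import Cfsg.Agent.Lib.ThS.Ess
import Cfsg.Agent.Lib.ThS.N3
import Cfsg.Agent.Lib.ThS.Asm

/-!
Every saturated fusion system with trivial core over the model group is simple.
-/

set_option autoImplicit false

namespace Cfsg.Agent.ThS

open Cfsg

theorem simple_top {G : Type*} [Group G] {y : ℕ → G} (h : PC y)
    (F : FusionSystem (⊤ : Subgroup G)) (hF : F.IsSaturated 3) (hc : F.core = ⊥) :
    F.IsSimple 3 := by
  haveI := h.finite
  exact h.simple_of hF (h.hyp (ess h) fun _ hF => h.n3 hF) hc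

end Cfsg.Agent.ThS
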