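import Cfsg.Agent.Lib.ThS.Sec

/-!
The action of automorphisms of the group of order `3 ^ 10` on its layers.
-/

set_option autoImplicit false
set_option linter.style.haveILetI false
set_option linter.unusedVariables false

namespace Cfsg.Agent.ThS

open Subgroup Cfsg.Agent.Fus2 Cfsg.Agent.Ess
open L (K T M2 ap)

variable {G : Type*} [Group G] {y : ℕ → G}

def jz (y : ℕ → G) (w : T) : G := y 8 ^ w.1.val * y 9 ^ w.2.val
def j3 (y : ℕ → G) (w : T) : G := y 7 ^ w.1.val * y 8 ^ w.2.val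

/-- The code of a coordinate vector. -/
noncomputable def cj (i : ℕ) (w : T) : ℕ := mul (w.1.val * 3 ^ (9 - i)) (w.2.val * 3 ^ (9 - (i + 1)))

theorem PC.rj (h : PC y) {i : ℕ} (hi : i < 9) (w : T) :
    Rp y (cj i w) (y i ^ w.1.val * y (i + 1) ^ w.2.val) :=
  (Rp.gp h.toRel (by omega) (ZMod.val_lt _)).mul h.toRel (Rp.gp h.toRel (by omega) (ZMod.val_lt _))

theorem PC.mk_eq (h : PC y) {l a b : ℕ} {x z : G} (ha : Rp y a x) (hb : Rp y b z) :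
    (x : G ⧸ B y l) = z ↔ mul (inv a) b < 3 ^ l := by
  rw [QuotientGroup.eq, h.mem_B ((ha.inv h.toRel).mul h.toRel hb)]

theorem PC.sec (h : PC y) {i l s : ℕ} [(B y l).Normal] {E : Subgroup G} (hi : i < 9) (hs : s < 10)
    (hl : l ≤ 1) (h₁ : B y (l + 2) ≤ E) (h₂ : ∀ g, ∃ k < 3, (y s ^ k)⁻¹ * g ∈ E)
    (h₃ : ∀ g ∈ E, ∀ x ∈ B y (l + 2), icj g x ∈ B y l)
    (c₁ : ∀ w, cj i w < 3 ^ (l + 2))
    (c₂ : ∀ w w', mul (inv (cj i (w + w'))) (mul (cj i w) (cj i w')) < 3 ^ l)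
    (c₃ : ∀ w w', mul (inv (cj i w)) (cj i w') < 3 ^ l → w = w')
    (c₄ : ∀ c < 3 ^ (l + 2), ∃ w, mul (inv c) (cj i w) < 3 ^ l)
    (c₅ : ∀ k < 3, ∀ w, mul (inv (mul (mul (k * 3 ^ (9 - s)) (cj i w)) (inv (k * 3 ^ (9 - s)))))
      (cj i (tvz k w)) < 3 ^ l) :
    Sec E (B y (l + 2)) (B y l) fun w => y i ^ w.1.val * y (i + 1) ^ w.2.val where
  AE := h₁
  NA := B_mono (by omega)
  mem w := (h.rj hi w).mem_B_of_lt (c₁ w)
  add w w' := (h.mk_eq (h.rj hi _) ((h.rj hi w).mul h.toRel (h.rj hi w'))).2 (c₂ w w')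
  inj w w' e := c₃ w w' ((h.mk_eq (h.rj hi w) (h.rj hi w')).1 e)
  surj x hx := by
    obtain ⟨c, hc⟩ := h.exists_rp x
    obtain ⟨w, hw⟩ := c₄ c ((h.mem_B hc).1 hx)
    exact ⟨w, (h.mk_eq hc (h.rj hi w)).2 hw⟩
  cen g x hx := h.c1 g (B_mono hl hx)
  act g := by
    obtain ⟨k, hk, e⟩ := h₂ g
    refine ⟨k, fun w => ?_, fun h0 => ?_⟩
    · have r := Rp.gp h.toRel hs hk
      rw [← (h.mk_eq ((r.mul h.toRel (h.rj hi w)).mul h.toRel (r.inv h.toRel)) (h.rj hi _)).2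
        (c₅ k hk w)]
      have := (icj_mem_iff.1 (h₃ _ e _ ((h.rj hi w).mem_B_of_lt (c₁ w)))).eq
      beta_reduce
      generalize y i ^ w.1.val * y (i + 1) ^ w.2.val = x at this ⊢
      simp only [QuotientGroup.mk_mul, QuotientGroup.mk_inv] at this ⊢
      rw [mul_assoc, inv_mul_eq_iff_eq_mul] at this
      rw [this]; group
    · have : ∀ k < 3, ((k : ℕ) : K) = 0 → k = 0 := by decide
      simpa [this k hk h0] using e

theorem PC.sec1 (h : PC y) [(B y 0).Normal] : Sec (E1 y) (B y 2) (B y 0) (jz y) :=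
  h.sec (i := 8) (l := 0) (s := 0) (by decide) (by decide) (by decide) (B_mono (by decide))
    (fun g => h.decB 9 (h.top_B g)) (fun g hg x hx => h.cBB 9 2 0 hg hx) (by decide +kernel)
    (by decide +kernel) (by decide +kernel) (by decide +kernel) (by decide +kernel)

theorem B8_le_E2 : B y 8 ≤ E2 y := le_sup_right

theorem PC.dec2 (h : PC y) (g : G) : ∃ k < 3, (y 1 ^ k)⁻¹ * g ∈ E2 y := by
  haveI := h.nE2
  refine dec_of (B8_le_E2 (h.cube_mem (by decide) (by decide))) (h.gen_top.le _ (fun i hi => ?_)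
    (mem_top g))
  by_cases e : i = 1
  · exact e ▸ mem_sup_left (subset_closure rfl)
  · exact mem_sup_right (m2 i (by revert e; revert i; decide))

theorem PC.sec2 (h : PC y) [(B y 1).Normal] : Sec (E2 y) (B y 3) (B y 1) (j3 y) :=
  h.sec (i := 7) (l := 1) (s := 1) (by decide) (by decide) (by decide)
    ((B_mono (by decide)).trans B8_le_E2) h.dec2 (fun g hg x hx => h.e3 hg hx) (by decide +kernel)
    (by decide +kernel) (by decide +kernel) (by decide +kernel) (by decide +kernel)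

theorem PC.aut (h : PC y) (σ : MulAut G) :
    (∀ x ∈ B y 1, σ x ∈ B y 1) ∧ (∀ x ∈ B y 2, σ x ∈ B y 2) ∧ (∀ x ∈ B y 3, σ x ∈ B y 3) ∧
      ∀ x ∈ B y 4, σ x ∈ B y 4 := h.inv_top (homOn_hom ⊤ σ.toMonoidHom)

theorem map_icj (σ : MulAut G) (g x : G) : σ (icj g x) = icj (σ g) (σ x) := by simp [icj]

theorem PC.aut_E1 (h : PC y) (σ : MulAut G) {x : G} (hx : x ∈ E1 y) : σ x ∈ E1 y :=
  h.mem_E1_of (by simpa using congrArg σ (h.d2 hx ((h.aut σ⁻¹).2.1 _ (mB 8 2))))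

theorem PC.aut_E2 (h : PC y) (σ : MulAut G) {x : G} (hx : x ∈ E2 y) : σ x ∈ E2 y :=
  h.mem_E2_of (by
    simpa [map_icj] using (h.aut σ).1 _ (h.e3 hx ((h.aut σ⁻¹).2.2.1 _ (mB 7 3))))

theorem PC.aut_D (h : PC y) (σ : MulAut G) {x : G} (hx : x ∈ B y 8) : σ x ∈ B y 8 :=
  h.inf_le (h.aut_E1 σ (B_mono (by decide) hx)) (h.aut_E2 σ (B8_le_E2 hx))

theorem PC.aut_V (h : PC y) (σ : MulAut G) {x : G} (hx : x ∈ B y 5) : σ x ∈ B y 5 :=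
  h.succ_le 4 (K := (B y 5).comap σ.toMonoidHom)
    (fun z hz => B_mono (by decide) ((h.aut σ).2.2.2 z hz)) (z := icj (y 1) (y 2))
    (by simpa [map_icj] using h.d9 (h.aut_E1 σ (m1 1)) (h.aut_E1 σ (m1 2)))
    ((h.g 1).icj h.toRel (h.g 2)) (by decide +kernel) hx

theorem PC.aut_C (h : PC y) (σ : MulAut G) : σ (y 2) ∈ X y 2 5 := h.mem_C_of fun z hz => by
  simpa using congrArg σ (h.f4 ((gen_X 2 5).mem 2 (by decide)) ((h.aut σ⁻¹).2.2.2 z hz))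

theorem icj_congr {N : Subgroup G} [N.Normal] {x c u a : G} (h₁ : icj c (u * a) ∈ N)
    (h₂ : icj x a ∈ N) (h₃ : icj u a ∈ N) : ((icj (x * c) (u * a) : G) : G ⧸ N) = icj x u := by
  rw [icj_mem_iff] at h₁ h₂ h₃
  have e : icj (x * c) (u * a) = a⁻¹ * (u⁻¹ * x * (c * (u * a)) * c⁻¹ * x⁻¹) := by
    rw [icj]; group
  have e' : icj x u = u⁻¹ * x * u * x⁻¹ := by rw [icj]; group
  rw [e, e']
  simp only [QuotientGroup.mk_mul, QuotientGroup.mk_inv] at h₁ ⊢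
  rw [h₁.eq, inv_mul_eq_iff_eq_mul,
    ← (((h₃.inv_left.mul_left h₂).mul_left h₃).mul_left h₂.inv_left).eq, mul_assoc _ _ (a : G ⧸ N),
    h₂.inv_left.eq]
  group

/-- Powers of codes. -/
noncomputable def pw (c : ℕ) : ℕ → ℕ
  | 0 => 0
  | n + 1 => mul (pw c n) c

theorem Rp.pw (h : Rel y) {c : ℕ} {x : G} (hc : Rp y c x) : ∀ n, Rp y (pw c n) (x ^ n)
  | 0 => pow_zero x ▸ Rp.one
  | n + 1 => pow_succ x n ▸ (Rp.pw h hc n).mul h hc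

theorem PC.wt (h : PC y) (σ : MulAut G) (l x u z e : ℕ) (hN : ∀ n ∈ B y l, σ n ∈ B y l) {i j k : ℕ}
    (hi : i < 3) (hj : j < 3) (hk : k < 3)
    (h₁ : icj ((y x ^ i)⁻¹ * σ (y x)) (σ (y u)) ∈ B y l)
    (h₂ : icj (y x ^ i) ((y u ^ j)⁻¹ * σ (y u)) ∈ B y l)
    (h₃ : icj (y u ^ j) ((y u ^ j)⁻¹ * σ (y u)) ∈ B y l) (hz : (y z ^ k)⁻¹ * σ (y z) ∈ B y l)
    (hc : x < 10 ∧ u < 10 ∧ z < 10 ∧ l ≤ 10 ∧
      mul (inv (ic (3 ^ (9 - x)) (3 ^ (9 - u)))) (pw (3 ^ (9 - z)) e) < 3 ^ l ∧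
      ∀ i < 3, ∀ j < 3, ∀ k < 3, mul (inv (ic (i * 3 ^ (9 - x)) (j * 3 ^ (9 - u))))
        (pw (k * 3 ^ (9 - z)) e) < 3 ^ l → k = i * j % 3 := by decide +kernel) : k = i * j % 3 := by
  obtain ⟨hx, hu, hz', hl, c₁, c₂⟩ := hc
  haveI := h.nB l hl
  have r := h.toRel
  refine c₂ i hi j hj k hk ((h.mk_eq ((Rp.gp r hx hi).icj r (Rp.gp r hu hj))
    ((Rp.gp r hz' hk).pw r e)).1 ?_)
  have e₁ := hN _ (QuotientGroup.eq.1
    ((h.mk_eq ((h.g x hx).icj r (h.g u hu)) ((h.g z hz').pw r e)).2 c₁))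
  rw [map_mul, map_inv, ← QuotientGroup.eq, map_icj, map_pow, QuotientGroup.mk_pow,
    ← QuotientGroup.eq.2 hz, ← QuotientGroup.mk_pow] at e₁
  rw [← e₁, ← icj_congr (c := (y x ^ i)⁻¹ * σ (y x)) (by rwa [mul_inv_cancel_left]) h₂ h₃,
    mul_inv_cancel_left, mul_inv_cancel_left]

/-- The action on `B 2` determines the action on the Frattini quotient. -/
theorem PC.weights (h : PC y) (σ : MulAut G) {a b : ℕ} (ha : a < 3) (hb : b < 3)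
    (h8 : (y 8 ^ a)⁻¹ * σ (y 8) ∈ B y 1) (h9 : (y 9 ^ b)⁻¹ * σ (y 9) ∈ B y 0) :
    (y 0 ^ (a * b % 3))⁻¹ * σ (y 0) ∈ B y 8 ∧ (y 1 ^ b)⁻¹ * σ (y 1) ∈ B y 8 ∧
      (y 2 ^ a)⁻¹ * σ (y 2) ∈ B y 5 ∧ a ≠ 0 ∧ b ≠ 0 := by
  obtain ⟨i1, i2, i3, i4⟩ := h.aut σ
  have i0 : ∀ n ∈ B y 0, σ n ∈ B y 0 := by simp [h.B_zero]
  obtain ⟨α, hα, h0⟩ := h.decX 0 8 (h.aut_E2 σ (m2 0))
  obtain ⟨β, hβ, h1⟩ := h.decB 8 (h.aut_E1 σ (m1 1))
  obtain ⟨γ, hγ, h2⟩ := h.decX 2 5 (h.aut_C σ)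
  obtain ⟨e, he, h5⟩ := h.decB 4 (h.aut_V σ (mB 5 5))
  obtain ⟨w, hw, h6⟩ := h.decB 3 (i4 _ (mB 6 4))
  obtain ⟨c, hc, h7⟩ := h.decB 2 (i3 _ (mB 7 3))
  have z0 : ∀ {g x : G}, g * x = x * g → icj g x ∈ B y 0 := fun e => icj_eq_one.2 e ▸ one_mem _
  have h0' : _ ∈ E1 y := B_mono (by decide) h0
  have b24 : B y 2 ≤ B y 4 := B_mono (by decide)
  have r₁ := h.wt σ 0 0 8 9 2 i0 hα ha hb (z0 (h.d2 h0' (i2 _ (mB 8 2)))) (z0 (h.c1 _ h8))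
    (z0 (h.c1 _ h8)) h9
  have r₂ := h.wt σ 1 1 7 8 2 i1 hβ hc ha (h.e3 (B8_le_E2 h1) (i3 _ (mB 7 3))) (h.c2 _ h7)
    (h.c2 _ h7) h8
  have r₃ := h.wt σ 2 0 6 7 2 i2 hα hw hc (h.d5 h0' (h.aut_V σ (mB 6 5))) (h.c3 _ h6) (h.c3 _ h6) h7
  have r₄ := h.wt σ 3 0 5 6 2 i3 hα he hw (B_mono (by decide) (h.d5 h0' (h.aut_V σ (mB 5 5))))
    (h.c4 _ h5) (h.c4 _ h5) h6
  have r₅ := h.wt σ 4 1 2 5 2 i4 hβ hγ he (h.f8 h1 (h.aut_C σ)) (h.c6 _ (B_mono (by decide) h2))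
    (h.c6 _ (B_mono (by decide) h2)) h5
  have r₆ := h.wt σ 0 2 5 9 1 i0 hγ he hb (z0 (h.v5 h2 (h.aut_V σ (mB 5 5))))
    (z0 (h.f4 (pow_mem ((gen_X 2 5).mem 2 (by decide)) _) h5))
    (z0 (h.v5 (pow_mem (mB 5 5) _) (B_mono (by decide) h5))) h9
  have hb0 : b ≠ 0 := fun e => h.ne (by simpa [e, h.B_zero] using h9)
  have : ∀ α < 3, ∀ β < 3, ∀ γ < 3, γ * (β * γ % 3) % 3 ≠ 0 →
      γ * (β * γ % 3) % 3 = α * (β * (α * (α * (β * γ % 3) % 3) % 3) % 3) % 3 →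
      α = β * (α * (α * (β * γ % 3) % 3) % 3) % 3 * (γ * (β * γ % 3) % 3) % 3 ∧
        β = γ * (β * γ % 3) % 3 ∧ γ = β * (α * (α * (β * γ % 3) % 3) % 3) % 3 ∧
        β * (α * (α * (β * γ % 3) % 3) % 3) % 3 ≠ 0 := by
    intro α hα β hβ γ hγ
    interval_cases α <;> interval_cases β <;> interval_cases γ <;> decide
  have := this α hα β hβ γ hγ
  rw [← r₅, ← r₄, ← r₃, ← r₂, ← r₆] at this
  obtain ⟨e₁, e₂, e₃, e₄⟩ := this hb0 r₁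
  exact ⟨e₁ ▸ h0, e₂ ▸ h1, e₃ ▸ h2, e₄, hb0⟩

theorem PC.B7_le (h : PC y) : B y 7 ≤ phi 3 ⊤ := by
  have r := h.toRel
  have k : ∀ g x : G, icj g x ∈ phi 3 ⊤ := fun g x => icj_mem_phi trivial trivial
  exact h.succ_le 6 (h.succ_le 5 (h.succ_le 4 (h.succ_le 3 (h.succ_le 2 (h.succ_le 1 (h.succ_le 0
    (h.B0_le _) (k _ _) ((h.g 0).icj r (h.g 8))) (k _ _) ((h.g 1).icj r (h.g 7))) (k _ _)
    ((h.g 0).icj r (h.g 6))) (k _ _) ((h.g 0).icj r (h.g 5))) (k _ _) ((h.g 1).icj r (h.g 2)))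
    (k _ _) ((h.g 0).icj r (h.g 3))) (k _ _) ((h.g 0).icj r (h.g 1))

theorem PC.phi_le (h : PC y) (E : Subgroup G) : phi 3 E ≤ B y 7 := by
  have k : allC (fun c => Nat.blt (mul (mul c c) c) 2187) = true := by decide +kernel
  refine phi_le_iff.2 ⟨fun x _ => ?_, fun x _ z _ => ?_⟩
  · obtain ⟨c, hc⟩ := h.exists_rp x
    rw [pow_three']
    exact ((hc.mul h.toRel hc).mul h.toRel hc).mem_B_of_lt
      (by simpa [Nat.blt_eq] using allC_iff.1 k c hc.1)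
  · have := h.c10 z x⁻¹
    rwa [icj, inv_inv, ← mul_assoc, ← mul_assoc] at this

theorem PC.top_of (h : PC y) {R : Subgroup G} (h0 : y 0 ∈ R ⊔ B y 7) (h1 : y 1 ∈ R ⊔ B y 7)
    (h2 : y 2 ∈ R ⊔ B y 7) : R = ⊤ := by
  haveI := h.finite
  haveI : Fact (Nat.Prime 3) := ⟨Nat.prime_three⟩
  refine eq_top_iff.2 (nonGen_phi h.pg_top R le_top ((h.gen_top.le _ fun i hi => ?_).trans
    (sup_le_sup_left h.B7_le R)))
  have := h.gen_top.lt i hi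
  rcases (show i = 0 ∨ i = 1 ∨ i = 2 ∨ 3 ≤ i by omega) with rfl | rfl | rfl | e
  exacts [h0, h1, h2, mem_sup_right (gen_mem_B (by omega) this)]

/-- An automorphism acting trivially on the factors of `B 2 > B 1 > 1` has order a power of three. -/
theorem PC.pow_eq_one (h : PC y) (σ : MulAut G) (h8 : (y 8)⁻¹ * σ (y 8) ∈ B y 1)
    (h9 : (y 9)⁻¹ * σ (y 9) ∈ B y 0) : ∃ k, σ ^ 3 ^ k = 1 := by
  haveI := h.finite
  haveI : Fact (Nat.Prime 3) := ⟨Nat.prime_three⟩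
  haveI := h.nB 8
  haveI : (phi 3 (⊤ : Subgroup G)).Normal := normal_phi
  obtain ⟨h0, h1, h2, -⟩ := h.weights σ (a := 1) (b := 1) (by decide) (by decide)
    (by rwa [pow_one]) (by rwa [pow_one])
  have iP : Inv (zpowers σ) (phi 3 (⊤ : Subgroup G)) := (Ess.inv_top _).phi
  have t₁ : Fus.TrivOn σ ⊤ (B y 8) := fun x hx =>
    h.gen_top.le (U5.fm (B y 8) {σ}) (fun i hi => by
      rintro _ rfl
      have := h.gen_top.lt i hi
      rcases (show i = 0 ∨ i = 1 ∨ 2 ≤ i by omega) with rfl | rfl | e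
      exacts [by simpa using h0, by simpa using h1, mul_mem (inv_mem (gen_mem_B (by omega) this))
        (h.aut_D _ (gen_mem_B (by omega) this))]) hx σ rfl
  have t₂ : Fus.TrivOn σ (B y 8) (phi 3 ⊤) := fun x hx =>
    h.succ_le 7 (K := U5.fm (phi 3 ⊤) {σ}) (fun z hz => by
      rintro _ rfl
      exact mul_mem (inv_mem (h.B7_le hz)) (iP _ (mem_zpowers _) _ (h.B7_le hz))) (z := y 2) (by
      rintro _ rfl
      exact h.B7_le (B_mono (l := 5) (by decide) (by simpa using h2))) (h.g 2) (by decide) hx σ rfl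
  refine exists_pow_eq_one_of_mem (Ctl.isPGroup (Ctl.phi h.pg (Ctl.trans_normal h.pg iP
    (B := B y 8) (ctl_of_trivOn ?_) (ctl_of_trivOn ?_)))) (mem_zpowers σ)
  · rintro _ ⟨n, rfl⟩
    exact trivOn_zpow le_top t₁ n
  · rintro _ ⟨n, rfl⟩
    exact trivOn_zpow ((h.phi_le _).trans (B_mono (by decide))) t₂ n

end Cfsg.Agent.ThS
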